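import Mathlib

/-!
Project PW (row S5767): overgroups of the product-action wreath product.
Definitions, basic kit and the statements of the pieces.
Paper proof: `stubs/h87/PW.md`.
-/

set_option autoImplicit false
open Equiv

namespace Cfsg.Agent.H87.PW

section kit
variable {ι α : Type} [DecidableEq ι]

/-- the element `(π; τ)` of the wreath product in product action -/
def wr (π : Perm ι) (τ : ι → Perm α) : Perm (ι → α) where
  toFun x i := τ i (x (π.symm i))
  invFun x i := (τ (π i))⁻¹ (x (π i))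
  left_inv x := by funext i; simp
  right_inv x := by funext i; simp

omit [DecidableEq ι] in
@[simp] theorem wr_apply (π : Perm ι) (τ : ι → Perm α) (x : ι → α) (i : ι) :
    wr π τ x i = τ i (x (π.symm i)) := rfl

omit [DecidableEq ι] in
theorem wr_apply' (π : Perm ι) (τ : ι → Perm α) (x : ι → α) (i : ι) :
    wr π τ x (π i) = τ (π i) (x i) := by simp

omit [DecidableEq ι] in
@[simp] theorem wr_inv_apply (π : Perm ι) (τ : ι → Perm α) (x : ι → α) (i : ι) :
    (wr π τ)⁻¹ x i = (τ (π i))⁻¹ (x (π i)) := rfl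

omit [DecidableEq ι] in
@[simp] theorem wr_symm_apply (π : Perm ι) (τ : ι → Perm α) (x : ι → α) (i : ι) :
    (wr π τ).symm x i = (τ (π i)).symm (x (π i)) := rfl

omit [DecidableEq ι] in
theorem wr_mul (π π' : Perm ι) (τ τ' : ι → Perm α) :
    wr π τ * wr π' τ' = wr (π * π') (fun i => τ i * τ' (π.symm i)) := by
  ext x i; simp [Perm.mul_def]

omit [DecidableEq ι] in
theorem wr_one : wr (1 : Perm ι) (fun _ => (1 : Perm α)) = 1 := by
  ext x i; rfl

omit [DecidableEq ι] in
theorem wr_inv (π : Perm ι) (τ : ι → Perm α) :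
    (wr π τ)⁻¹ = wr π⁻¹ (fun i => (τ (π i))⁻¹) := by
  ext x i; rfl

/-- the permutation `τ` of coordinate `i` -/
def co (i : ι) (τ : Perm α) : Perm (ι → α) := wr 1 (Function.update (fun _ => 1) i τ)

@[simp] theorem co_self (i : ι) (τ : Perm α) (x : ι → α) : co i τ x i = τ (x i) := by
  simp [co, Perm.one_def]

theorem co_ne {i j : ι} (h : j ≠ i) (τ : Perm α) (x : ι → α) : co i τ x j = x j := by
  simp [co, Perm.one_def, Function.update_of_ne h]

theorem co_apply (i : ι) (τ : Perm α) (x : ι → α) : co i τ x = Function.update x i (τ (x i)) := by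
  funext j
  by_cases h : j = i
  · subst h; simp
  · rw [co_ne h, Function.update_of_ne h]

theorem co_mul (i : ι) (τ σ : Perm α) : co i (τ * σ) = co i τ * co i σ := by
  ext x j
  by_cases h : j = i
  · subst h; simp
  · simp [co_ne h]

@[simp] theorem co_one (i : ι) : co i (1 : Perm α) = 1 := by
  ext x j
  by_cases h : j = i
  · subst h; simp
  · simp [co_ne h]

/-- `co i` as a homomorphism -/
def coHom (i : ι) : Perm α →* Perm (ι → α) where
  toFun := co i
  map_one' := co_one i
  map_mul' := co_mul i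

theorem co_inv (i : ι) (τ : Perm α) : co i τ⁻¹ = (co i τ)⁻¹ := map_inv (coHom i) τ

theorem co_pow (i : ι) (τ : Perm α) (n : ℕ) : co i (τ ^ n) = co i τ ^ n := map_pow (coHom i) τ n

theorem co_fix_iff (i : ι) (τ : Perm α) (x : ι → α) : co i τ x = x ↔ τ (x i) = x i := by
  constructor
  · intro h; simpa using congrFun h i
  · intro h; rw [co_apply, h, Function.update_eq_self]

theorem co_comm {i j : ι} (h : i ≠ j) (τ σ : Perm α) : co i τ * co j σ = co j σ * co i τ := by
  ext x l
  by_cases h1 : l = i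
  · subst h1; simp [co_ne h]
  · by_cases h2 : l = j
    · subst h2; simp [co_ne h1]
    · simp [co_ne h1, co_ne h2]

theorem co_inj [Nonempty α] (i : ι) {τ σ : Perm α} (h : co i τ = co i σ) : τ = σ := by
  ext a
  have := congrFun (congrArg (fun g : Perm (ι → α) => g (fun _ => a)) h) i
  simpa using this

theorem wr_conj_co (π : Perm ι) (τ : ι → Perm α) (i : ι) (σ : Perm α) :
    wr π τ * co i σ * (wr π τ)⁻¹ = co (π i) (τ (π i) * σ * (τ (π i))⁻¹) := by
  ext x j
  by_cases h : j = π i
  · subst h; simp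
  · have h' : π.symm j ≠ i := fun e => h (by rw [← e]; simp)
    simp [co_ne h, co_ne h']

/-- membership in the full wreath product -/
def InW (g : Perm (ι → α)) : Prop := ∃ (π : Perm ι) (τ : ι → Perm α), g = wr π τ

/-- the wreath product in product action -/
def W (ι α : Type) : Subgroup (Perm (ι → α)) where
  carrier := {g | InW g}
  mul_mem' := by
    rintro _ _ ⟨π, τ, rfl⟩ ⟨π', τ', rfl⟩
    exact ⟨_, _, wr_mul _ _ _ _⟩
  one_mem' := ⟨1, fun _ => 1, wr_one.symm⟩
  inv_mem' := by
    rintro _ ⟨π, τ, rfl⟩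
    exact ⟨_, _, wr_inv _ _⟩

omit [DecidableEq ι] in
theorem mem_W {g : Perm (ι → α)} : g ∈ W ι α ↔ InW g := Iff.rfl

theorem co_mem_W (i : ι) (τ : Perm α) : co i τ ∈ W ι α := ⟨_, _, rfl⟩

omit [DecidableEq ι] in
theorem wr_mem_W (π : Perm ι) (τ : ι → Perm α) : wr π τ ∈ W ι α := ⟨_, _, rfl⟩

/-- adjacency in the Hamming graph -/
def Adj (x y : ι → α) : Prop := ∃ i, x i ≠ y i ∧ ∀ j, j ≠ i → x j = y j

/-- the line (direction `i`) through a point, as a point of the smaller cube -/
def res (i : ι) (x : ι → α) : {j // j ≠ i} → α := fun j => x j.1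

/-- the point with `i`-th coordinate `a` on the line `l` -/
def ins (i : ι) (a : α) (l : {j // j ≠ i} → α) : ι → α :=
  fun j => if h : j = i then a else l ⟨j, h⟩

@[simp] theorem ins_self (i : ι) (a : α) (l : {j // j ≠ i} → α) : ins i a l i = a := by
  simp [ins]

theorem ins_ne {i j : ι} (h : j ≠ i) (a : α) (l : {j // j ≠ i} → α) : ins i a l j = l ⟨j, h⟩ := by
  simp [ins, h]

@[simp] theorem res_ins (i : ι) (a : α) (l : {j // j ≠ i} → α) : res i (ins i a l) = l := by
  funext j; simp [res, ins, j.2]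

theorem ins_res (i : ι) (x : ι → α) : ins i (x i) (res i x) = x := by
  funext j
  by_cases h : j = i
  · subst h; simp
  · simp [ins, h, res]

omit [DecidableEq ι] in
theorem res_eq_iff (i : ι) (x y : ι → α) : res i x = res i y ↔ ∀ j, j ≠ i → x j = y j :=
  ⟨fun h j hj => congrFun h ⟨j, hj⟩, fun h => funext fun j => h j.1 j.2⟩

@[simp] theorem res_co (i : ι) (τ : Perm α) (x : ι → α) : res i (co i τ x) = res i x :=
  (res_eq_iff _ _ _).2 fun _ hj => co_ne hj _ _

theorem ext_res {i : ι} {x y : ι → α} (h1 : x i = y i) (h2 : res i x = res i y) : x = y := by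
  rw [← ins_res i x, ← ins_res i y, h1, h2]

omit [DecidableEq ι] in
theorem adj_wr (π : Perm ι) (τ : ι → Perm α) {x y : ι → α} (h : Adj x y) :
    Adj (wr π τ x) (wr π τ y) := by
  obtain ⟨i, h1, h2⟩ := h
  refine ⟨π i, by simpa using h1, fun j hj => ?_⟩
  have : π.symm j ≠ i := fun e => hj (by rw [← e]; simp)
  simp [h2 _ this]

omit [DecidableEq ι] in
theorem not_adj {x y : ι → α} {i j : ι} (hij : i ≠ j) (hi : x i ≠ y i) (hj : x j ≠ y j) :
    ¬ Adj x y := by
  rintro ⟨l, -, h⟩
  by_cases e : i = l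
  · exact hj (h j (e ▸ hij.symm))
  · exact hi (h i e)

/-- connectivity of a slice along lines -/
theorem conn [Fintype ι] (P : (ι → α) → Prop) (S : Set ι)
    (h : ∀ x, P x → ∀ j ∈ S, ∀ v, P (Function.update x j v)) {x y : ι → α} (hx : P x)
    (hxy : ∀ l, l ∉ S → x l = y l) : P y := by
  classical
  have key : ∀ s : Finset ι, P (fun l => if l ∈ s then y l else x l) := by
    intro s
    induction s using Finset.induction_on with
    | empty => simpa using hx
    | insert j s hj ih =>
      by_cases hS : j ∈ S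
      · convert h _ ih j hS (y j) using 1
        funext l
        by_cases e : l = j
        · subst e; simp
        · simp [e]
      · convert ih using 1
        funext l
        by_cases e : l = j
        · subst e; simp [hj, hxy l hS]
        · simp [e]
  simpa using key Finset.univ

omit [DecidableEq ι] in
theorem inW_of_subsingleton [Subsingleton ι] (g : Perm (ι → α)) : InW g := by
  classical
  rcases isEmpty_or_nonempty ι with h | ⟨⟨i⟩⟩
  · exact ⟨1, fun _ => 1, by ext x j; exact isEmptyElim j⟩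
  · haveI : Unique ι := ⟨⟨i⟩, fun j => Subsingleton.elim _ _⟩
    refine ⟨1, fun _ => (Equiv.funUnique ι α).permCongr g, ?_⟩
    ext x j
    have hj : j = default := Subsingleton.elim _ _
    subst hj
    have : (Equiv.funUnique ι α).symm (x default) = x := (Equiv.funUnique ι α).symm_apply_apply x
    simp [Perm.one_def, Equiv.permCongr_apply, this]

theorem card_ne [Fintype ι] (i : ι) : Fintype.card {j // j ≠ i} = Fintype.card ι - 1 := by
  rw [Fintype.card_subtype_compl, Fintype.card_subtype_eq]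

variable [DecidableEq α]

theorem card_slice [Fintype ι] [Fintype α] (i : ι) (T : Finset α) :
    (Finset.univ.filter (fun x : ι → α => x i ∈ T)).card =
      T.card * Fintype.card α ^ (Fintype.card ι - 1) := by
  have h1 := card_ne i
  have h2 : (T ×ˢ (Finset.univ : Finset ({j // j ≠ i} → α))).card =
      T.card * Fintype.card α ^ (Fintype.card ι - 1) := by
    rw [Finset.card_product, Finset.card_univ, Fintype.card_fun, h1]
  rw [← h2]
  apply Finset.card_bij (fun x _ => (x i, res i x))
  · intro x hx; simpa using hx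
  · intro x _ y _ e
    exact ext_res (congrArg Prod.fst e) (congrArg Prod.snd e)
  · rintro ⟨a, l⟩ h
    exact ⟨ins i a l, by simpa using h, by simp⟩

theorem support_co [Fintype ι] [Fintype α] (i : ι) (τ : Perm α) :
    (co i τ).support = Finset.univ.filter (fun x : ι → α => x i ∈ τ.support) := by
  ext x; simp [co_fix_iff]

theorem card_support_co [Fintype ι] [Fintype α] (i : ι) (τ : Perm α) :
    (co i τ).support.card = τ.support.card * Fintype.card α ^ (Fintype.card ι - 1) := by
  rw [support_co, card_slice]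

/-- the 3-cycle `p ↦ q ↦ r ↦ p` -/
def c3 (p q r : α) : Perm α := swap p r * swap p q

theorem c3_1 {p q r : α} (hpq : p ≠ q) (hqr : q ≠ r) : c3 p q r p = q := by
  simp [c3, swap_apply_of_ne_of_ne hpq.symm hqr]

theorem c3_2 (p q r : α) : c3 p q r q = r := by simp [c3]

theorem c3_3 {p q r : α} (hpr : p ≠ r) (hqr : q ≠ r) : c3 p q r r = p := by
  simp [c3, swap_apply_of_ne_of_ne hpr.symm hqr.symm]

theorem c3_of_ne {p q r x : α} (h1 : x ≠ p) (h2 : x ≠ q) (h3 : x ≠ r) : c3 p q r x = x := by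
  simp [c3, swap_apply_of_ne_of_ne h1 h2, swap_apply_of_ne_of_ne h1 h3]

variable [Fintype α]

theorem c3_sign {p q r : α} (hpq : p ≠ q) (hpr : p ≠ r) : Perm.sign (c3 p q r) = 1 := by
  simp [c3, hpq, hpr]

theorem c3_isThreeCycle {p q r : α} (hpq : p ≠ q) (hpr : p ≠ r) (hqr : q ≠ r) :
    (c3 p q r).IsThreeCycle :=
  Perm.isThreeCycle_swap_mul_swap_same hpr hpq hqr.symm

/-- a new value outside a list of at most four -/
theorem exists_new (hm : 5 ≤ Fintype.card α) (a b c d : α) :
    ∃ e, e ≠ a ∧ e ≠ b ∧ e ≠ c ∧ e ≠ d := by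
  by_contra h
  push Not at h
  have : (Finset.univ : Finset α) ⊆ {a, b, c, d} := by
    intro e _
    by_cases h1 : e = a
    · simp [h1]
    by_cases h2 : e = b
    · simp [h2]
    by_cases h3 : e = c
    · simp [h3]
    simp [h e h1 h2 h3]
  have h2 := Finset.card_le_card this
  have h3 : ({a, b, c, d} : Finset α).card ≤ 4 := Finset.card_le_four
  rw [Finset.card_univ] at h2
  omega

/-- any permutation can be made even by a swap of two prescribed values -/
theorem even_or_swap (τ : Perm α) {p q : α} (h : p ≠ q) :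
    Perm.sign τ = 1 ∨ Perm.sign (τ * swap p q) = 1 := by
  rcases Int.units_eq_one_or (Perm.sign τ) with h1 | h1
  · exact Or.inl h1
  · right; simp [h1, h]

/-- the alternating group is 3-transitive -/
theorem exists_even3 (hm : 5 ≤ Fintype.card α) {a b c a' b' c' : α} (hab : a ≠ b) (hac : a ≠ c)
    (hbc : b ≠ c) (hab' : a' ≠ b') (hac' : a' ≠ c') (hbc' : b' ≠ c') :
    ∃ τ : Perm α, Perm.sign τ = 1 ∧ τ a = a' ∧ τ b = b' ∧ τ c = c' := by
  have key : ∃ τ : Perm α, τ a = a' ∧ τ b = b' ∧ τ c = c' := by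
    let s1 := swap a a'
    let s2 := swap (s1 b) b'
    let s3 := swap (s2 (s1 c)) c'
    have h1 : s1 a = a' := swap_apply_left _ _
    have h2 : s2 a' = a' := by
      apply swap_apply_of_ne_of_ne _ hab'
      rw [← h1]; exact fun e => hab (s1.injective e)
    have h3 : s2 (s1 b) = b' := swap_apply_left _ _
    have h4 : s3 a' = a' := by
      apply swap_apply_of_ne_of_ne _ hac'
      rw [← h2, ← h1]; exact fun e => hac (s1.injective (s2.injective e))
    have h5 : s3 b' = b' := by
      apply swap_apply_of_ne_of_ne _ hbc'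
      rw [← h3]; exact fun e => hbc (s1.injective (s2.injective e))
    refine ⟨s3 * s2 * s1, ?_, ?_, ?_⟩
    · simp only [Perm.mul_apply]; rw [h1, h2, h4]
    · simp only [Perm.mul_apply]; rw [h3, h5]
    · simp only [Perm.mul_apply]; exact swap_apply_left _ _
  obtain ⟨τ, h1, h2, h3⟩ := key
  obtain ⟨d, hd1, hd2, hd3, -⟩ := exists_new hm a b c c
  obtain ⟨e, he1, he2, he3, he4⟩ := exists_new hm a b c d
  rcases even_or_swap τ he4 with h | h
  · exact ⟨τ, h, h1, h2, h3⟩
  · refine ⟨_, h, ?_, ?_, ?_⟩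
    · rw [Perm.mul_apply, swap_apply_of_ne_of_ne he1.symm hd1.symm, h1]
    · rw [Perm.mul_apply, swap_apply_of_ne_of_ne he2.symm hd2.symm, h2]
    · rw [Perm.mul_apply, swap_apply_of_ne_of_ne he3.symm hd3.symm, h3]

theorem exists_even2 (hm : 5 ≤ Fintype.card α) {a b a' b' : α} (hab : a ≠ b) (hab' : a' ≠ b') :
    ∃ τ : Perm α, Perm.sign τ = 1 ∧ τ a = a' ∧ τ b = b' := by
  obtain ⟨c, h1, h2, -⟩ := exists_new hm a b b b
  obtain ⟨c', h1', h2', -⟩ := exists_new hm a' b' b' b'
  obtain ⟨τ, h, ha, hb, -⟩ := exists_even3 hm hab h1.symm h2.symm hab' h1'.symm h2'.symm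
  exact ⟨τ, h, ha, hb⟩

theorem exists_even1 (hm : 5 ≤ Fintype.card α) (a a' : α) :
    ∃ τ : Perm α, Perm.sign τ = 1 ∧ τ a = a' := by
  obtain ⟨c, h1, -⟩ := exists_new hm a a a a
  obtain ⟨c', h1', -⟩ := exists_new hm a' a' a' a'
  obtain ⟨τ, h, ha, -⟩ := exists_even2 hm h1.symm h1'.symm
  exact ⟨τ, h, ha⟩

/-- the hypothesis of the induction: `H` contains the even base group and covers the top group -/
structure Hyp (H : Subgroup (Perm (ι → α))) : Prop where
  co_mem : ∀ (i : ι) (τ : Perm α), Perm.sign τ = 1 → co i τ ∈ H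
  top : ∀ π : Perm ι, ∃ τ : ι → Perm α, wr π τ ∈ H

theorem Hyp.base [Fintype ι] {H : Subgroup (Perm (ι → α))} (h : Hyp H) (τ : ι → Perm α)
    (hτ : ∀ i, Perm.sign (τ i) = 1) : wr 1 τ ∈ H := by
  have key : ∀ s : Finset ι, wr 1 (fun i => if i ∈ s then τ i else 1) ∈ H := by
    intro s
    induction s using Finset.induction_on with
    | empty => simp [wr_one]
    | insert j s hj ih =>
      have : wr 1 (fun i => if i ∈ insert j s then τ i else 1) =
          co j (τ j) * wr 1 (fun i => if i ∈ s then τ i else 1) := by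
        ext x l
        by_cases h : l = j
        · subst h; simp [hj, Perm.one_def]
        · simp [co_ne h, h, Perm.one_def]
      rw [this]
      exact H.mul_mem (h.co_mem _ _ (hτ j)) ih
  simpa using key Finset.univ

/-- top elements whose base part is `1` or a prescribed swap in each coordinate -/
theorem Hyp.top' [Fintype ι] {H : Subgroup (Perm (ι → α))} (h : Hyp H) (π : Perm ι)
    (p q : ι → α) (hpq : ∀ i, p i ≠ q i) :
    ∃ τ : ι → Perm α, wr π τ ∈ H ∧ ∀ i, τ i = 1 ∨ τ i = swap (p i) (q i) := by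
  obtain ⟨τ, hτ⟩ := h.top π
  let σ : ι → Perm α := fun i => if Perm.sign (τ i) = 1 then 1 else swap (p i) (q i)
  refine ⟨σ, ?_, fun i => ?_⟩
  · have h1 := h.base (fun i => σ i * (τ i)⁻¹) (fun i => by
      by_cases h0 : Perm.sign (τ i) = 1
      · simp [σ, h0]
      · have := (Int.units_eq_one_or (Perm.sign (τ i))).resolve_left h0
        simp [σ, this, hpq i])
    have h2 := H.mul_mem h1 hτ
    rw [wr_mul, one_mul] at h2
    convert h2 using 2
    funext i
    simp [Perm.one_def]
  · by_cases h0 : Perm.sign (τ i) = 1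
    · left; simp [σ, h0]
    · right; simp [σ, h0]

end kit

section stmts

/-- the standing situation: at least two coordinates, at least five values, `H` not giant -/
structure Ctx {ι α : Type} [Fintype ι] [DecidableEq ι] [Fintype α] [DecidableEq α]
    (H : Subgroup (Perm (ι → α))) : Prop where
  hm : 5 ≤ Fintype.card α
  hk : 2 ≤ Fintype.card ι
  hyp : Hyp H
  small : ¬ alternatingGroup (ι → α) ≤ H

/-- Jordan case: the pointwise stabiliser of each hyperplane is transitive on its complement -/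
def Jord {ι α : Type} (H : Subgroup (Perm (ι → α))) : Prop :=
  ∀ (i : ι) (a : α) (x y : ι → α), x i ≠ a → y i ≠ a →
    ∃ g ∈ H, (∀ z : ι → α, z i = a → g z = z) ∧ g x = y

/-- small case: the pointwise stabiliser of each hyperplane consists of coordinate permutations -/
def Small {ι α : Type} [DecidableEq ι] (H : Subgroup (Perm (ι → α))) : Prop :=
  ∀ (i : ι) (a : α), ∀ g ∈ H, (∀ z : ι → α, z i = a → g z = z) → ∃ τ : Perm α, g = co i τ

/-- an element mapping some hyperplane into a hyperplane lies in the wreath product -/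
def MW {ι α : Type} (H : Subgroup (Perm (ι → α))) : Prop :=
  ∀ g ∈ H, ∀ (i j : ι) (a b : α), (∀ x : ι → α, x i = a → g x j = b) → InW g

/-- the centraliser of a coordinate 3-cycle lies in the wreath product -/
def CW {ι α : Type} [DecidableEq ι] [DecidableEq α] (H : Subgroup (Perm (ι → α))) : Prop :=
  ∀ c ∈ H, ∀ (i : ι) (p q r : α), p ≠ q → p ≠ r → q ≠ r →
    c * co i (c3 p q r) = co i (c3 p q r) * c → InW c

/-- elements preserving all lines of one direction are coordinate permutations -/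
def RW {ι α : Type} [DecidableEq ι] (H : Subgroup (Perm (ι → α))) : Prop :=
  ∀ g ∈ H, ∀ i : ι, (∀ x, res i (g x) = res i x) → ∃ τ : Perm α, g = co i τ

/-- no nontrivial element is supported in a hyperplane -/
def T0W {ι α : Type} (H : Subgroup (Perm (ι → α))) : Prop :=
  ∀ g ∈ H, ∀ (i : ι) (a : α), (∀ x : ι → α, x i ≠ a → g x = x) → g = 1

/-- the induction hypothesis in usable form: a group `X` acting on the lines of direction `i`
through an invariant set `S` containing a hyperplane acts like the smaller wreath product or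
induces every even permutation of the lines -/
def IndW (ι α : Type) [Fintype ι] [DecidableEq ι] [Fintype α] [DecidableEq α] : Prop :=
  ∀ (X : Subgroup (Perm (ι → α))) (i : ι) (a : α) (S : Set (ι → α)),
    (∀ x : ι → α, x i = a → x ∈ S) → (∀ g ∈ X, ∀ x ∈ S, g x ∈ S) →
    (∀ g ∈ X, ∀ x ∈ S, ∀ y ∈ S, res i x = res i y → res i (g x) = res i (g y)) →
    (∀ j, j ≠ i → ∀ τ : Perm α, Perm.sign τ = 1 → co j τ ∈ X) →
    (∀ π : Perm ι, π i = i → ∃ τ : ι → Perm α, wr π τ ∈ X) →
    (∀ g ∈ X, ∃ (π : Perm ι) (τ : ι → Perm α), π i = i ∧ τ i = 1 ∧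
        ∀ x ∈ S, res i (g x) = res i (wr π τ x)) ∨
      (3 ≤ Fintype.card ι ∧ ∀ ψ : Perm ({j // j ≠ i} → α), Perm.sign ψ = 1 →
        ∃ g ∈ X, ∀ x ∈ S, res i (g x) = ψ (res i x))

/-- main theorem for `k` coordinates -/
def PStmt (k : ℕ) : Prop :=
  ∀ (ι α : Type) [Fintype ι] [DecidableEq ι] [Fintype α] [DecidableEq α],
    Fintype.card ι = k → 5 ≤ Fintype.card α → ∀ H : Subgroup (Perm (ι → α)), Hyp H →
      (∀ g ∈ H, InW g) ∨ alternatingGroup (ι → α) ≤ H

/-- PRIM: primitivity on a slice `{x | x j = b j off S}` -/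
def PrimStmt : Prop :=
  ∀ (ι α : Type) [Fintype ι] [DecidableEq ι] [Fintype α] [DecidableEq α], 5 ≤ Fintype.card α →
    ∀ (S : Set ι) (b : ι → α) (r : (ι → α) → (ι → α) → Prop), Equivalence r →
      (∀ j ∈ S, ∀ τ : Perm α, Perm.sign τ = 1 → ∀ x y, r x y → r (co j τ x) (co j τ y)) →
      (∀ i ∈ S, ∀ j ∈ S, ∃ (π : Perm ι) (τ : ι → Perm α), π i = j ∧
        (∀ l, l ∉ S → π l = l ∧ τ l (b l) = b l) ∧ ∀ x y, r x y → r (wr π τ x) (wr π τ y)) →
      (∀ x y, (∀ l, l ∉ S → x l = b l) → (∀ l, l ∉ S → y l = b l) → r x y → x = y) ∨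
        (∀ x y, (∀ l, l ∉ S → x l = b l) → (∀ l, l ∉ S → y l = b l) → r x y)

/-- JW: no Jordan set of size between 2 and half the degree (S3620) -/
def JWStmt : Prop :=
  ∀ (ι α : Type) [Fintype ι] [DecidableEq ι] [Fintype α] [DecidableEq α]
    (H : Subgroup (Perm (ι → α))), Ctx H → ∀ Γ : Set (ι → α), 1 < Γ.ncard →
      2 * Γ.ncard < Fintype.card (ι → α) →
      ¬ ∀ x ∈ Γ, ∀ y ∈ Γ, ∃ g ∈ H, (∀ z, z ∉ Γ → g z = z) ∧ g x = y

def T0Stmt : Prop :=
  ∀ (ι α : Type) [Fintype ι] [DecidableEq ι] [Fintype α] [DecidableEq α]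
    (H : Subgroup (Perm (ι → α))), Ctx H → T0W H

/-- T1: an element supported in two parallel hyperplanes moves points along their normal -/
def T1Stmt : Prop :=
  ∀ (ι α : Type) [Fintype ι] [DecidableEq ι] [Fintype α] [DecidableEq α]
    (H : Subgroup (Perm (ι → α))), Ctx H → ∀ g ∈ H, ∀ (i : ι) (p s : α),
      (∀ x : ι → α, x i ≠ p → x i ≠ s → g x = x) → ∀ x, res i (g x) = res i x

def RStmt : Prop :=
  ∀ (ι α : Type) [Fintype ι] [DecidableEq ι] [Fintype α] [DecidableEq α]
    (H : Subgroup (Perm (ι → α))), Ctx H → RW H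

def DichStmt : Prop :=
  ∀ (ι α : Type) [Fintype ι] [DecidableEq ι] [Fintype α] [DecidableEq α]
    (H : Subgroup (Perm (ι → α))), Ctx H → Jord H ∨ Small H

def IndStmt : Prop :=
  ∀ (ι α : Type) [Fintype ι] [DecidableEq ι] [Fintype α] [DecidableEq α],
    5 ≤ Fintype.card α → PStmt (Fintype.card ι - 1) → IndW ι α

/-- JK2: the Jordan case in dimension two -/
def JK2Stmt : Prop :=
  ∀ (ι α : Type) [Fintype ι] [DecidableEq ι] [Fintype α] [DecidableEq α]
    (H : Subgroup (Perm (ι → α))), Ctx H → Fintype.card ι = 2 → Jord H →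
      MulAction.IsMultiplyPretransitive H (ι → α) (Fintype.card α)

/-- JK3: the Jordan case in dimension at least three -/
def JK3Stmt : Prop :=
  ∀ (ι α : Type) [Fintype ι] [DecidableEq ι] [Fintype α] [DecidableEq α]
    (H : Subgroup (Perm (ι → α))), Ctx H → 3 ≤ Fintype.card ι → IndW ι α → Jord H →
      MulAction.IsMultiplyPretransitive H (ι → α) (Fintype.card α ^ (Fintype.card ι - 2) + 1)

/-- BOCH: Bochert's bound for 4-transitive groups -/
def BochStmt : Prop :=
  ∀ (β : Type) [Fintype β] [DecidableEq β] (G : Subgroup (Perm β)),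
    MulAction.IsMultiplyPretransitive G β 4 → ¬ alternatingGroup β ≤ G → 30 ≤ Fintype.card β →
      ∀ g ∈ G, g ≠ 1 → Fintype.card β ≤ 2 * g.support.card + 4

/-- MILL: Miller's bound for degrees `5 ^ k`, `6 ^ k` -/
def MillStmt : Prop :=
  ∀ (β : Type) [Fintype β] [DecidableEq β] (G : Subgroup (Perm β)) (m k : ℕ),
    (m = 5 ∨ m = 6) → 2 ≤ k → Fintype.card β = m ^ k →
      MulAction.IsMultiplyPretransitive G β (if k = 2 then m else m ^ (k - 2) + 1) →
      alternatingGroup β ≤ G

def MStmt : Prop :=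
  ∀ (ι α : Type) [Fintype ι] [DecidableEq ι] [Fintype α] [DecidableEq α]
    (H : Subgroup (Perm (ι → α))), Ctx H → IndW ι α → T0W H → Small H → MW H

def C7Stmt : Prop :=
  ∀ (ι α : Type) [Fintype ι] [DecidableEq ι] [Fintype α] [DecidableEq α]
    (H : Subgroup (Perm (ι → α))), Ctx H → 7 ≤ Fintype.card α → Small H → MW H → CW H

/-- EL: for 5 or 6 values, an element centralising a coordinate 3-cycle and preserving each of
its cycles is a coordinate permutation -/
def ELStmt : Prop :=
  ∀ (ι α : Type) [Fintype ι] [DecidableEq ι] [Fintype α] [DecidableEq α]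
    (H : Subgroup (Perm (ι → α))), Ctx H → Fintype.card α ≤ 6 → Small H → RW H →
      ∀ c ∈ H, ∀ (i : ι) (p q r : α), p ≠ q → p ≠ r → q ≠ r →
        c * co i (c3 p q r) = co i (c3 p q r) * c →
        (∀ x : ι → α, x i = p → res i (c x) = res i x) → ∃ τ : Perm α, c = co i τ

def C56Stmt : Prop :=
  ∀ (ι α : Type) [Fintype ι] [DecidableEq ι] [Fintype α] [DecidableEq α]
    (H : Subgroup (Perm (ι → α))), Ctx H → IndW ι α → MW H →
      (∀ c ∈ H, ∀ (i : ι) (p q r : α), p ≠ q → p ≠ r → q ≠ r →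
        c * co i (c3 p q r) = co i (c3 p q r) * c →
        (∀ x : ι → α, x i = p → res i (c x) = res i x) → ∃ τ : Perm α, c = co i τ) → CW H

/-- AUT: automorphisms of the Hamming graph -/
def AutStmt : Prop :=
  ∀ (ι α : Type) [Fintype ι] [DecidableEq ι] [Fintype α] [DecidableEq α], 5 ≤ Fintype.card α →
    ∀ g : Perm (ι → α), (∀ x y, Adj x y ↔ Adj (g x) (g y)) → InW g

/-- FIX: a wreath element of order 3 fixing as many points as a coordinate 3-cycle is one -/
def FixStmt : Prop :=
  ∀ (ι α : Type) [Fintype ι] [DecidableEq ι] [Fintype α] [DecidableEq α], 5 ≤ Fintype.card α →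
    ∀ g : Perm (ι → α), InW g → g ^ 3 = 1 →
      g.support.card = 3 * Fintype.card α ^ (Fintype.card ι - 1) → 1 ≤ Fintype.card ι →
      ∃ (j : ι) (p q r : α), p ≠ q ∧ p ≠ r ∧ q ≠ r ∧ g = co j (c3 p q r)

/-- FRAME: counting frames modulo 3 -/
def FrameStmt : Prop :=
  ∀ (ι α : Type) [Fintype ι] [DecidableEq ι] [Fintype α] [DecidableEq α]
    (H : Subgroup (Perm (ι → α))), Ctx H → CW H → ∀ g ∈ H, InW g

end stmts

end Cfsg.Agent.H87.PW
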