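import Cfsg.Agent.H53.DgDefs

/-!
DG-NG: the Mackey formula with two surviving double cosets.
-/

set_option autoImplicit false

namespace Cfsg.Agent.H87.DgNg

open Cfsg.Agent.H53.Dg Cfsg.Agent.H14
open scoped ComplexConjugate

variable {G : Type} [Group G]

/-- The extension by zero of the restriction. -/
noncomputable def ez (S : Subgroup G) (ξ : G → ℂ) : G → ℂ := extendByZero S fun h => ξ h

theorem ez_mem {S : Subgroup G} (ξ : G → ℂ) {x : G} (hx : x ∈ S) : ez S ξ x = ξ x :=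
  extendByZero_of_mem S _ hx

theorem ez_not {S : Subgroup G} (ξ : G → ℂ) {x : G} (hx : x ∉ S) : ez S ξ x = 0 :=
  extendByZero_of_not_mem S _ hx

theorem ez_conj {S : Subgroup G} {ξ : G → ℂ} (hξ : ClOn S ξ) {g : G} (hg : g ∈ S) (h : G) :
    ez S ξ (g * h * g⁻¹) = ez S ξ h := by
  by_cases hh : h ∈ S
  · rw [ez_mem ξ hh, ez_mem ξ (mul_mem (mul_mem hg hh) (inv_mem hg)), hξ g hg h hh]
  · rw [ez_not ξ hh, ez_not]
    intro h1
    apply hh
    have := mul_mem (mul_mem (inv_mem hg) h1) hg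
    simpa [mul_assoc] using this

theorem mT_eq [Fintype G] (S : Subgroup G) (ξ ξ' : G → ℂ) (x : G) :
    mT S ξ ξ' x = ∑ h : G, ez S ξ h * conj (ez S ξ' (x⁻¹ * h * x)) := by
  classical
  unfold mT
  rw [finsum_eq_sum_of_fintype]
  rw [← Finset.sum_subtype (Finset.univ.filter fun h : G => h ∈ S ∧ x⁻¹ * h * x ∈ S)
    (by simp) (fun h : G => ξ h * conj (ξ' (x⁻¹ * h * x))), Finset.sum_filter]
  refine Finset.sum_congr rfl fun h _ => ?_
  by_cases h1 : h ∈ S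
  · by_cases h2 : x⁻¹ * h * x ∈ S
    · rw [if_pos ⟨h1, h2⟩, ez_mem ξ h1, ez_mem ξ' h2]
    · rw [if_neg fun h3 => h2 h3.2, ez_not ξ' h2, map_zero, mul_zero]
  · rw [if_neg fun h3 => h1 h3.1, ez_not ξ h1, zero_mul]

theorem mT_dc [Fintype G] {S : Subgroup G} {ξ ξ' : G → ℂ} (hξ : ClOn S ξ) (hξ' : ClOn S ξ')
    {a b : G} (ha : a ∈ S) (hb : b ∈ S) (x : G) : mT S ξ ξ' (a * x * b) = mT S ξ ξ' x := by
  rw [mT_eq, mT_eq]
  refine (Fintype.sum_equiv (MulAut.conj a).toEquiv _ _ fun h => ?_).symm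
  change _ = ez S ξ (a * h * a⁻¹) * conj (ez S ξ' ((a * x * b)⁻¹ * (a * h * a⁻¹) * (a * x * b)))
  rw [ez_conj hξ ha]
  have : (a * x * b)⁻¹ * (a * h * a⁻¹) * (a * x * b) = b⁻¹ * (x⁻¹ * h * x) * b⁻¹⁻¹ := by group
  rw [this, ez_conj hξ' (inv_mem hb)]

theorem ip_ind [Finite G] (S : Subgroup G) (ξ ξ' : G → ℂ) :
    ip (ind S fun h => ξ h) (ind S fun h => ξ' h) =
      ((Nat.card S : ℂ) ^ 2)⁻¹ * ∑ᶠ x : G, mT S ξ ξ' x := by
  letI := Fintype.ofFinite G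
  have hG : (Nat.card G : ℂ) ≠ 0 := Nat.cast_ne_zero.2 Nat.card_pos.ne'
  have hS : (Nat.card S : ℂ) ≠ 0 := Nat.cast_ne_zero.2 Nat.card_pos.ne'
  rw [finsum_eq_sum_of_fintype]
  simp only [mT_eq]
  change (Nat.card G : ℂ)⁻¹ * ∑ g : G, ((Nat.card S : ℂ)⁻¹ * ∑ y : G, ez S ξ (y⁻¹ * g * y)) *
    conj ((Nat.card S : ℂ)⁻¹ * ∑ x : G, ez S ξ' (x⁻¹ * g * x)) = _
  have h1 : ∀ g : G, ((Nat.card S : ℂ)⁻¹ * ∑ y : G, ez S ξ (y⁻¹ * g * y)) *
      conj ((Nat.card S : ℂ)⁻¹ * ∑ x : G, ez S ξ' (x⁻¹ * g * x)) =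
      ((Nat.card S : ℂ) ^ 2)⁻¹ * ∑ y : G, ∑ x : G,
        ez S ξ (y⁻¹ * g * y) * conj (ez S ξ' (x⁻¹ * g * x)) := by
    intro g
    rw [map_mul, map_sum, map_inv₀, map_natCast, ← Finset.sum_mul_sum]
    field_simp
  simp only [h1]
  rw [← Finset.mul_sum, Finset.sum_comm]
  have h2 : ∀ y : G, ∑ g : G, ∑ x : G, ez S ξ (y⁻¹ * g * y) * conj (ez S ξ' (x⁻¹ * g * x)) =
      ∑ x : G, ∑ h : G, ez S ξ h * conj (ez S ξ' (x⁻¹ * h * x)) := by
    intro y
    rw [Finset.sum_comm]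
    refine (Fintype.sum_equiv (Equiv.mulLeft y) _ _ fun x => ?_).symm
    refine Fintype.sum_equiv (MulAut.conj y).toEquiv _ _ fun h => ?_
    change _ = ez S ξ (y⁻¹ * (y * h * y⁻¹) * y) *
      conj (ez S ξ' ((y * x)⁻¹ * (y * h * y⁻¹) * (y * x)))
    congr 3 <;> group
  simp only [h2, Finset.sum_const, Finset.card_univ, nsmul_eq_mul, ← Nat.card_eq_fintype_card]
  field_simp

theorem mT_one [Finite G] (S : Subgroup G) (ξ ξ' : G → ℂ) :
    mT S ξ ξ' 1 = Nat.card S * ip (fun h : S => ξ h) (fun h : S => ξ' h) := by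
  classical
  letI := Fintype.ofFinite G
  letI := Fintype.ofFinite S
  have hS : (Nat.card S : ℂ) ≠ 0 := Nat.cast_ne_zero.2 Nat.card_pos.ne'
  change _ = (Nat.card S : ℂ) * ((Nat.card S : ℂ)⁻¹ * ∑ h : S, ξ h * conj (ξ' h))
  rw [mul_inv_cancel_left₀ hS, mT_eq,
    ← Finset.sum_subtype (Finset.univ.filter fun h : G => h ∈ S) (by simp)
      (fun h : G => ξ h * conj (ξ' h)), Finset.sum_filter]
  refine Finset.sum_congr rfl fun h _ => ?_
  rw [inv_one, one_mul, mul_one]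
  by_cases h1 : h ∈ S
  · rw [if_pos h1, ez_mem ξ h1, ez_mem ξ' h1]
  · rw [if_neg h1, ez_not ξ h1, zero_mul]

theorem card_mackey (S : Subgroup G) (w : G) :
    Nat.card (mackeySub S S w) = Nat.card {h : G // h ∈ S ∧ w⁻¹ * h * w ∈ S} :=
  Nat.card_congr
    { toFun := fun k => ⟨k.1.1, k.1.2, mem_mackeySub.1 k.2⟩
      invFun := fun h => ⟨⟨h.1, h.2.1⟩, mem_mackeySub.2 h.2.2⟩
      left_inv := fun _ => rfl
      right_inv := fun _ => rfl }

/-- NG. -/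
theorem ng : NgStmt := by
  intro G _ _ S ξ ξ' w hξ hξ' hw hx
  classical
  letI := Fintype.ofFinite G
  letI := Fintype.ofFinite S
  have hS : (Nat.card S : ℂ) ≠ 0 := Nat.cast_ne_zero.2 Nat.card_pos.ne'
  have hM : (Nat.card (mackeySub S S w) : ℂ) ≠ 0 := Nat.cast_ne_zero.2 Nat.card_pos.ne'
  have hD := sum_doubleCoset S S (mT S ξ ξ') w
  simp only [mT_dc hξ hξ' (SetLike.coe_mem _) (SetLike.coe_mem _), Finset.sum_const,
    Finset.card_univ, nsmul_eq_mul, ← Nat.card_eq_fintype_card] at hD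
  have h1 : ∑ g ∈ Finset.univ.filter (fun g : G => g ∈ S), mT S ξ ξ' g =
      Nat.card S * mT S ξ ξ' 1 := by
    rw [Finset.sum_congr rfl (g := fun _ => mT S ξ ξ' 1), Finset.sum_const, nsmul_eq_mul]
    · congr 2
      rw [Nat.card_eq_fintype_card, Fintype.card_subtype]
    · intro g hg
      have := mT_dc hξ hξ' (Finset.mem_filter.1 hg).2 (one_mem S) 1
      rwa [mul_one, mul_one] at this
  have h2 : ∑ g ∈ Finset.univ.filter (fun g : G => ¬ g ∈ S), mT S ξ ξ' g =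
      ∑ g ∈ Finset.univ.filter (fun g : G => DoubleCoset.mk S S g = DoubleCoset.mk S S w),
        mT S ξ ξ' g := by
    symm
    refine Finset.sum_subset (fun g hg => ?_) fun g hg hg' => ?_
    · obtain ⟨a, ha, b, hb, h⟩ := (DoubleCoset.eq S S _ _).1 (Finset.mem_filter.1 hg).2
      refine Finset.mem_filter.2 ⟨Finset.mem_univ _, fun hgS => hw ?_⟩
      rw [h]
      exact mul_mem (mul_mem ha hgS) hb
    · rcases hx g with h | ⟨a, ha, b, hb, h⟩ | h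
      · exact absurd h (Finset.mem_filter.1 hg).2
      · refine absurd (Finset.mem_filter.2 ⟨Finset.mem_univ _, ?_⟩) hg'
        exact ((DoubleCoset.eq S S _ _).2 ⟨a, ha, b, hb, h⟩).symm
      · exact h
  rw [ip_ind, finsum_eq_sum_of_fintype,
    ← Finset.sum_filter_add_sum_filter_not Finset.univ (fun g : G => g ∈ S), h1, h2, mT_one,
    ← card_mackey, (eq_inv_mul_iff_mul_eq₀ hM).2 hD]
  field_simp

end Cfsg.Agent.H87.DgNg
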