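import Cfsg.Agent.H9.C3Defs
import Cfsg.Agent.H9.BaerSuzuki
import Cfsg.Agent.H1.Card
import Cfsg.Agent.H87.Transfer

/-!
C3-DT: the Sylow 2-subgroup of the diamond and Thompson's transfer.
-/

set_option autoImplicit false

namespace Cfsg.Agent.H87.C3DT

open Subgroup Cfsg.Agent.H62 Cfsg.Agent.H9.C3
open scoped Pointwise

universe u

variable {G : Type u} [Group G]

theorem le_or_le {C A A' : Subgroup G} (h : ∀ c ∈ C, c ∈ A ∨ c ∈ A') : C ≤ A ∨ C ≤ A' := by
  by_contra hc
  rw [not_or] at hc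
  obtain ⟨a, ha, ha'⟩ := SetLike.not_le_iff_exists.1 hc.1
  obtain ⟨b, hb, hb'⟩ := SetLike.not_le_iff_exists.1 hc.2
  have h1 := (h a ha).resolve_left ha'
  have h2 := (h b hb).resolve_right hb'
  rcases h _ (mul_mem ha hb) with h3 | h3
  · exact ha' ((mul_mem_cancel_right h2).1 h3)
  · exact hb' ((mul_mem_cancel_left h1).1 h3)

/-- The elementary abelian subgroups of order 64 lie in `U`. -/
theorem e64 [Finite G] {S U A A' B : Subgroup G} (h : DS S U A A') (hB : B ≤ S) (hE : EA B)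
    (hc : Nat.card B = 64) : B ≤ U := by
  by_contra hn
  obtain ⟨t, ht, htU⟩ := SetLike.not_le_iff_exists.1 hn
  have hi : U.relIndex B = 2 := by
    refine index_eq_two_iff.2 ⟨⟨t, ht⟩, fun b => ?_⟩
    by_cases hb : (b : G) ∈ U
    · refine Or.inr ⟨hb, fun h1 => htU ?_⟩
      exact (mul_mem_cancel_left hb).1 (show (b : G) * t ∈ U from h1)
    · exact Or.inl ⟨h.two b (hB b.2) t (hB ht) (hE _ b.2) (hE _ ht) hb htU, hb⟩
  have h1 := H1.card_inf_mul_relIndex U B
  rw [hi, hc] at h1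
  obtain ⟨-, -, h2, h3⟩ := h.out t (hB ht) htU (hE _ ht)
  have h4 : U ⊓ B ≤ C1 t := fun c hc' =>
    mem_centralizer_singleton_iff.2 (hE.comm hc'.2 ht)
  rcases le_or_le (C := U ⊓ B) (fun c hc' => h.du.inv c hc'.1 (hE _ hc'.2)) with h5 | h5
  · have := card_le_of_le (le_inf h5 h4)
    omega
  · have := card_le_of_le (le_inf h5 h4)
    omega

theorem norm_le [Finite G] {S U A A' : Subgroup G} (h : DS S U A A') : Nm S ≤ Nm U := by
  intro n hn
  have key : ∀ B : Subgroup G, B ≤ U → EA B → Nat.card B = 64 → ∀ b ∈ B, n * b * n⁻¹ ∈ U := by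
    intro B hB hE hc b hb
    have h1 : MulAut.conj n • B ≤ U := by
      refine e64 h (fun x hx => ?_) (hE.conj n) ?_
      · obtain ⟨y, hy, rfl⟩ := (mem_smul_pointwise_iff_exists _ _ _).1 hx
        exact (mem_normalizer_iff.1 hn y).1 (h.le (hB hy))
      · rw [← hc]
        exact (Nat.card_congr (equivSMul (MulAut.conj n) B).toEquiv).symm
    exact h1 (smul_mem_pointwise_smul b (MulAut.conj n) B hb)
  have hle : U ≤ U.comap (MulAut.conj n).toMonoidHom := by
    conv_lhs => rw [← h.du.sup]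
    exact sup_le (key A (h.du.sup ▸ le_sup_left) h.du.ea h.du.cA)
      (key A' (h.du.sup ▸ le_sup_right) h.du.ea' h.du.cA')
  exact mem_normalizer_fintype fun x hx => hle hx

/-- DT. -/
theorem dt : DTStmt.{u} := by
  intro G _ _ hG P U A A' e hP hPU heP heU he4 hs hA hN h
  classical
  haveI : Fact (Nat.Prime 2) := ⟨Nat.prime_two⟩
  have hU := h.du.cU
  have hs1 : e * e ≠ 1 := fun h1 => hs (h1 ▸ one_mem U)
  have he4' : e ^ 2 ^ 2 = 1 := by rw [← he4]; simp [pow_succ, mul_assoc]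
  have hoe : orderOf e = 4 := by
    refine orderOf_eq_prime_pow (p := 2) (n := 1) ?_ he4'
    simpa [pow_two] using hs1
  have hos : orderOf (e * e) = 2 := orderOf_eq_prime (by rw [pow_two]; exact he4) hs1
  have hzU : zpowers e ≤ Nm U := zpowers_le.2 heU
  have hzs : zpowers (e * e) ≤ zpowers e := zpowers_le.2 (mul_mem (mem_zpowers e) (mem_zpowers e))
  have hi : zpowers e ⊓ U = ⊥ := by
    rw [eq_bot_iff]
    intro x hx'
    obtain ⟨hx, hxU⟩ := mem_inf.1 hx'
    obtain ⟨k, hk, rfl⟩ := (mem_zpowers_iff_mem_range_orderOf.1 hx |> Finset.mem_image.1)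
    rw [hoe, Finset.mem_range] at hk
    interval_cases k
    · simp
    · exact absurd (mul_mem hxU hxU) (by simpa using hs)
    · exact absurd hxU (by simpa [pow_two] using hs)
    · refine absurd (inv_mem (mul_mem hxU hxU)) ?_
      have : (e ^ 3 * e ^ 3)⁻¹ = e * e := by
        rw [inv_eq_iff_mul_eq_one]
        calc e ^ 3 * e ^ 3 * (e * e) = e ^ 2 ^ 2 * e ^ 2 ^ 2 := by group
          _ = 1 := by rw [he4', one_mul]
      rw [this]; exact hs
  have hi' : zpowers (e * e) ⊓ U = ⊥ := eq_bot_iff.2 (hi ▸ inf_le_inf_right U hzs)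
  have hS : Nat.card (U ⊔ zpowers e : Subgroup G) = 1024 := by
    have := H1.card_sup_mul_card_inf_of_le_normalizer hzU
    rwa [hi, card_bot, mul_one, Nat.card_zpowers, hoe, hU, sup_comm] at this
  have hM : Nat.card (U ⊔ zpowers (e * e) : Subgroup G) = 512 := by
    have := H1.card_sup_mul_card_inf_of_le_normalizer (hzs.trans hzU)
    rwa [hi', card_bot, mul_one, Nat.card_zpowers, hos, hU, sup_comm] at this
  have hNU : Nat.card (Nm U) ∣ 9216 := by
    have h1 := H1.card_sup_dvd_of_le_normalizer (zpowers_le.2 heP)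
    rw [Nat.card_zpowers, hoe, hP, sup_comm] at h1
    have h2 := H1.card_sup_dvd_of_le_normalizer (sup_le hPU hzU)
    rw [hU, sup_comm] at h2
    exact (card_dvd_of_le hN).trans (h2.trans (Nat.mul_dvd_mul_right h1 256))
  have h2S : IsPGroup 2 (U ⊔ zpowers e : Subgroup G) := IsPGroup.of_card (n := 10) hS
  obtain ⟨S, hSle⟩ := h2S.exists_le_sylow
  have hSeq : (S : Subgroup G) = U ⊔ zpowers e := by
    by_contra hne
    obtain ⟨g, hg, hg1, hg2⟩ :=
      H9.exists_mem_normalizer_of_lt S.isPGroup' (lt_of_le_of_ne hSle (Ne.symm hne))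
    have h1 : IsPGroup 2 ((S : Subgroup G) ⊓ Nm U : Subgroup G) := S.isPGroup'.to_inf_left
    obtain ⟨k, hk⟩ := IsPGroup.iff_card.1 h1
    have h2 : 2 ^ k ∣ 2 ^ 10 * 9 := hk ▸ (card_dvd_of_le inf_le_right).trans hNU
    have h3 : 2 ^ k ∣ 2 ^ 10 :=
      (Nat.Coprime.pow_left k (by norm_num : Nat.Coprime 2 9)).dvd_of_dvd_mul_right h2
    have h4 : U ⊔ zpowers e ≤ (S : Subgroup G) ⊓ Nm U :=
      le_inf hSle (sup_le le_normalizer hzU)
    have h5 := H1.eq_of_le_of_card_le h4 (by rw [hk, hS]; exact Nat.le_of_dvd (by norm_num) h3)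
    exact hg1 (h5 ▸ ⟨hg, norm_le h hg2⟩)
  have hsS : e * e ∈ U ⊔ zpowers e := mem_sup_right (hzs (mem_zpowers _))
  refine ⟨S, hSeq, e * e, hSeq ▸ hsS, hs, he4, ?_⟩
  have hMS : U ⊔ zpowers (e * e) ≤ U ⊔ zpowers e := sup_le_sup_left hzs U
  have hMi : (U ⊔ zpowers (e * e)).relIndex (U ⊔ zpowers e) = 2 := by
    have := H1.card_mul_relIndex hMS
    rw [hS, hM] at this
    omega
  have hUi : U.relIndex (U ⊔ zpowers (e * e)) = 2 := by
    have := H1.card_mul_relIndex (le_sup_left : U ≤ U ⊔ zpowers (e * e))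
    rw [hU, hM] at this
    omega
  have hex : ∃ g : G, g * e * g⁻¹ ∈ U ⊔ zpowers (e * e) := by
    by_contra hno
    rw [not_exists] at hno
    obtain ⟨K, hK, hKi, -⟩ := thompson_transfer (H := U ⊔ zpowers e) (hSeq ▸ odd_index_sylow S)
      hMi he4' hno fun g k hk hg => by
        rcases (show k = 1 ∨ 2 ≤ k by omega) with rfl | hk2
        · rw [pow_one, pow_two] at hg ⊢
          by_cases hgU : g * (e * e) * g⁻¹ ∈ U
          · exact mem_sup_left hgU
          · have h1 : g * (e * e) * g⁻¹ * (g * (e * e) * g⁻¹) = 1 := by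
              calc _ = g * (e * e * (e * e)) * g⁻¹ := by group
                _ = 1 := by rw [he4]; group
            have h2 := h.two _ hg _ hsS h1 he4 hgU hs
            exact (mul_mem_cancel_right (mem_sup_right (mem_zpowers _))).1 (mem_sup_left h2)
        · obtain ⟨j, rfl⟩ := Nat.exists_eq_add_of_le hk2
          rw [pow_add, pow_mul, he4', one_pow, mul_one, mul_inv_cancel]
          exact one_mem _
    rcases hG.eq_bot_or_eq_top_of_normal K hK with rfl | rfl
    · rw [index_bot] at hKi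
      have := card_subgroup_dvd_card U
      rw [hU, hKi] at this
      omega
    · rw [index_top] at hKi
      omega
  obtain ⟨g, hg⟩ := hex
  have h1 : g * (e * e) * g⁻¹ ∈ U := by
    have := mul_self_mem_of_index_two hUi ⟨_, hg⟩
    rw [mem_subgroupOf] at this
    have h2 : g * e * g⁻¹ * (g * e * g⁻¹) = g * (e * e) * g⁻¹ := by group
    exact h2 ▸ this
  have h2 : g * (e * e) * g⁻¹ * (g * (e * e) * g⁻¹) = 1 := by
    calc _ = g * (e * e * (e * e)) * g⁻¹ := by group
      _ = 1 := by rw [he4]; group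
  rcases h.du.inv _ h1 h2 with h3 | h3
  · exact ⟨g, h3⟩
  · refine ⟨e * g, ?_⟩
    have h4 : e * g * (e * e) * (e * g)⁻¹ = e * (g * (e * e) * g⁻¹) * e⁻¹ := by group
    rw [h4]
    exact (hA _).1 h3

end Cfsg.Agent.H87.C3DT
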