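import Cfsg.Agent.H45.IvDefs

/-! Project CY, chapter IV: the case of large anisotropic line groups does not occur. -/

set_option autoImplicit false

namespace Cfsg.Agent.H87.CyIvb

open Subgroup MulAction Cfsg.Agent.H11.Cy Cfsg.Agent.H45.Iv
open scoped commutatorElement

theorem pres {G : Type} [Group G] {Ω : Type} [MulAction G Ω] {z u : G} (h : z * u = u * z) (w : Ω) :
    u • w ∈ Fx Ω z ↔ w ∈ Fx Ω z := by
  change z • u • w = u • w ↔ z • w = w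
  rw [← mul_smul, h, mul_smul, smul_left_cancel_iff]

theorem ivb : IvbStmt := by
  intro ga tg gb nof tra uex cor G _ _ Ω _ _ p A h p2 ep k ls f t good
  have GAa := ga tg G Ω p A h p2 ep k ls f
  have RF : ∀ x y, x ≠ y → Rl A x y ≤ Fl A x y := fun x y hxy =>
    le_sup_left.trans (ls x y hxy).1.sup.le
  obtain ⟨x, y, hxy⟩ := h.nt
  obtain ⟨r0, hr0, e0⟩ := (ls x y hxy).1.tr y (k.ln x y).2
  have n0 : r0 ∉ Zl A x y := fun hz =>
    hxy (((ep.kfix x y hxy r0).1 hz.2 x (k.ln x y).1).symm.trans e0)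
  have hz := (ls x y hxy).2.1.sq r0 hr0
  have z1 := (t x y hxy).1 r0 hr0 n0
  generalize r0 * r0 = z at hz z1
  have zz := (ls x y hxy).2.2.1.zsq z hz
  obtain ⟨sub, lsub, -⟩ := k.fx x y hxy z hz
  have gd := good x y hxy z hz z1
  have hx := lsub (k.ln x y).1
  have hy := lsub (k.ln x y).2
  obtain ⟨b, hb⟩ : ∃ b : Ω, z • b ≠ b := by
    by_contra c
    exact z1 (h.faith z fun w => by_contra fun e => c ⟨w, e⟩)
  have hb' : b ≠ z • b := hb.symm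
  obtain ⟨r1, hr1, n1, k1⟩ := tra G Ω p A h p2 ep k ls z zz b hb
    (nof G Ω p A h ep k ls x y hxy z hz b hb)
  have cz : ∀ u ∈ Rl A b (z • b), r1 * u = u * r1 → ∀ w, u • w ∈ Fx Ω z ↔ w ∈ Fx Ω z := by
    intro u hu e
    refine pres ?_
    have e2 := mem_centralizer_iff.1 k1 u (RF _ _ hb' hu)
    calc z * u = r1 * (r1⁻¹ * z * u) := by group
      _ = r1 * u * (r1⁻¹ * z) := by rw [← e2]; group
      _ = u * z := by rw [e]; group
  obtain ⟨s, hs, c1, c2, c3⟩ := (t _ _ hb').2 r1 hr1 n1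
  obtain ⟨u, hu, nu, cu, au⟩ := uex G Ω p A h k ls _ x hx (GAa _ sub gd x hx) _ _ hb' r1 hr1 s hs
    c1 n1 c2 c3 cz
  have pu := cz u hu cu
  have ad : ∀ d ∈ Fx Ω z, ∀ a ∈ A d, (⁅u, a⁆ : G) ∈ Ts A (Fx Ω z) := by
    intro d hd a ha
    obtain ⟨t', ht', a', ha', rfl⟩ := (GAa _ sub gd x hx).dec a
      ((k.fle _ d hd d hd).1 (mem_sup_left ha))
    have e : (⁅u, t' * a'⁆ : G) = u * t' * u⁻¹ * ⁅u, a'⁆ * t'⁻¹ := by
      simp only [commutatorElement_def]; group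
    rw [e]
    exact mul_mem (mul_mem ((k.nrm _ u pu).2.1 t' ht') (au a' ha')) (inv_mem ht')
  have hw := (ls _ _ hb').2.1.sq u hu
  have w1 := (t _ _ hb').1 u hu nu
  have u4 : u ^ 4 = 1 := by
    rw [← (ls _ _ hb').2.2.1.zsq _ hw]
    simp only [pow_succ, pow_zero, one_mul, mul_assoc]
  obtain ⟨sub1, lsub1, -⟩ := k.fx _ _ hb' _ hw
  have gd1 := good _ _ hb' _ hw w1
  have b1 := lsub1 (k.ln b (z • b)).1
  have b2 := lsub1 (k.ln b (z • b)).2
  obtain ⟨d, hd, md⟩ : ∃ d ∈ Fx Ω z, (u * u) • d ≠ d := by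
    by_contra c
    have c' : ∀ d ∈ Fx Ω z, d ∈ Fx Ω (u * u) := fun d hd => by_contra fun e => c ⟨d, hd, e⟩
    exact hb (gd1 x (c' x hx) y (c' y hy) hxy z hz b b1)
  obtain ⟨z0, -, c0, y2, hy2, ny2, hz2, nz2⟩ := cor G Ω p A h k ls (fun x y e => (t x y e).1) _ sub
    d hd (GAa _ sub gd d hd) (gb G Ω p A h p2 k ls _ sub gd d hd (GAa _ sub gd d hd)) u u4 pu
    (ad d hd) md
  have uT := (k.fle _ b b1 _ b2).2 hu
  have zT : (⁅u, z0⁆ : G) ∈ Ts A (Fx Ω (u * u)) := by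
    have e : (⁅u, z0⁆ : G) = u * (z0 * u⁻¹ * z0⁻¹) := by
      simp only [commutatorElement_def]; group
    rw [e]
    exact mul_mem uT ((k.nrm _ z0 (pres c0.symm)).2.1 _ (inv_mem uT))
  generalize (⁅u, z0⁆ : G) = z2 at hz2 nz2 zT
  have z22 := (ls d y2 ny2.symm).2.2.1.zsq z2 hz2
  have zC : z2 ∈ Cs A (Fx Ω (u * u)) := by
    by_contra c
    obtain ⟨y3, hy3, ny3, r, hr, nr, kk, hk, rfl⟩ := (GAa _ sub1 gd1 b b1).lin z2 zT c
    have k2 := gb G Ω p A h p2 k ls _ sub1 gd1 b b1 (GAa _ sub1 gd1 b b1) kk hk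
    have e := mem_centralizer_iff.1 hk.2 r ((k.fle _ b b1 y3 hy3).1 (RF _ _ ny3.symm hr))
    refine (t b y3 ny3.symm).1 r hr nr ?_
    calc r * r = r * r * (kk * kk) := by rw [k2, mul_one]
      _ = r * (r * kk) * kk := by group
      _ = r * kk * (r * kk) := by nth_rw 1 [e]; group
      _ = 1 := z22
  have zC' := k.zc _ gd d hd y2 hy2 ny2.symm hz2
  exact hb (good d y2 ny2.symm z2 hz2 nz2 x (k.csfix _ z2 zC' x hx) y (k.csfix _ z2 zC' y hy) hxy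
    z hz b (k.csfix _ z2 zC b b1))

end Cfsg.Agent.H87.CyIvb
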