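import Mathlib
import Cfsg.Agent.H98.GbL
import Cfsg.Agent.H76.ClassCount

/-!
# The conjugacy classes of `GL_n(F)` inject into the labels
-/

set_option autoImplicit false
set_option linter.unusedSectionVars false

namespace Cfsg.Agent.H87.GbCnt

open Cfsg Finset Cfsg.Agent.H98.GB
open scoped Classical MatrixGroups

universe u

section multiset

variable {A : Type*}

/-- the block sizes at an eigenvalue -/
noncomputable def sz (s : Multiset (A × ℕ)) (α : A) : Multiset ℕ :=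
  (s.filter fun x => x.1 = α).map Prod.snd

theorem count_sz (s : Multiset (A × ℕ)) (α : A) (e : ℕ) : (sz s α).count e = s.count (α, e) := by
  rw [sz, Multiset.count_map, Multiset.filter_filter, Multiset.count_eq_card_filter_eq]
  congr 1
  refine Multiset.filter_congr fun x _ => ?_
  rw [Prod.ext_iff]
  exact ⟨fun h => ⟨h.2.symm, h.1⟩, fun h => ⟨h.2, h.1.symm⟩⟩

theorem sum_sz {L : Type*} [Fintype L] {E : L → A} (hE : Function.Injective E)
    (s : Multiset (A × ℕ)) (h : ∀ x ∈ s, ∃ a, E a = x.1) : ∑ a, (sz s (E a)).sum = H76.wt s := by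
  induction s using Multiset.induction_on with
  | empty => simp [sz]
  | cons x s ih =>
    obtain ⟨b, hb⟩ := h x (Multiset.mem_cons_self _ _)
    rw [H76.wt_cons, ← ih fun y hy => h y (Multiset.mem_cons_of_mem hy)]
    have : ∀ a, (sz (x ::ₘ s) (E a)).sum = (if b = a then x.2 else 0) + (sz s (E a)).sum := by
      intro a
      by_cases e : b = a
      · rw [if_pos e, sz, Multiset.filter_cons_of_pos _ (by rw [← hb, e]), Multiset.map_cons,
          Multiset.sum_cons, sz]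
      · rw [if_neg e, sz, Multiset.filter_cons_of_neg (p := fun y : A × ℕ => y.1 = E a) _
          (fun e' => e (hE (hb.trans e'))), zero_add, sz]
    simp only [this, sum_add_distrib, sum_ite_eq, mem_univ, if_true]

theorem mem_sz {s : Multiset (A × ℕ)} {α : A} {r : ℕ} (h : r ∈ sz s α) : ∃ x ∈ s, x.2 = r := by
  obtain ⟨x, hx, rfl⟩ := Multiset.mem_map.1 h
  exact ⟨x, Multiset.mem_of_mem_filter hx, rfl⟩

theorem sz_inv {s : Multiset (A × ℕ)} {f : A × ℕ → A × ℕ} (hf : Function.Injective f)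
    (hs : s.map f = s) {α α' : A} (h : ∀ e, f (α, e) = (α', e)) : sz s α' = sz s α := by
  ext e
  rw [count_sz, count_sz, ← h]
  conv_lhs => rw [← hs]
  exact Multiset.count_map_eq_count' f s hf _

theorem ext_sz {L : Type*} {E : L → A} {s s' : Multiset (A × ℕ)} (h : ∀ x ∈ s, ∃ a, E a = x.1)
    (h' : ∀ x ∈ s', ∃ a, E a = x.1) (e : ∀ a, sz s (E a) = sz s' (E a)) : s = s' := by
  ext ⟨x, r⟩
  by_cases hx : ∃ a, E a = x
  · obtain ⟨a, rfl⟩ := hx
    rw [← count_sz, ← count_sz, e]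
  · rw [Multiset.count_eq_zero.2 fun m => hx (h _ m), Multiset.count_eq_zero.2 fun m => hx (h' _ m)]

theorem exists_beta (N : ℕ) : ∃ β : Multiset ℕ → Finset ℕ,
    (∀ μ, (∀ r ∈ μ, 0 < r) → μ.sum ≤ N → #(β μ) = N ∧ H19.wtS (β μ) = μ.sum) ∧
    ∀ μ μ', (∀ r ∈ μ, 0 < r) → μ.sum ≤ N → (∀ r ∈ μ', 0 < r) → μ'.sum ≤ N → β μ = β μ' →
      μ = μ' := by
  have h : ∀ r : ℕ, ∃ f : Multiset ℕ → Finset ℕ, r ≤ N →
      (∀ μ ∈ H19.Par r, f μ ∈ H19.Lam N r) ∧
        ∀ μ ∈ H19.Par r, ∀ μ' ∈ H19.Par r, f μ = f μ' → μ = μ' := by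
    intro r
    by_cases hr : r ≤ N
    · let e := Finset.equivOfCardEq (s := H19.Par r) (t := H19.Lam N r) (H19.card_Lam hr).symm
      refine ⟨fun μ => if h : μ ∈ H19.Par r then (e ⟨μ, h⟩).1 else ∅, fun _ =>
        ⟨fun μ hμ => ?_, fun μ hμ μ' hμ' h => ?_⟩⟩
      · simp only [dif_pos hμ]
        exact (e ⟨μ, hμ⟩).2
      · simp only [dif_pos hμ, dif_pos hμ'] at h
        exact congrArg Subtype.val (e.injective (Subtype.ext h))
    · exact ⟨fun _ => ∅, fun h => absurd h hr⟩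
  choose f hf using h
  have h1 : ∀ μ : Multiset ℕ, (∀ r ∈ μ, 0 < r) → μ.sum ≤ N →
      #(f μ.sum μ) = N ∧ H19.wtS (f μ.sum μ) = μ.sum := fun μ h1 h2 =>
    H19.mem_Lam'.1 ((hf _ h2).1 μ (H19.mem_Par.2 ⟨rfl, h1⟩))
  refine ⟨fun μ => f μ.sum μ, h1, fun μ μ' a b a' b' e => ?_⟩
  have h2 : μ.sum = μ'.sum := by
    rw [← (h1 μ a b).2, ← (h1 μ' a' b').2]
    exact congrArg H19.wtS e
  refine (hf _ b).2 μ (H19.mem_Par.2 ⟨rfl, a⟩) μ' (H19.mem_Par.2 ⟨h2.symm, a'⟩) ?_
  have e' : f μ.sum μ = f μ'.sum μ' := e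
  rwa [← h2] at e'

end multiset

variable {F : Type u} [Field F] [Fintype F] [DecidableEq F] (C : Ctx F)

theorem card_fibre (hL : C.Lab) (φ : C.Φ) : #(univ.filter fun a => C.mkΦ a = φ) = C.dg φ := by
  have h : (univ.filter fun a => C.mkΦ a = φ) =
      (range (C.dg φ)).image fun i => (fun x => C.qL * x)^[i] (C.out φ) := by
    ext a
    simp only [mem_filter, mem_univ, true_and, mem_image, mem_range]
    constructor
    · intro e
      obtain ⟨i, hi⟩ := (hL.mk_eq _ _).1 ((hL.mk_out φ).trans e.symm)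
      refine ⟨i % C.dg φ, Nat.mod_lt _ (hL.dg_pos φ), ?_⟩
      rw [Ctx.dg, Function.iterate_mod_minimalPeriod_eq, hi, mul_left_iterate]
    · rintro ⟨i, -, rfl⟩
      rw [← hL.mk_out φ, eq_comm, hL.mk_eq, hL.mk_out]
      exact ⟨i, by rw [mul_left_iterate]⟩
  rw [h, card_image_of_injOn, card_range]
  rw [coe_range]
  exact Function.iterate_injOn_Iio_minimalPeriod

theorem inv_out (hL : C.Lab) {β : Type*} {f : C.L → β} (hf : ∀ a, f (C.qL * a) = f a) (a : C.L) :
    f (C.out (C.mkΦ a)) = f a := by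
  obtain ⟨i, hi⟩ := (hL.mk_eq _ _).1 (hL.mk_out (C.mkΦ a)).symm
  rw [hi]
  clear hi
  induction i with
  | zero => rw [pow_zero, one_mul]
  | succ i ih => rw [pow_succ', mul_assoc, hf, ih]

theorem sum_orbits (hL : C.Lab) {f : C.L → ℕ} (hf : ∀ a, f (C.qL * a) = f a) :
    ∑ φ, C.dg φ * f (C.out φ) = ∑ a, f a := by
  rw [← sum_fiberwise (s := univ) (g := C.mkΦ)]
  refine sum_congr rfl fun φ _ => ?_
  rw [sum_congr rfl (g := fun _ => f (C.out φ)) fun a ha => by
    rw [← (mem_filter.1 ha).2, inv_out C hL hf], sum_const, card_fibre C hL, smul_eq_mul]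

theorem exists_exp : ∃ E : C.L → (AlgebraicClosure F)ˣ, Function.Injective E ∧
    (∀ a, E (C.qL * a) = E a ^ Fintype.card F) ∧ ∀ x, x ^ C.Q = 1 → ∃ a, E a = x := by
  have h0 : ((C.Q : ℕ) : F) ≠ 0 := by
    rw [Ctx.Q, Nat.cast_sub (Nat.one_le_pow _ _ Fintype.card_pos), Nat.cast_pow,
      FiniteField.cast_card_eq_zero, zero_pow C.n0.factorial_pos.ne']
    simp
  have : NeZero ((C.Q : ℕ) : AlgebraicClosure F) := ⟨fun h => h0
    ((algebraMap F (AlgebraicClosure F)).injective (by rw [map_natCast, h, map_zero]))⟩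
  obtain ⟨w, hw⟩ := HasEnoughRootsOfUnity.exists_primitiveRoot (AlgebraicClosure F) C.Q
  obtain ⟨w, rfl⟩ := hw.isUnit (NeZero.ne _)
  have hw' : IsPrimitiveRoot w C.Q := IsPrimitiveRoot.coe_units_iff.1 hw
  refine ⟨fun a => w ^ a.val, fun a b e => ZMod.val_injective _
    (hw'.pow_inj (ZMod.val_lt a) (ZMod.val_lt b) e), fun a => ?_, fun x hx => ?_⟩
  · simp only
    rw [← pow_mul, pow_eq_pow_iff_modEq, ← hw'.eq_orderOf, ← ZMod.natCast_eq_natCast_iff,
      Nat.cast_mul, ZMod.natCast_zmod_val, ZMod.natCast_zmod_val, mul_comm]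
    rfl
  · obtain ⟨i, hi, e⟩ := hw.eq_pow_of_pow_eq_one (ξ := (x : AlgebraicClosure F))
      (by rw [← Units.val_pow_eq_pow_val, hx, Units.val_one])
    refine ⟨i, Units.ext ?_⟩
    simp only
    rw [ZMod.val_natCast_of_lt hi, Units.val_pow_eq_pow_val, e]

theorem frob_inj :
    Function.Injective (H76.frob (A := (AlgebraicClosure F)ˣ) (Fintype.card F : ℤ)) := by
  obtain ⟨p, hp⟩ := CharP.exists F
  have := Fact.mk (CharP.char_is_prime F p)
  have : CharP (AlgebraicClosure F) p :=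
    charP_of_injective_algebraMap (algebraMap F _).injective p
  obtain ⟨k, -, hk⟩ := FiniteField.card F p
  intro x y e
  rw [H76.frob, H76.frob, Prod.mk.injEq, zpow_natCast, zpow_natCast, hk] at e
  refine Prod.ext (Units.ext ?_) e.2
  have h1 := congrArg Units.val e.1
  rw [Units.val_pow_eq_pow_val, Units.val_pow_eq_pow_val, ← sub_eq_zero, ← sub_pow_char_pow] at h1
  exact sub_eq_zero.1 (pow_eq_zero_iff (pow_pos (Fact.out : p.Prime).pos _).ne' |>.1 h1)

theorem pow_Q {n : ℕ} (hn : n ≤ C.n0) {s : Multiset ((AlgebraicClosure F)ˣ × ℕ)}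
    (hs : H76.Adm (Fintype.card F : ℤ) n s) {x : (AlgebraicClosure F)ˣ × ℕ} (hx : x ∈ s) :
    x.1 ^ C.Q = 1 := by
  obtain ⟨D, m, t, hD, h1, -, -, h2⟩ := hs.exists_orb_add hx
  have h3 : D ≤ C.n0 := by
    have := hs.pos x hx
    nlinarith
  have h4 := (h1 C.n0.factorial).2 (Nat.dvd_factorial hD h3)
  rw [← Nat.cast_pow, zpow_natCast,
    ← Nat.sub_add_cancel (Nat.one_le_pow C.n0.factorial _ (Fintype.card_pos (α := F))),
    pow_succ] at h4
  exact mul_eq_right.1 h4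

theorem cnt (hL : LABStmt.{u}) : CNTStmt.{u} := by
  intro F _ _ _ C n hn
  have L := hL F C
  have hG := H76.cm_gl (F := F) (AlgebraicClosure F) (Fin n)
  rw [Fintype.card_fin] at hG
  rw [hG.card_conjClasses, ← Nat.card_coe_set_eq]
  obtain ⟨E, hE, hq, hs⟩ := exists_exp C
  obtain ⟨β, b1, b2⟩ := exists_beta C.N
  have inv : ∀ s, H76.Adm (Fintype.card F : ℤ) n s → ∀ a, sz s (E (C.qL * a)) = sz s (E a) := by
    intro s h a
    exact sz_inv frob_inj h.stab fun e => by rw [hq, H76.frob, zpow_natCast]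
  have tot : ∀ s, H76.Adm (Fintype.card F : ℤ) n s → ∑ a, (sz s (E a)).sum = n := fun s h => by
    rw [sum_sz hE s fun x hx => hs _ (pow_Q C hn h hx), h.wt_eq]
  have pos : ∀ s, H76.Adm (Fintype.card F : ℤ) n s → ∀ a, ∀ r ∈ sz s (E a), 0 < r := by
    intro s h a r hr
    obtain ⟨x, hx, rfl⟩ := mem_sz hr
    exact h.pos x hx
  have le : ∀ s, H76.Adm (Fintype.card F : ℤ) n s → ∀ a, (sz s (E a)).sum ≤ C.N := by
    intro s h a
    have h1 := single_le_sum (f := fun a => (sz s (E a)).sum) (fun _ _ => Nat.zero_le _)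
      (mem_univ a)
    rw [tot s h] at h1
    refine (h1.trans hn).trans ?_
    rw [Ctx.N]
    exact Nat.le_mul_of_pos_left _ (Nat.succ_pos _)
  have : Finite {Λ | C.IsLab n Λ} := (L.fin n).to_subtype
  refine Nat.card_le_card_of_injective (fun s => ⟨fun φ => β (sz s.1 (E (C.out φ))),
    fun φ => (b1 _ (pos _ s.2 _) (le _ s.2 _)).1, ?_⟩) fun s s' e => Subtype.ext ?_
  · rw [H98.GB.wt, sum_congr rfl fun φ _ => by rw [(b1 _ (pos _ s.2 _) (le _ s.2 _)).2],
      sum_orbits C L (f := fun a => (sz s.1 (E a)).sum) fun a => by rw [inv _ s.2], tot _ s.2]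
  · have h1 : ∀ a, sz s.1 (E a) = sz s'.1 (E a) := fun a => by
      rw [← inv_out C L (f := fun a => sz s.1 (E a)) (inv _ s.2),
        ← inv_out C L (f := fun a => sz s'.1 (E a)) (inv _ s'.2)]
      exact b2 _ _ (pos _ s.2 _) (le _ s.2 _) (pos _ s'.2 _) (le _ s'.2 _)
        (congrFun (congrArg Subtype.val e) (C.mkΦ a))
    exact ext_sz (fun x hx => hs _ (pow_Q C hn s.2 hx)) (fun x hx => hs _ (pow_Q C hn s'.2 hx)) h1

end Cfsg.Agent.H87.GbCnt
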