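import Cfsg.Agent.H45.GdDefs

/-! Project CY, chapter IV: the first line structure passes to a quotient system. -/

set_option autoImplicit false

namespace Cfsg.Agent.H87.GdQ2

open Subgroup MulAction Cfsg.Agent.H11.Cy Cfsg.Agent.H45.Iv Cfsg.Agent.H45.Gd

theorem one_of {K : Type} [Group K] {p : ℕ} (pp : p.Prime) (p2 : p ≠ 2) {S : Subgroup K}
    (hS : Nat.card S = p) {a : K} (ha : a ∈ S) {k : ℕ} (h : a ^ 2 ^ k = 1) : a = 1 := by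
  have h1 : a ^ p = 1 := by
    have := pow_card_eq_one' (x := (⟨a, ha⟩ : S))
    rw [hS] at this
    exact congrArg Subtype.val this
  have h2 : Nat.Coprime p (2 ^ k) :=
    Nat.Coprime.pow_right _ ((Nat.coprime_primes pp Nat.prime_two).2 p2)
  exact orderOf_eq_one_iff.1 (Nat.eq_one_of_dvd_coprimes h2 (orderOf_dvd_of_pow_eq_one h1)
    (orderOf_dvd_of_pow_eq_one h))

theorem q2 : Q2Stmt := by
  intro G _ _ Ω _ _ H _ _ Θ _ _ p A P B π ρ h p2 _ k ls sub pj pm bs v w hvw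
  obtain ⟨x, hx, rfl⟩ := pj.rsurj v
  obtain ⟨y, hy, rfl⟩ := pj.rsurj w
  have hxy : x ≠ y := fun e => hvw (by rw [e])
  have la := (ls x y hxy).1
  have RF : Rl A x y ≤ Fl A x y := le_sup_left.trans la.sup.le
  have FM := (k.fle P x hx y hy).1
  have r2 : IsPGroup 2 (Rl B (ρ x) (ρ y)) := by
    rintro ⟨g, hg⟩
    obtain ⟨g, hg', rfl⟩ := (pm.rl x hx y hy g).1 hg
    obtain ⟨n, hn⟩ := la.r2 ⟨g, hg'⟩
    have e0 : (g : G) ^ 2 ^ n = 1 := congrArg Subtype.val hn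
    have e : g ^ 2 ^ n = 1 := Subtype.ext e0
    exact ⟨n, Subtype.ext (by change π g ^ 2 ^ n = 1; rw [← map_pow, e, map_one])⟩
  have dec : ∀ g ∈ Fl B (ρ x) (ρ y), ∃ r ∈ Rl B (ρ x) (ρ y), ∃ a ∈ B (ρ x), g = r * a := by
    intro g hg
    obtain ⟨g, hg', rfl⟩ := (pm.fl x hx y hy g).1 hg
    obtain ⟨r, hr, a, ha, e⟩ := la.dec g hg'
    refine ⟨π ⟨r, FM (RF hr)⟩, (pm.rl x hx y hy _).2 ⟨_, hr, rfl⟩, π ⟨a, FM (mem_sup_left ha)⟩,
      (pj.hB x hx _).2 ⟨_, ha, rfl⟩, ?_⟩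
    rw [← map_mul]
    exact congrArg π (Subtype.ext e)
  refine ⟨r2, le_antisymm (sup_le (fun g hg => ?_) le_sup_left) fun g hg => ?_, dec,
    fun c a ha hr => ?_, fun g hg => ?_, fun c hc => ?_, fun g hg ng => ?_⟩
  · obtain ⟨g, hg', rfl⟩ := (pm.rl x hx y hy g).1 hg
    exact (pm.fl x hx y hy _).2 ⟨g, RF hg', rfl⟩
  · obtain ⟨r, hr, a, ha, rfl⟩ := dec g hg
    exact mul_mem (mem_sup_left hr) (mem_sup_right ha)
  · obtain ⟨n, hn⟩ := r2 ⟨a, hr⟩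
    exact one_of bs.pp bs.p2 (bs.card c) ha (k := n) (congrArg Subtype.val hn)
  · obtain ⟨g, hg', rfl⟩ := (pm.zl x hx y hy hvw g).1 hg
    exact (pm.rl x hx y hy _).2 ⟨g, la.zle hg', rfl⟩
  · obtain ⟨c, hc', rfl⟩ := (pm.ln x hx y hy hvw c).1 hc
    obtain ⟨r, hr, e⟩ := la.tr c hc'
    refine ⟨π ⟨r, FM (RF hr)⟩, (pm.rl x hx y hy _).2 ⟨_, hr, rfl⟩, ?_⟩
    rw [← pm.eqv _ x hx, ← e]
  · obtain ⟨g, hg', rfl⟩ := (pm.fl x hx y hy g).1 hg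
    obtain ⟨c, hc, fc, n, hn, n1⟩ := la.out g hg' fun e => ng ((pm.rl x hx y hy _).2 ⟨g, e, rfl⟩)
    have cP := sub x hx y hy hxy hc
    have m : π g ^ n ∈ B (ρ c) := (pj.hB c cP _).2 ⟨g ^ n, hn, map_pow π g n⟩
    have ne : π g ^ n ≠ 1 := fun e => by
      obtain ⟨j, hj⟩ := pj.ker2 ⟨g ^ n, by rw [MonoidHom.mem_ker, map_pow, e]⟩
      have e0 : (g ^ n) ^ 2 ^ j = 1 := congrArg Subtype.val hj
      exact n1 (one_of h.pp p2 (h.card c) hn (k := j) (congrArg Subtype.val e0))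
    refine ⟨ρ c, (pm.ln x hx y hy hvw _).2 ⟨c, hc, rfl⟩, fun w => ⟨fun e => ?_, fun e => ?_⟩,
      n, m, ne⟩
    · exact (bs.semi _ w _ m (pow_mem (show π g ∈ stabilizer H w from e) n)).resolve_left ne
    · rw [e, ← pm.eqv g c cP, (fc c).2 rfl]

end Cfsg.Agent.H87.GdQ2
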