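import Mathlib
import Cfsg.Agent.H39.SzBasic

/-!
Representations of a Suzuki group over its field of definition on which an element of order five
has no fixed point contain a twist of the natural module.
-/

set_option autoImplicit false

namespace Cfsg.Agent.H87.MZ

open H39
open Matrix hiding J J_transpose

universe v

variable {L : Type*} [Group L] {F : Type*} [Field F] (S : Model L F)

/-- An element of order five. -/
noncomputable def x5 : L := S.u 0 1 * S.w

theorem mat_x1 : S.mat (x5 S) = !![1, 1, 0, 1; 1, 0, 1, 0; 0, 1, 0, 0; 1, 0, 0, 0] := by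
  rw [x5, map_mul, S.mat_u, S.mat_w]
  ext i j
  fin_cases i <;> fin_cases j <;>
    simp [Tits.uM, Tits.f, J, suzukiForm, Matrix.mul_apply, Fin.sum_univ_four]

theorem mat_x2 : S.mat (x5 S ^ 2) = !![1, 1, 1, 1; 1, 0, 0, 1; 1, 0, 1, 0; 1, 1, 0, 1] := by
  have := S.charP
  rw [pow_two, map_mul, mat_x1]
  ext i j
  fin_cases i <;> fin_cases j <;> simp [Matrix.mul_apply, Fin.sum_univ_four] <;> grind

theorem mat_x3 : S.mat (x5 S ^ 3) = !![1, 0, 1, 1; 0, 1, 0, 1; 1, 0, 0, 1; 1, 1, 1, 1] := by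
  have := S.charP
  rw [pow_succ, map_mul, mat_x2, mat_x1]
  ext i j
  fin_cases i <;> fin_cases j <;> simp [Matrix.mul_apply, Fin.sum_univ_four] <;> grind

theorem mat_x4 : S.mat (x5 S ^ 4) = !![0, 0, 0, 1; 0, 0, 1, 0; 0, 1, 0, 1; 1, 0, 1, 1] := by
  have := S.charP
  rw [pow_succ, map_mul, mat_x3, mat_x1]
  ext i j
  fin_cases i <;> fin_cases j <;> simp [Matrix.mul_apply, Fin.sum_univ_four] <;> grind

theorem x5_pow : x5 S ^ 5 = 1 := by
  have := S.charP
  apply S.inj
  rw [pow_succ, map_mul, mat_x4, mat_x1, map_one]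
  ext i j
  fin_cases i <;> fin_cases j <;> simp [Matrix.mul_apply, Fin.sum_univ_four] <;> grind

theorem x5_ne : x5 S ≠ 1 := fun h => by
  have h2 := mat_x1 S
  rw [h, map_one] at h2
  simpa using congrFun (congrFun h2 3) 3

theorem orderOf_x5 : orderOf (x5 S) = 5 :=
  haveI : Fact (Nat.Prime 5) := ⟨Nat.prime_five⟩
  orderOf_eq_prime (x5_pow S) (x5_ne S)

theorem mat_mul_apply (g g' : L) (i j : Fin 4) : S.mat (g * g') i j =
    S.mat g i 0 * S.mat g' 0 j + S.mat g i 1 * S.mat g' 1 j + S.mat g i 2 * S.mat g' 2 j +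
      S.mat g i 3 * S.mat g' 3 j := by
  rw [map_mul, Matrix.mul_apply, Fin.sum_univ_four]

theorem mat_uh (a b : F) (k : Fˣ) : S.mat (S.u a b * S.h k) 3 0 = 0 := by
  rw [mat_mul_apply, S.mat_u, S.mat_h]
  simp [Tits.uM, Tits.hM]

theorem mat_big (a b : F) (k : Fˣ) (c d : F) :
    S.mat (S.u a b * S.h k * S.w * S.u c d) 3 0 = ((k : F) * S.θ k)⁻¹ := by
  simp only [mat_mul_apply, S.mat_u, S.mat_h, S.mat_w]
  simp [Tits.uM, Tits.hM, J, suzukiForm]

theorem card_units_cast [Finite F] : ((Nat.card Fˣ : ℕ) : F) = -1 := by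
  have := Fintype.ofFinite F
  have h1 : Nat.card Fˣ + 1 = Fintype.card F := by
    rw [Nat.card_units, Nat.card_eq_fintype_card]
    have := Fintype.card_pos (α := F)
    omega
  have h2 := FiniteField.cast_card_eq_zero F
  rw [← h1] at h2
  push_cast at h2
  linear_combination h2

theorem geom_units [Finite F] (k : Fˣ) (hk : k ≠ 1) :
    ∑ n ∈ Finset.range (Nat.card Fˣ), (k : F) ^ (n + 1) = 0 := by
  have h1 : (k : F) ^ Nat.card Fˣ = 1 := by
    rw [← Units.val_pow_eq_pow_val, pow_card_eq_one', Units.val_one]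
  have h2 := geom_sum_mul (k : F) (Nat.card Fˣ)
  rw [h1, sub_self] at h2
  have h3 : (k : F) - 1 ≠ 0 := fun h => hk (Units.ext (sub_eq_zero.mp h))
  have h4 := (mul_eq_zero.mp h2).resolve_right h3
  simp only [pow_succ, ← Finset.sum_mul, h4, zero_mul]

section Rep

variable [Finite F]

theorem exists_fixed {M : Type*} [AddCommGroup M] [Module F M] [Finite M] [Nontrivial M]
    (ρ : Representation F L M) : ∃ m : M, m ≠ 0 ∧ ∀ a b, ρ (S.u a b) m = m := by
  have := S.charP
  have := S.finite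
  have : Fact (Nat.Prime 2) := ⟨Nat.prime_two⟩
  let _ : MulAction S.U M :=
    { smul := fun g m => ρ g m
      one_smul := fun m => by
        change ρ ((1 : S.U) : L) m = m
        simp
      mul_smul := fun g g' m => by
        change ρ ((g * g' : S.U) : L) m = ρ g (ρ g' m)
        simp }
  have hd : 2 ∣ Nat.card M := by
    obtain ⟨m, hm⟩ := exists_ne (0 : M)
    have h2 : addOrderOf m = 2 := addOrderOf_eq_prime (by
      rw [← Nat.cast_smul_eq_nsmul F]
      simp [CharTwo.two_eq_zero]) hm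
    exact h2 ▸ addOrderOf_dvd_natCard m
  obtain ⟨m, hm, hm0⟩ := S.isPGroup_U.exists_fixed_point_of_prime_dvd_card_of_fixed_point M hd
    (a := 0) (fun g => map_zero (ρ g))
  exact ⟨m, hm0.symm, fun a b => hm ⟨S.u a b, S.u_mem_U a b⟩⟩

theorem exists_eigen {M : Type*} [AddCommGroup M] [Module F M] [Finite M] [Nontrivial M]
    (ρ : Representation F L M) : ∃ m : M, m ≠ 0 ∧ (∀ a b, ρ (S.u a b) m = m) ∧
      ∃ n : ℕ, ∀ k : Fˣ, ρ (S.h k) m = (k : F) ^ (n + 1) • m := by
  classical
  have := Fintype.ofFinite Fˣ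
  obtain ⟨m, hm0, hm⟩ := exists_fixed S ρ
  let c : ℕ → M := fun n => ∑ k : Fˣ, ((k⁻¹ : Fˣ) : F) ^ (n + 1) • ρ (S.h k) m
  have hs : ∑ n ∈ Finset.range (Nat.card Fˣ), c n = -m := by
    simp only [c]
    rw [Finset.sum_comm]
    simp only [← Finset.sum_smul]
    rw [Finset.sum_eq_single 1]
    · simp only [inv_one, Units.val_one, one_pow, Finset.sum_const, Finset.card_range, map_one,
        Module.End.one_apply, nsmul_eq_mul, mul_one, card_units_cast, neg_smul, one_smul]
    · intro k _ hk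
      rw [geom_units _ (inv_ne_one.mpr hk), zero_smul]
    · simp
  obtain ⟨n, -, hn⟩ : ∃ n ∈ Finset.range (Nat.card Fˣ), c n ≠ 0 :=
    Finset.exists_ne_zero_of_sum_ne_zero (by rw [hs]; exact neg_ne_zero.mpr hm0)
  refine ⟨c n, hn, fun a b => ?_, n, fun l => ?_⟩
  · simp only [c, map_sum, map_smul]
    refine Finset.sum_congr rfl fun k _ => ?_
    obtain ⟨a', b', e⟩ := S.exists_h_mul_u a b k
    rw [← Module.End.mul_apply, ← map_mul, e, map_mul, Module.End.mul_apply, hm]
  · simp only [c, map_sum, map_smul, Finset.smul_sum]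
    refine Fintype.sum_equiv (Equiv.mulLeft l) _ _ fun k => ?_
    rw [← Module.End.mul_apply, ← map_mul, ← map_mul, smul_smul, Equiv.coe_mulLeft]
    congr 1
    rw [← mul_pow, ← Units.val_mul]
    congr 2
    simp

/-- The norm of the element of order five vanishes. -/
def N5 {M : Type*} [AddCommGroup M] (a : L → M → M) : Prop :=
  ∀ m, m + a (x5 S) m + a (x5 S ^ 2) m + a (x5 S ^ 3) m + a (x5 S ^ 4) m = 0

theorem exists_nat_of_irred {M : Type*} [AddCommGroup M] [Module F M] [Finite M] [Nontrivial M]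
    (ρ : Representation F L M) (h5 : N5 S fun g m => ρ g m)
    (hirr : ∀ W : Submodule F M, (∀ g, W ≤ W.comap (ρ g)) → W = ⊥ ∨ W = ⊤) :
    ∃ (σ : F →+* F) (m : Fin 4 → M), m 0 ≠ 0 ∧
      ∀ g j, ρ g (m j) = ∑ i, σ (S.mat g i j) • m i := by
  have := S.charP
  have : Finite (Module.Dual F M) := Finite.of_injective _ DFunLike.coe_injective
  have : Nontrivial (Module.Dual F M) := by
    obtain ⟨m, hm⟩ := exists_ne (0 : M)
    by_contra h
    rw [not_nontrivial_iff_subsingleton] at h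
    exact hm ((Module.forall_dual_apply_eq_zero_iff F m).mp fun φ => by
      rw [Subsingleton.elim φ 0]; rfl)
  obtain ⟨m0, hm0, hU, n0, hH⟩ := exists_eigen S ρ
  obtain ⟨ψ, hψ0, hψU, n, hψH⟩ := exists_eigen S ρ.dual
  have hψU' : ∀ a b m, ψ (ρ (S.u a b) m) = ψ m := fun a b m => by
    have h1 := LinearMap.congr_fun (hψU a b) (ρ (S.u a b) m)
    rw [← h1, Representation.dual_apply, Module.Dual.transpose_apply, LinearMap.comp_apply,
      ← Module.End.mul_apply, ← map_mul, inv_mul_cancel, map_one, Module.End.one_apply]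
  have hψH' : ∀ (k : Fˣ) m, ψ (ρ (S.h k) m) = ((k⁻¹ : Fˣ) : F) ^ (n + 1) * ψ m := fun k m => by
    have h1 := LinearMap.congr_fun (hψH k⁻¹) m
    rwa [Representation.dual_apply, Module.Dual.transpose_apply, LinearMap.comp_apply,
      map_inv S.h, inv_inv, LinearMap.smul_apply, smul_eq_mul] at h1
  have hker : ∀ m, (∀ g, ψ (ρ g m) = 0) → m = 0 := by
    let K : Submodule F M :=
      { carrier := {m | ∀ g, ψ (ρ g m) = 0}
        add_mem' := fun {a b} ha hb g => by rw [map_add, map_add, ha g, hb g, add_zero]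
        zero_mem' := fun g => by simp
        smul_mem' := fun c a ha g => by rw [map_smul, map_smul, ha g, smul_zero] }
    rcases hirr K (fun g m hm g' => by
      rw [← Module.End.mul_apply, ← map_mul]; exact hm _) with h | h
    · intro m hm
      exact (Submodule.mem_bot F).mp (h.le hm)
    · exact absurd (LinearMap.ext fun m => by simpa using h.ge Submodule.mem_top 1) hψ0
  let s : F → F := fun y => (S.θ y / y) ^ (n + 1)
  have s0 : s 0 = 0 := by simp [s]
  have s1 : s 1 = 1 := by simp [s]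
  have smul : ∀ x y, s (x * y) = s x * s y := fun x y => by
    simp only [s, map_mul, ← mul_pow, mul_div_mul_comm]
  set β := ψ (ρ S.w m0) with hβ
  have F1 : ∀ g, S.mat g 3 0 ≠ 0 → ψ (ρ g m0) = s (S.mat g 3 0) * β := fun g hg => by
    rcases S.bruhat g with ⟨a, b, k, rfl⟩ | ⟨a, b, k, c, d, rfl⟩
    · exact absurd (mat_uh S a b k) hg
    · rw [mat_big]
      simp only [map_mul, Module.End.mul_apply, hU, hψU', hψH', s, map_inv₀, S.θθ]
      have hk := k.ne_zero
      have hk' : S.θ k ≠ 0 := S.θ_ne_zero.mpr hk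
      congr 2
      rw [Units.val_inv_eq_inv_val]
      field_simp
  have hα : ψ m0 = 0 := by
    have h1 := congrArg ψ (h5 m0)
    simp only [map_add, map_zero] at h1
    rw [F1 _ (by simp [mat_x1]), F1 _ (by simp [mat_x2]), F1 _ (by simp [mat_x3]),
      F1 _ (by simp [mat_x4]), mat_x1, mat_x2, mat_x3, mat_x4] at h1
    simp only [of_apply, cons_val', cons_val_zero, cons_val_fin_one, cons_val, s1] at h1
    grind
  have F2 : ∀ g, ψ (ρ g m0) = s (S.mat g 3 0) * β := fun g => by
    rcases S.bruhat g with ⟨a, b, k, rfl⟩ | ⟨a, b, k, c, d, rfl⟩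
    · rw [mat_uh, s0, zero_mul]
      simp only [map_mul, Module.End.mul_apply, hψU', hψH', hα, mul_zero]
    · apply F1
      rw [mat_big]
      exact inv_ne_zero (mul_ne_zero k.ne_zero (S.θ_ne_zero.mpr k.ne_zero))
  have hβ0 : β ≠ 0 := fun h => hm0 (hker _ fun g => by rw [F2, h, mul_zero])
  have sadd1 : ∀ c, s (c + 1) = s c + 1 := fun c => by
    obtain ⟨y, rfl⟩ := S.θ_surj c
    have h1 := congrArg ψ (h5 (ρ (S.u 0 y * S.w) m0))
    simp only [map_add, map_zero, ← Module.End.mul_apply, ← map_mul, F2] at h1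
    simp only [mat_mul_apply, mat_x1, mat_x2, mat_x3, mat_x4, S.mat_u, S.mat_w] at h1
    simp [Tits.uM, Tits.f, J, suzukiForm, s1] at h1
    have h2 : (s (S.θ y + 1) - (s (S.θ y) + 1)) * β = 0 := by grind
    exact sub_eq_zero.mp ((mul_eq_zero.mp h2).resolve_right hβ0)
  have sadd : ∀ c d, s (c + d) = s c + s d := fun c d => by
    by_cases hd : d = 0
    · rw [hd, add_zero, s0, add_zero]
    · rw [show c + d = (c / d + 1) * d by field_simp, smul, sadd1, add_mul, ← smul, one_mul,
        div_mul_cancel₀ _ hd]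
  let σ : F →+* F :=
    { toFun := s, map_one' := s1, map_mul' := smul, map_zero' := s0, map_add' := sadd }
  have F3 : ∀ g, ψ (ρ g m0) = σ (S.mat g 3 0) * β := F2
  let m : Fin 4 → M := ![m0, ρ (S.u 0 1 * S.w) m0 + m0 + ρ S.w m0,
    ρ (S.u 1 0 * S.w) m0 + m0 + ρ S.w m0, ρ S.w m0]
  have F4 : ∀ g j, ψ (ρ g (m j)) = σ (S.mat g 3 j) * β := fun g j => by
    fin_cases j
    · exact F3 g
    all_goals
      simp only [m, Fin.mk_one, Fin.reduceFinMk, cons_val, cons_val_one, cons_val_zero, map_add,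
        ← Module.End.mul_apply, ← map_mul, F3]
      simp only [mat_mul_apply, S.mat_u, S.mat_w]
      simp [Tits.uM, Tits.f, J, suzukiForm]
    all_goals grind
  refine ⟨σ, m, hm0, fun g j => sub_eq_zero.mp (hker _ fun g' => ?_)⟩
  rw [map_sub, map_sub, ← Module.End.mul_apply, ← map_mul, F4, mat_mul_apply]
  simp only [Fin.sum_univ_four, map_add, map_smul, F4, smul_eq_mul, map_mul]
  ring

theorem exists_nat_aux (N : ℕ) : ∀ {M : Type v} [AddCommGroup M] [Module F M] [Finite M]
    [Nontrivial M] (ρ : Representation F L M) (_ : N5 S fun g m => ρ g m), Nat.card M = N →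
    ∃ (σ : F →+* F) (m : Fin 4 → M), m 0 ≠ 0 ∧
      ∀ g j, ρ g (m j) = ∑ i, σ (S.mat g i j) • m i := by
  induction N using Nat.strong_induction_on with | _ N ih =>
  intro M _ _ _ _ ρ h5 hN
  by_cases hirr : ∀ W : Submodule F M, (∀ g, W ≤ W.comap (ρ g)) → W = ⊥ ∨ W = ⊤
  · exact exists_nat_of_irred S ρ h5 hirr
  push Not at hirr
  obtain ⟨W, hW, h0, h1⟩ := hirr
  have : Nontrivial W := Submodule.nontrivial_iff_ne_bot.mpr h0
  have hlt : Nat.card W < N := by
    rw [← hN]
    obtain ⟨m, hm⟩ : ∃ m, m ∉ W := by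
      by_contra h
      push Not at h
      exact h1 (eq_top_iff.mpr fun m _ => h m)
    exact Finite.card_subtype_lt hm
  obtain ⟨σ, m, hm0, hm⟩ := ih _ hlt (ρ.subrepresentation W hW)
    (fun m => Subtype.ext (h5 m)) rfl
  refine ⟨σ, fun i => m i, fun h => hm0 (Subtype.ext h), fun g j => ?_⟩
  have := congrArg Subtype.val (hm g j)
  simpa using this

theorem exists_nat {M : Type*} [AddCommGroup M] [Module F M] [Finite M]
    [Nontrivial M] (ρ : Representation F L M) (h5 : N5 S fun g m => ρ g m) :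
    ∃ (σ : F →+* F) (m : Fin 4 → M), m 0 ≠ 0 ∧
      ∀ g j, ρ g (m j) = ∑ i, σ (S.mat g i j) • m i :=
  exists_nat_aux S _ ρ h5 rfl

end Rep

end Cfsg.Agent.H87.MZ
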