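import Mathlib
import Cfsg.Agent.H87.MZ1

/-!
Elementary abelian 2-groups with an action of a Suzuki group in which an element of order five has
no fixed point map onto the natural module; the natural module carries no invariant product.
-/

set_option autoImplicit false

namespace Cfsg.Agent.H87.MZ

open H39
open Matrix hiding J J_transpose

variable {L : Type*} [Group L] {F : Type*} [Field F] (S : Model L F)

theorem u_vec (a b : F) (v : Fin 4 → F) : S.mat (S.u a b) *ᵥ v =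
    ![v 0 + a * v 1 + (b + a * S.θ a) * v 2 + S.f a b * v 3, v 1 + S.θ a * v 2 + b * v 3,
      v 2 + a * v 3, v 3] := by
  rw [S.mat_u]
  ext i
  fin_cases i <;> simp [Tits.uM, Matrix.mulVec, dotProduct, Fin.sum_univ_four]

theorem h_vec (k : Fˣ) (v : Fin 4 → F) : S.mat (S.h k) *ᵥ v =
    ![k * S.θ k * v 0, k * v 1, (k : F)⁻¹ * v 2, (k * S.θ k)⁻¹ * v 3] := by
  rw [S.mat_h]
  ext i
  fin_cases i <;> simp [Tits.hM, Matrix.mulVec, dotProduct, Fin.sum_univ_four]

theorem w_vec (v : Fin 4 → F) : S.mat S.w *ᵥ v = ![v 3, v 2, v 1, v 0] := by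
  rw [S.mat_w]
  ext i
  fin_cases i <;> simp [J, suzukiForm, Matrix.mulVec, dotProduct, Fin.sum_univ_four]

theorem mat_inv (g : L) (i j : Fin 4) : S.mat g⁻¹ i j = S.mat g j.rev i.rev := by
  have h1 : (J F * (S.mat g)ᵀ * J F) * S.mat g = 1 := by
    rw [Matrix.mul_assoc, Matrix.mul_assoc, ← Matrix.mul_assoc (S.mat g)ᵀ, (S.isSz g).1, J_mul_J]
  have h2 : S.mat g⁻¹ = J F * (S.mat g)ᵀ * J F := by
    rw [← Matrix.one_mul (S.mat g⁻¹), ← h1, Matrix.mul_assoc, ← map_mul, mul_inv_cancel, map_one,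
      Matrix.mul_one]
  rw [h2]
  fin_cases i <;> fin_cases j <;>
    simp [J, suzukiForm, Matrix.mul_apply, Fin.sum_univ_four, Fin.rev, Matrix.vecMul, dotProduct]

theorem vec_mul (g g' : L) (v : Fin 4 → F) : S.mat (g * g') *ᵥ v = S.mat g *ᵥ S.mat g' *ᵥ v := by
  rw [map_mul, Matrix.mulVec_mulVec]

/-- The natural module is irreducible over the prime field. -/
theorem nat_irred [Finite F] (R : AddSubgroup (Fin 4 → F))
    (hR : ∀ g, ∀ v ∈ R, S.mat g *ᵥ v ∈ R) (h0 : R ≠ ⊥) : R = ⊤ := by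
  have := S.charP
  have hz : ∀ v ∈ R, ![v 2 + v 3, v 3, 0, 0] ∈ R := fun v hv => by
    convert R.add_mem (hR (S.u 0 1) v hv) hv using 1
    rw [u_vec]
    ext i
    fin_cases i <;> simp [Tits.f] <;> grind
  have hu : ∀ a b, ![a, b, 0, 0] ∈ R → ![b, 0, 0, 0] ∈ R := fun a b hv => by
    convert R.add_mem (hR (S.u 1 0) _ hv) hv using 1
    rw [u_vec]
    ext i
    fin_cases i <;> simp [Tits.f] <;> grind
  obtain ⟨c, hc0, hc⟩ : ∃ c, c ≠ 0 ∧ ![c, 0, 0, 0] ∈ R := by
    obtain ⟨⟨v, hv⟩, hv0⟩ := (AddSubgroup.ne_bot_iff_exists_ne_zero).mp h0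
    by_cases h3 : v 3 = 0
    · by_cases h2 : v 2 = 0
      · have e : v = ![v 0, v 1, 0, 0] := by
          ext i
          fin_cases i <;> simp [h2, h3]
        by_cases h1 : v 1 = 0
        · refine ⟨v 0, fun h => hv0 (Subtype.ext ?_), by rwa [e, h1] at hv⟩
          ext i
          fin_cases i <;> simp [h, h1, h2, h3]
        · exact ⟨v 1, h1, hu _ _ (e ▸ hv)⟩
      · exact ⟨v 2, h2, by simpa [h3] using hz v hv⟩
    · exact ⟨v 3, h3, hu _ _ (hz v hv)⟩
  have e0 : ∀ a, ![a, 0, 0, 0] ∈ R := fun a => by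
    by_cases ha : a = 0
    · convert R.zero_mem using 1
      ext i
      fin_cases i <;> simp [ha]
    obtain ⟨x, hx⟩ := S.mul_θ_surj (a / c)
    have hx0 : x ≠ 0 := by
      rintro rfl
      exact div_ne_zero ha hc0 (by simpa using hx.symm)
    convert hR (S.h (Units.mk0 x hx0)) _ hc using 1
    rw [h_vec]
    simp [hx, hc0]
  have e3 : ∀ a, ![0, 0, 0, a] ∈ R := fun a => by
    simpa [w_vec] using hR S.w _ (e0 a)
  have e1 : ∀ a, ![0, a, 0, 0] ∈ R := fun a => by
    convert R.add_mem (hz _ (e3 a)) (e0 a) using 1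
    ext i
    fin_cases i <;> simp [CharTwo.add_self_eq_zero]
  have e2 : ∀ a, ![0, 0, a, 0] ∈ R := fun a => by
    simpa [w_vec] using hR S.w _ (e1 a)
  rw [eq_top_iff]
  intro v _
  convert R.add_mem (R.add_mem (R.add_mem (e0 (v 0)) (e1 (v 1))) (e2 (v 2))) (e3 (v 3)) using 1
  ext i
  fin_cases i <;> simp

/-- The action on additive maps to the field. -/
def dualRep (V : Type*) [AddCommGroup V] [DistribMulAction L V] (F : Type*) [Field F] :
    Representation F L (V →+ F) where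
  toFun g :=
    { toFun := fun φ => φ.comp (DistribSMul.toAddMonoidHom V g⁻¹)
      map_add' := fun _ _ => rfl
      map_smul' := fun _ _ => rfl }
  map_one' := by
    ext φ v
    simp
  map_mul' g g' := by
    ext φ v
    simp [mul_smul]

theorem dualRep_apply {V : Type*} [AddCommGroup V] [DistribMulAction L V] (g : L) (φ : V →+ F)
    (v : V) : dualRep V F g φ v = φ (g⁻¹ • v) := rfl

theorem exists_psi [Finite F] {V : Type*} [AddCommGroup V] [DistribMulAction L V] [Finite V]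
    [Nontrivial V] (h2 : ∀ v : V, v + v = 0) (h5 : N5 S fun g (v : V) => g • v) :
    ∃ Ψ : V →+ (Fin 4 → F), Function.Surjective Ψ ∧ ∀ g v, Ψ (g • v) = S.mat g *ᵥ Ψ v := by
  have := S.charP
  have : Finite (V →+ F) := Finite.of_injective _ DFunLike.coe_injective
  have : Nontrivial (V →+ F) := by
    let _ : Module (ZMod 2) V := AddCommGroup.zmodModule fun v => by rw [two_nsmul, h2]
    obtain ⟨v, hv⟩ := exists_ne (0 : V)
    obtain ⟨φ, hφ⟩ : ∃ φ : Module.Dual (ZMod 2) V, φ v ≠ 0 := by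
      by_contra h
      push Not at h
      exact hv ((Module.forall_dual_apply_eq_zero_iff (ZMod 2) v).mp h)
    refine ⟨(ZMod.castHom (dvd_refl 2) F).toAddMonoidHom.comp φ.toAddMonoidHom, 0, fun h => hφ ?_⟩
    exact (map_eq_zero (ZMod.castHom (dvd_refl 2) F)).mp (DFunLike.congr_fun h v)
  have i1 : (x5 S)⁻¹ = x5 S ^ 4 := inv_eq_of_mul_eq_one_left (by rw [← pow_succ, x5_pow])
  have i2 : (x5 S ^ 2)⁻¹ = x5 S ^ 3 := inv_eq_of_mul_eq_one_left (by rw [← pow_add, x5_pow])
  have i3 : (x5 S ^ 3)⁻¹ = x5 S ^ 2 := inv_eq_of_mul_eq_one_left (by rw [← pow_add, x5_pow])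
  have i4 : (x5 S ^ 4)⁻¹ = x5 S := inv_eq_of_mul_eq_one_right (by rw [← pow_succ, x5_pow])
  obtain ⟨σ, φ, h0, hφ⟩ := exists_nat S (dualRep V F) (fun φ => by
    ext v
    simp only [AddMonoidHom.add_apply, dualRep_apply, i1, i2, i3, i4, ← map_add,
      AddMonoidHom.zero_apply]
    rw [← map_zero φ, ← h5 v]
    congr 1
    abel)
  let e := RingEquiv.ofBijective σ ⟨σ.injective, Finite.surjective_of_injective σ.injective⟩
  have he : ∀ x, e.symm (σ x) = x := fun x => e.symm_apply_apply x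
  let Ψ : V →+ (Fin 4 → F) :=
    { toFun := fun v j => e.symm (φ j.rev v)
      map_zero' := by ext j; simp
      map_add' := fun a b => by ext j; simp }
  have hΨ : ∀ g v, Ψ (g • v) = S.mat g *ᵥ Ψ v := fun g v => by
    ext j
    have h1 := DFunLike.congr_fun (hφ g⁻¹ j.rev) v
    rw [dualRep_apply, inv_inv] at h1
    change e.symm (φ j.rev (g • v)) = ∑ i, S.mat g j i * e.symm (φ i.rev v)
    rw [h1]
    simp only [Fin.sum_univ_four, AddMonoidHom.add_apply, AddMonoidHom.smul_apply, smul_eq_mul,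
      map_add, map_mul, he, mat_inv, Fin.rev_rev]
    simp only [show (0 : Fin 4).rev = 3 from rfl, show (1 : Fin 4).rev = 2 from rfl,
      show (2 : Fin 4).rev = 1 from rfl, show (3 : Fin 4).rev = 0 from rfl]
    ring
  refine ⟨Ψ, AddMonoidHom.range_eq_top.mp (nat_irred S _ ?_ fun h => h0 ?_), hΨ⟩
  · rintro g _ ⟨v, rfl⟩
    exact ⟨g • v, hΨ g v⟩
  · ext v
    have h1 : Ψ v = 0 := (AddSubgroup.mem_bot).mp (h.le ⟨v, rfl⟩)
    exact (map_eq_zero e.symm).mp (congrFun h1 3)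

/-- The action on an invariant subgroup. -/
@[reducible] def subAct {M : Type*} [AddCommGroup M] [DistribMulAction L M] (K : AddSubgroup M)
    (hK : ∀ g : L, ∀ m ∈ K, g • m ∈ K) : DistribMulAction L K where
  smul g m := ⟨g • (m : M), hK g m m.2⟩
  one_smul m := Subtype.ext (one_smul L (m : M))
  mul_smul g g' m := Subtype.ext (mul_smul g g' (m : M))
  smul_zero g := Subtype.ext (smul_zero g)
  smul_add g a b := Subtype.ext (smul_add g (a : M) b)

theorem exists_psi_sub [Finite F] {M : Type*} [AddCommGroup M] [DistribMulAction L M] [Finite M]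
    (h5 : N5 S fun g (v : M) => g • v) (K : AddSubgroup M) (hK : ∀ g : L, ∀ m ∈ K, g • m ∈ K)
    (h0 : K ≠ ⊥) (h2 : ∀ v ∈ K, v + v = 0) :
    ∃ Ψ : K →+ (Fin 4 → F), Function.Surjective Ψ ∧
      ∀ g (v : K), Ψ ⟨g • (v : M), hK g v v.2⟩ = S.mat g *ᵥ Ψ v := by
  let _ := subAct K hK
  have : Nontrivial K := (AddSubgroup.nontrivial_iff_ne_bot K).mpr h0
  exact exists_psi S (V := K) (fun v => Subtype.ext (h2 v v.2)) fun v => Subtype.ext (h5 v)

section Bilin

variable [SzField F]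

theorem bilin_low (β : (Fin 4 → F) →+ (Fin 4 → F) →+ (Fin 4 → F))
    (hβ : ∀ g v v', β (S.mat g *ᵥ v) (S.mat g *ᵥ v') = S.mat g *ᵥ β v v') (l m : F) :
    β ![l, 0, 0, 0] ![0, 0, 0, m] 3 = 0 ∧ β ![l, 0, 0, 0] ![0, 0, 0, m] 2 = 0 ∧
      β ![l, 0, 0, 0] ![m, 0, 0, 0] = 0 := by
  have := S.charP
  have := SzField.finite F
  obtain ⟨t, ht0, ht1⟩ := SzField.exists_ne F
  let y : F → F → Fin 4 → F := fun l m => β ![l, 0, 0, 0] ![0, 0, 0, m]
  let d : F → F → Fin 4 → F := fun l m => β ![l, 0, 0, 0] ![m, 0, 0, 0]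
  have hu : ∀ a b l v, β ![l, 0, 0, 0] (S.mat (S.u a b) *ᵥ v) =
      S.mat (S.u a b) *ᵥ β ![l, 0, 0, 0] v := fun a b l v => by
    rw [← hβ, u_vec S a b ![l, 0, 0, 0]]
    simp
  have hd : ∀ l m, d l m 1 = 0 ∧ d l m 2 = 0 ∧ d l m 3 = 0 := fun l m => by
    have h1 := hu 1 0 l ![m, 0, 0, 0]
    have h2 := hu 0 1 l ![m, 0, 0, 0]
    rw [u_vec, u_vec] at h1 h2
    simp only [cons_val_zero, cons_val_one, cons_val, mul_zero, add_zero] at h1 h2
    have a0 := congrFun h1 0
    have a1 := congrFun h1 1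
    have a2 := congrFun h1 2
    simp [Tits.f] at a0 a1 a2
    simp only [d]
    grind
  have R1 : ∀ a l m, S.mat (S.u a 0) *ᵥ y l m + y l m + S.mat (S.u 1 0) *ᵥ y l (a * m) +
      y l (a * m) = d l (S.f a 0 * m + a * m) := fun a l m => by
    simp only [y, d, ← hu, ← map_add]
    congr 1
    rw [u_vec, u_vec]
    ext i
    fin_cases i <;> simp [Tits.f] <;> grind
  have R2 : ∀ b l m, S.mat (S.u 0 b) *ᵥ y l m + y l m + S.mat (S.u 0 1) *ᵥ y l (b * m) +
      y l (b * m) = d l ((S.θ b + b) * m) := fun b l m => by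
    simp only [y, d, ← hu, ← map_add]
    congr 1
    rw [u_vec, u_vec]
    ext i
    fin_cases i <;> simp [Tits.f] <;> grind
  have hy : ∀ (k : Fˣ) l m, y (k * S.θ k * l) ((k * S.θ k)⁻¹ * m) = S.mat (S.h k) *ᵥ y l m :=
    fun k l m => by
      simp only [y]
      rw [← hβ, h_vec, h_vec]
      simp
  have hdh : ∀ (k : Fˣ) l m, d (k * S.θ k * l) (k * S.θ k * m) = S.mat (S.h k) *ᵥ d l m :=
    fun k l m => by
      simp only [d]
      rw [← hβ, h_vec, h_vec]
      simp
  have yadd : ∀ l l' m, y (l + l') m = y l m + y l' m := fun l l' m => by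
    simp only [y]
    rw [← AddMonoidHom.add_apply, ← map_add]
    simp
  change y l m 3 = 0 ∧ y l m 2 = 0 ∧ d l m = 0
  clear_value y d
  clear hu hβ
  have y3 : ∀ a l m, y l (a * m) 3 = a * y l m 3 := fun a l m => by
    have h1 := congrFun (R1 a l m) 2
    simp only [Pi.add_apply, (hd _ _).2.1, u_vec, cons_val] at h1
    grind
  have y2 : ∀ a l m, y l (a * m) 2 = S.θ a * y l m 2 := fun a l m => by
    have h1 := congrFun (R1 a l m) 1
    simp only [Pi.add_apply, (hd _ _).1, u_vec, cons_val_one, cons_val_zero, map_one] at h1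
    grind
  let k : Fˣ := Units.mk0 t ht0
  have hκ0 : t * S.θ t ≠ 0 := mul_ne_zero ht0 (S.θ_ne_zero.mpr ht0)
  have hκ1 : t * S.θ t + 1 ≠ 0 := fun h => ht1 (S.mul_θ_eq_one.mp (by grind))
  have y30 : ∀ l m, y l m 3 = 0 := fun l m => by
    have h1 : ∀ l, y (t * S.θ t * l) m 3 = y l m 3 := fun l => by
      have h2 := congrFun (hy k l m) 3
      rw [y3, h_vec] at h2
      exact mul_left_cancel₀ (inv_ne_zero hκ0) h2
    have h3 := congrFun (yadd (t * S.θ t * (l / (t * S.θ t + 1))) (l / (t * S.θ t + 1)) m) 3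
    rw [Pi.add_apply, h1, CharTwo.add_self_eq_zero] at h3
    rw [← h3]
    congr 1
    field_simp
  have d0 : ∀ l m, d l ((S.θ t + t) * m) 0 = (S.θ t + t) * y l m 2 := fun l m => by
    have h1 := congrFun (R2 t l m) 0
    simp only [Pi.add_apply, u_vec, cons_val_zero, y30, y2, map_zero] at h1
    grind
  have hs : S.θ t + t ≠ 0 := fun h => by
    rcases S.θ_eq_self (x := t) (by grind) with h | h
    · exact ht0 h
    · exact ht1 h
  have y20 : ∀ l m, y l m 2 = 0 := fun l m => by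
    have h1 := congrFun (hdh k l ((S.θ t + t) * m)) 0
    have h2 := congrFun (hy k l m) 2
    rw [h_vec] at h1 h2
    simp only [k, Units.val_mk0, cons_val_zero, cons_val] at h1 h2
    rw [mul_left_comm, d0, d0, y2] at h1
    rw [y2] at h2
    simp only [map_mul, map_inv₀, S.θθ] at h1 h2
    have hθ : S.θ t ≠ 0 := S.θ_ne_zero.mpr ht0
    have h4 : t ^ 2 * S.θ t - 1 ≠ 0 := fun h => ht1 (S.sq_mul_θ_eq_one.mp (sub_eq_zero.mp h))
    field_simp at h1 h2
    have h3 : (t ^ 2 * S.θ t - 1) * y l m 2 = 0 := by grind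
    exact (mul_eq_zero.mp h3).resolve_left h4
  refine ⟨y30 l m, y20 l m, ?_⟩
  have h0 := d0 l (m / (S.θ t + t))
  rw [y20, mul_zero, mul_div_cancel₀ _ hs] at h0
  obtain ⟨h1, h2, h3⟩ := hd l m
  ext i
  fin_cases i <;> assumption

/-- The natural module has no invariant product. -/
theorem bilin_nat (β : (Fin 4 → F) →+ (Fin 4 → F) →+ (Fin 4 → F))
    (hβ : ∀ g v v', β (S.mat g *ᵥ v) (S.mat g *ᵥ v') = S.mat g *ᵥ β v v') : β = 0 := by
  have := SzField.finite F
  have h03 : ∀ l m, β ![l, 0, 0, 0] ![0, 0, 0, m] = 0 := fun l m => by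
    obtain ⟨h3, h2, -⟩ := bilin_low S β hβ l m
    obtain ⟨h0, h1, -⟩ := bilin_low S β.flip (fun g v v' => hβ g v' v) m l
    have e := hβ S.w ![0, 0, 0, l] ![m, 0, 0, 0]
    rw [w_vec, w_vec, w_vec] at e
    simp only [cons_val_zero, cons_val_one, cons_val] at e
    rw [AddMonoidHom.flip_apply] at h0 h1
    rw [e] at h2 h3 ⊢
    ext i
    fin_cases i <;> assumption
  have h00 : ∀ l m, β ![l, 0, 0, 0] ![m, 0, 0, 0] = 0 := fun l m => (bilin_low S β hβ l m).2.2
  have hne : (![1, 0, 0, 0] : Fin 4 → F) ≠ 0 := fun h => one_ne_zero (congrFun h 0)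
  have key : ∀ g m, β (S.mat g *ᵥ ![1, 0, 0, 0]) ![m, 0, 0, 0] = 0 := fun g m => by
    rcases S.bruhat g with ⟨a, b, k, rfl⟩ | ⟨a, b, k, c, d, rfl⟩
    · rw [vec_mul, h_vec, u_vec]
      simpa using h00 _ m
    · have e := hβ (S.u a b * S.w) ![((k : F) * S.θ k)⁻¹, 0, 0, 0] ![0, 0, 0, m]
      rw [h03, Matrix.mulVec_zero] at e
      rw [← e]
      simp only [vec_mul, h_vec, u_vec, w_vec]
      simp
  let R1 : AddSubgroup (Fin 4 → F) :=
    { carrier := {v | ∀ g m, β (S.mat g *ᵥ v) ![m, 0, 0, 0] = 0}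
      add_mem' := fun {a b} ha hb g m => by
        rw [Matrix.mulVec_add, map_add, AddMonoidHom.add_apply, ha, hb, add_zero]
      zero_mem' := fun g m => by simp
      neg_mem' := fun {a} ha g m => by
        rw [Matrix.mulVec_neg, map_neg, AddMonoidHom.neg_apply, ha, neg_zero] }
  have h1 : R1 = ⊤ := nat_irred S R1 (fun g v hv g' m => by rw [← vec_mul]; exact hv _ _)
    fun h => hne (AddSubgroup.mem_bot.mp (h.le key))
  have h2 : β.flip.ker = ⊤ := nat_irred S _ (fun g v hv => by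
      refine AddMonoidHom.ext fun v' => ?_
      have e := hβ g (S.mat g⁻¹ *ᵥ v') v
      rw [← vec_mul, mul_inv_cancel, map_one, Matrix.one_mulVec] at e
      rw [AddMonoidHom.flip_apply, e, ← AddMonoidHom.flip_apply, AddMonoidHom.mem_ker.mp hv]
      simp)
    fun h => hne (AddSubgroup.mem_bot.mp (h.le (by
      refine AddMonoidHom.ext fun v => ?_
      have := h1.ge (AddSubgroup.mem_top v) 1 1
      rwa [map_one, Matrix.one_mulVec] at this)))
  refine AddMonoidHom.ext fun v => AddMonoidHom.ext fun v' => ?_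
  exact DFunLike.congr_fun (AddMonoidHom.mem_ker.mp (h2.ge (AddSubgroup.mem_top v'))) v

end Bilin

end Cfsg.Agent.H87.MZ
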