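import Mathlib
import Cfsg.Agent.H87.MZ2

/-!
Abelian 2-groups with an action of a Suzuki group in which the elements of odd order have no fixed
point: they are elementary abelian and carry no invariant product.
-/

set_option autoImplicit false

namespace Cfsg.Agent.H87.MZ

open H39
open Matrix hiding J J_transpose

variable {L : Type*} [Group L] {F : Type*} [Field F] (S : Model L F)

theorem red [Finite F] {M : Type*} [AddCommGroup M] [DistribMulAction L M] [Finite M]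
    (h5 : N5 S fun g (v : M) => g • v) (h2 : ∀ v : M, v + v = 0) {X : Type*} [AddCommGroup X]
    (R : L → X → X)
    (hX : ∀ c : (Fin 4 → F) →+ X, (∀ g v, c (S.mat g *ᵥ v) = R g (c v)) → c = 0)
    (c : M →+ X) (hc : ∀ g m, c (g • m) = R g (c m)) : c = 0 := by
  suffices h : ∀ (N : ℕ) (K : AddSubgroup M), (∀ g : L, ∀ m ∈ K, g • m ∈ K) → Nat.card K = N →
      ∀ m ∈ K, c m = 0 from AddMonoidHom.ext fun m => h _ ⊤ (fun _ _ _ => trivial) rfl m trivial
  intro N
  induction N using Nat.strong_induction_on with | _ N ih =>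
  intro K hK hN
  by_cases h0 : K = ⊥
  · intro m hm
    rw [AddSubgroup.mem_bot.mp (h0.le hm), map_zero]
  obtain ⟨Ψ, hs, hΨ⟩ := exists_psi_sub S h5 K hK h0 fun v _ => h2 v
  have hlt : Nat.card (Ψ.ker.map K.subtype) < N := by
    rw [← hN, AddSubgroup.card_map_of_injective K.subtype_injective]
    obtain ⟨v, hv⟩ := hs ![1, 0, 0, 0]
    exact Finite.card_subtype_lt (x := v) fun h =>
      one_ne_zero (congrFun (hv.symm.trans (AddMonoidHom.mem_ker.mp h)) 0)
  have hk := ih _ hlt (Ψ.ker.map K.subtype) (by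
    rintro g _ ⟨v, hv, rfl⟩
    refine ⟨⟨g • (v : M), hK g v v.2⟩, ?_, rfl⟩
    change Ψ _ = 0
    rw [hΨ, AddMonoidHom.mem_ker.mp hv, Matrix.mulVec_zero]) rfl
  let c' := Ψ.liftOfSurjective hs ⟨c.comp K.subtype, fun v hv => hk v ⟨v, hv, rfl⟩⟩
  have hc' : ∀ v : K, c' (Ψ v) = c v := fun v => Ψ.liftOfRightInverse_comp_apply _ _ _ v
  have h1 := hX c' fun g v => by
    obtain ⟨v, rfl⟩ := hs v
    rw [← hΨ, hc', hc', hc]
  intro m hm
  rw [← hc' ⟨m, hm⟩, h1, AddMonoidHom.zero_apply]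

theorem bilin_to_nat [SzField F] {M₁ M₂ : Type*} [AddCommGroup M₁] [DistribMulAction L M₁]
    [Finite M₁] [AddCommGroup M₂] [DistribMulAction L M₂] [Finite M₂]
    (h5 : N5 S fun g (v : M₁) => g • v) (h2 : ∀ v : M₁, v + v = 0)
    (h5' : N5 S fun g (v : M₂) => g • v) (h2' : ∀ v : M₂, v + v = 0)
    (β : M₁ →+ M₂ →+ (Fin 4 → F)) (hβ : ∀ g v v', β (g • v) (g • v') = S.mat g *ᵥ β v v') :
    β = 0 := by
  have := SzField.finite F
  let A : L → (Fin 4 → F) →+ (Fin 4 → F) := fun g => (Matrix.toLin' (S.mat g)).toAddMonoidHom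
  have hA : ∀ g v, A g v = S.mat g *ᵥ v := fun g v => rfl
  have hinv : ∀ g v, S.mat g⁻¹ *ᵥ S.mat g *ᵥ v = v := fun g v => by
    rw [← vec_mul, inv_mul_cancel, map_one, Matrix.one_mulVec]
  have hinv' : ∀ g v, S.mat g *ᵥ S.mat g⁻¹ *ᵥ v = v := fun g v => by
    rw [← vec_mul, mul_inv_cancel, map_one, Matrix.one_mulVec]
  refine red S h5 h2 (fun g f => (A g).comp (f.comp (DistribSMul.toAddMonoidHom M₂ g⁻¹)))
    (fun c hc => ?_) β fun g m => AddMonoidHom.ext fun v => ?_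
  · have h := red S h5' h2' (fun g f => (A g).comp (f.comp (A g⁻¹))) (fun c' hc' =>
      bilin_nat S c' fun g v v' => by
        rw [hc']
        change S.mat g *ᵥ c' v (S.mat g⁻¹ *ᵥ S.mat g *ᵥ v') = _
        rw [hinv]) c.flip fun g m => AddMonoidHom.ext fun v => by
      change c v (g • m) = S.mat g *ᵥ c (S.mat g⁻¹ *ᵥ v) m
      conv_lhs => rw [← hinv' g v, hc]
      change S.mat g *ᵥ c _ (g⁻¹ • g • m) = _
      rw [inv_smul_smul]
    exact AddMonoidHom.ext fun v => AddMonoidHom.ext fun m =>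
      DFunLike.congr_fun (DFunLike.congr_fun h m) v
  · change β (g • m) v = S.mat g *ᵥ β m (g⁻¹ • v)
    rw [← hβ, smul_inv_smul]

theorem bilin [SzField F] {M₁ M₂ M₃ : Type*} [AddCommGroup M₁] [DistribMulAction L M₁]
    [Finite M₁] [AddCommGroup M₂] [DistribMulAction L M₂] [Finite M₂] [AddCommGroup M₃]
    [DistribMulAction L M₃] [Finite M₃]
    (h5 : N5 S fun g (v : M₁) => g • v) (h2 : ∀ v : M₁, v + v = 0)
    (h5' : N5 S fun g (v : M₂) => g • v) (h2' : ∀ v : M₂, v + v = 0)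
    (h5'' : N5 S fun g (v : M₃) => g • v) (h2'' : ∀ v : M₃, v + v = 0)
    (β : M₁ →+ M₂ →+ M₃) (hβ : ∀ (g : L) v v', β (g • v) (g • v') = g • β v v') (v : M₁)
    (v' : M₂) : β v v' = 0 := by
  have := SzField.finite F
  let K : AddSubgroup M₃ := AddSubgroup.closure {x | ∃ v v', β v v' = x}
  have hm : ∀ v v', β v v' ∈ K := fun v v' => AddSubgroup.subset_closure ⟨v, v', rfl⟩
  have hK : ∀ g : L, ∀ m ∈ K, g • m ∈ K := fun g m hm' => by
    have : K ≤ K.comap (DistribSMul.toAddMonoidHom M₃ g) := (AddSubgroup.closure_le _).mpr (by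
      rintro _ ⟨v, v', rfl⟩
      change g • β v v' ∈ K
      rw [← hβ]
      exact hm _ _)
    exact this hm'
  by_cases h0 : K = ⊥
  · exact AddSubgroup.mem_bot.mp (h0.le (hm v v'))
  exfalso
  obtain ⟨Ψ, hs, hΨ⟩ := exists_psi_sub S h5'' K hK h0 fun v _ => h2'' v
  let β' : M₁ →+ M₂ →+ (Fin 4 → F) := AddMonoidHom.mk'
    (fun v => Ψ.comp ((β v).codRestrict K (hm v))) fun a b => AddMonoidHom.ext fun v' => by
      change Ψ _ = Ψ _ + Ψ _
      rw [← map_add]
      congr 1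
      exact Subtype.ext (by simp)
  have h1 : β' = 0 := bilin_to_nat S h5 h2 h5' h2' β' fun g v v' => by
    change Ψ _ = S.mat g *ᵥ Ψ _
    rw [← hΨ]
    congr 1
    exact Subtype.ext (hβ g v v')
  have h3 : K ≤ Ψ.ker.map K.subtype := (AddSubgroup.closure_le _).mpr (by
    rintro _ ⟨v, v', rfl⟩
    exact ⟨⟨β v v', hm v v'⟩, DFunLike.congr_fun (DFunLike.congr_fun h1 v) v', rfl⟩)
  obtain ⟨x, hx⟩ := hs ![1, 0, 0, 0]
  obtain ⟨y, hy, e⟩ := h3 x.2
  rw [← Subtype.ext e, AddMonoidHom.mem_ker.mp hy] at hx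
  exact one_ne_zero (congrFun hx.symm 0)

theorem sum_mem_of_symm {ι M : Type*} [Fintype ι] [AddCommGroup M] (K : AddSubgroup M)
    (t : ι → ι → M) (h : ∀ k l, k ≠ l → t k l + t l k ∈ K) (h0 : ∑ k, ∑ l, t k l = 0) :
    ∑ k, t k k ∈ K := by
  classical
  rw [← Finset.sum_product', ← Finset.diag_union_offDiag,
    Finset.sum_union (Finset.disjoint_diag_offDiag _), Finset.sum_diag] at h0
  rw [eq_neg_of_add_eq_zero_left h0, neg_mem_iff, ← QuotientAddGroup.eq_zero_iff,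
    ← QuotientAddGroup.mk'_apply, map_sum]
  refine Finset.sum_involution (fun a _ => a.swap) (fun a ha => ?_) (fun a ha _ e => ?_)
    (fun a ha => ?_) fun a _ => rfl
  · rw [← map_add, QuotientAddGroup.mk'_apply, QuotientAddGroup.eq_zero_iff]
    exact h _ _ (Finset.mem_offDiag.mp ha).2.2
  · exact (Finset.mem_offDiag.mp ha).2.2 (congrArg Prod.snd e)
  · exact Finset.mem_offDiag.mpr ⟨Finset.mem_univ _, Finset.mem_univ _,
      (Finset.mem_offDiag.mp ha).2.2.symm⟩

theorem two_of_four [Finite F] [Fintype Fˣ] {M : Type*} [AddCommGroup M] [DistribMulAction L M]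
    [Finite M] (h5 : N5 S fun g (v : M) => g • v) (hH : ∀ v : M, ∑ k : Fˣ, S.h k • v = 0)
    (u : M) (hu : (u + u) + (u + u) = 0) : u + u = 0 := by
  have := S.charP
  let N : AddSubgroup M :=
    { carrier := {n | ∃ u, (u + u) + (u + u) = 0 ∧ n = u + u}
      add_mem' := by
        rintro _ _ ⟨a, ha, rfl⟩ ⟨b, hb, rfl⟩
        refine ⟨a + b, ?_, by abel⟩
        rw [← add_zero (0 : M)]
        nth_rw 1 [← ha]
        rw [← hb]
        abel
      zero_mem' := ⟨0, by simp, by simp⟩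
      neg_mem' := by
        rintro _ ⟨a, ha, rfl⟩
        refine ⟨-a, ?_, by abel⟩
        rw [← neg_zero, ← ha]
        abel }
  have hN : ∀ g : L, ∀ m ∈ N, g • m ∈ N := by
    rintro g _ ⟨a, ha, rfl⟩
    exact ⟨g • a, by simp only [← smul_add, ha, smul_zero], smul_add _ _ _⟩
  by_cases h0 : N = ⊥
  · exact AddSubgroup.mem_bot.mp (h0.le ⟨u, hu, rfl⟩)
  exfalso
  obtain ⟨Ψ, hs, hΨ⟩ := exists_psi_sub S h5 N hN h0 (by rintro _ ⟨a, ha, rfl⟩; exact ha)
  obtain ⟨⟨_, a, ha, rfl⟩, hn⟩ := hs ![0, 0, 0, 1]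
  let z : Fˣ → L := fun k => S.u 0 ((k : F) ^ 2 * S.θ k)
  have hz : ∀ k, z k * S.h k = S.h k * S.u 0 1 := fun k => by
    rw [S.h_mul_u]
    simp [z]
  let D : Fˣ → M →+ M := fun k => DistribSMul.toAddMonoidHom M (z k) - AddMonoidHom.id M
  have hD : ∀ k v, D k v = z k • v - v := fun k v => rfl
  have hsum : ∀ v, ∑ l, D l (S.h l • v) = 0 := fun v => by
    rw [← hH (S.u 0 1 • v - v)]
    refine Finset.sum_congr rfl fun l _ => ?_
    rw [hD, ← mul_smul, hz, mul_smul, smul_sub]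
  have hDN : ∀ k, ∀ v ∈ N, D k v ∈ N := fun k v hv => N.sub_mem (hN _ v hv) hv
  have hΨD : ∀ k (v : N), Ψ ⟨D k v, hDN k v v.2⟩ = S.mat (z k) *ᵥ Ψ v - Ψ v := fun k v => by
    rw [← hΨ, ← map_sub]
    rfl
  have hcomm : ∀ k l v, D k (D l v) = D l (D k v) := fun k l v => by
    simp only [hD, smul_sub, ← mul_smul]
    rw [show z k * z l = z l * z k from S.u_zero_comm _ _ _]
    abel
  have hsq : ∀ k v, D k (D k v) = -D k (v + v) := fun k v => by
    simp only [hD, smul_sub, smul_add, ← mul_smul]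
    rw [show z k * z k = 1 from S.u_zero_sq _, one_smul]
    abel
  have key := sum_mem_of_symm (Ψ.ker.map N.subtype)
    (fun k l => D k (D l (S.h l • S.h k • a))) (fun k l _ => by
      have hm : S.h l • S.h k • (a + a) ∈ N := hN _ _ (hN _ _ ⟨a, ha, rfl⟩)
      refine ⟨⟨D k (D l _), hDN k _ (hDN l _ hm)⟩, ?_, ?_⟩
      · change Ψ ⟨D k ((⟨D l (⟨_, hm⟩ : N), hDN l _ hm⟩ : N) : M), _⟩ = 0
        rw [hΨD, hΨD]
        generalize Ψ _ = w
        simp only [z, u_vec]
        ext i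
        fin_cases i <;> simp [vecHead, vecTail]
      · change D k (D l _) = _
        rw [hcomm l k, ← mul_smul (S.h k), S.h_comm k l, mul_smul]
        simp only [smul_add, map_add])
    (Finset.sum_eq_zero fun k _ => by rw [← map_sum, hsum, map_zero])
  simp only [hsq, ← smul_add, Finset.sum_neg_distrib, neg_mem_iff] at key
  obtain ⟨y, hy, e⟩ := key
  have hm : ∀ k, S.h k • S.h k • (a + a) ∈ N := fun k => hN _ _ (hN _ _ ⟨a, ha, rfl⟩)
  have e2 : y = ∑ k, (⟨D k (⟨_, hm k⟩ : N), hDN k _ (hm k)⟩ : N) := Subtype.ext (by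
    rw [AddSubgroup.val_finsetSum]
    exact e)
  have h1 := congrFun (AddMonoidHom.mem_ker.mp hy) 0
  rw [e2, map_sum, Finset.sum_apply, Finset.sum_congr rfl (g := fun _ => (1 : F))] at h1
  · rw [Finset.sum_const, Finset.card_univ, ← Nat.card_eq_fintype_card, nsmul_eq_mul,
      card_units_cast] at h1
    simp at h1
  · intro k _
    rw [hΨD, hΨ (S.h k) ⟨S.h k • (a + a), hN _ _ ⟨a, ha, rfl⟩⟩, hΨ (S.h k) ⟨a + a, a, ha, rfl⟩,
      hn]
    have hk := k.ne_zero
    have hk' : S.θ k ≠ 0 := S.θ_ne_zero.mpr hk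
    simp [z, u_vec, h_vec, Tits.f, S.θθ]
    field_simp

/-- Elements of odd order have no fixed point. -/
def FP (L M : Type*) [Group L] [AddCommGroup M] [DistribMulAction L M] : Prop :=
  ∀ g : L, Odd (orderOf g) → g ≠ 1 → ∀ m : M, g • m = m → m = 0

theorem FP.n5 {M : Type*} [AddCommGroup M] [DistribMulAction L M] (h : FP L M) :
    N5 S fun g (v : M) => g • v := fun m => by
  refine h (x5 S) (by rw [orderOf_x5]; decide) (x5_ne S) _ ?_
  simp only [smul_add, ← mul_smul, ← pow_succ', ← pow_two, Nat.reduceAdd, x5_pow, one_smul]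
  abel

theorem FP.nH [SzField F] [Fintype Fˣ] {M : Type*} [AddCommGroup M] [DistribMulAction L M]
    (h : FP L M) (v : M) : ∑ k : Fˣ, S.h k • v = 0 := by
  obtain ⟨t, ht⟩ := SzField.exists_unit_ne F
  refine h (S.h t) ?_ (fun e => ht (S.h_eq_one_iff.mp e)) _ ?_
  · rw [orderOf_injective S.h S.h_inj]
    exact Odd.of_dvd_nat (SzField.card_units F ▸ SzField.odd_sub_one F) (orderOf_dvd_natCard t)
  · rw [Finset.smul_sum]
    refine Fintype.sum_equiv (Equiv.mulLeft t) _ _ fun k => ?_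
    rw [← mul_smul, ← map_mul]
    rfl

include S in
theorem FP.add_self [SzField F] {M : Type*} [AddCommGroup M] [DistribMulAction L M] [Finite M]
    (h : FP L M) (h2 : ∀ m : M, ∃ k : ℕ, 2 ^ k • m = 0) (m : M) : m + m = 0 := by
  have := SzField.finite F
  have := Fintype.ofFinite Fˣ
  obtain ⟨k, hk⟩ := h2 m
  induction k generalizing m with
  | zero => rw [pow_zero, one_smul] at hk; rw [hk, add_zero]
  | succ k ih =>
    refine two_of_four S (h.n5 S) (h.nH S) m (ih _ ?_)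
    rw [← hk, pow_succ, mul_smul, two_nsmul]

end Cfsg.Agent.H87.MZ
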