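import Mathlib
import Cfsg.Agent.H87.MZ3
import Cfsg.Agent.H82.SecBilin
import Cfsg.Agent.H82.SL2Mod
import Cfsg.Agent.H53.Basic
import Cfsg.Agent.H62.CITBasic

/-!
Martineau's theorem for CIT groups: if `G / Q` is a Suzuki group then `Q` is elementary abelian.
-/

set_option autoImplicit false

namespace Cfsg.Agent.H87.MZ

open H39 H62 H82 Subgroup
open scoped commutatorElement

universe u

theorem sec {G : Type u} [Group G] [Finite G] (hG : CIT G) {L : Type*} [Group L] {F : Type*}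
    [Field F] [SzField F] (S : Model L F) {Q : Subgroup G} (hQ : IsPGroup 2 Q)
    (ρ : (⊤ : Subgroup G) →* L) (hρ : Function.Surjective ρ)
    (hker : ∀ g, ρ g = 1 → (g : G) ∈ Q)
    {V V₀ : Subgroup G} [V.Normal] [V₀.Normal] (h0 : V₀ ≤ V) (hV : V ≤ Q) (hc : ⁅Q, V⁆ ≤ V₀) :
    ∃ (M : Type u) (_ : AddCommGroup M) (_ : DistribMulAction (⊤ : Subgroup G) M)
      (_ : DistribMulAction L M) (θ : G → M), SecMap ⊤ V V₀ M θ ∧
      (∀ g (m : M), ρ g • m = g • m) ∧ (N5 S fun g (v : M) => g • v) ∧ ∀ m : M, m + m = 0 := by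
  obtain ⟨M, _, _, θ, h⟩ := exists_secMap (G := ⊤) h0 (le_normalizer_of_normal)
    (le_normalizer_of_normal) ((commutator_mono hV le_rfl).trans hc)
  obtain ⟨_, hd⟩ := exists_descend (M := M) ρ hρ fun g hg m => by
    obtain ⟨v, hv, rfl⟩ := h.surj m
    rw [← sub_eq_zero, ← h.map_commutator g hv, h.ker _ (h.commutator_mem g.2 hv)]
    exact hc (commutator_mem_commutator (hker g hg) hv)
  have := h.finite
  have hf : FP L M := fun g ho h1 m hm => by
    obtain ⟨x, rfl⟩ := hρ g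
    have hx : Odd (orderOf (x : G)) := (hG.odd_or_is2 x).resolve_right fun h2 => h1
      (eq_one_of_odd_of_is2 ho (Is2.map ρ (by
        obtain ⟨k, hk⟩ := h2
        exact ⟨k, Subtype.ext hk⟩)))
    have hx1 : (x : G) ≠ 1 := fun e => h1 (by rw [show x = 1 from Subtype.ext e, map_one])
    have hs : Function.Surjective fun m : M => m - x • m := fun m => by
      obtain ⟨v, hv, rfl⟩ := h.surj m
      obtain ⟨w, hw, e⟩ := hG.exists_conj_coset (hQ.to_le hV) hx hx1
        (fun u hu => h.conj_mem x.2 hu) hv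
      refine ⟨θ w, ?_⟩
      change θ w - x • θ w = θ v
      rw [← h.map_commutator' x hw, commutatorElement_def, e, mul_inv_cancel_right]
    apply Finite.injective_iff_surjective.mpr hs
    change m - x • m = 0 - x • 0
    rw [← hd, hm, sub_self, smul_zero, sub_zero]
  refine ⟨M, _, _, _, θ, h, hd, hf.n5 S, hf.add_self S fun m => ?_⟩
  obtain ⟨v, hv, rfl⟩ := h.surj m
  obtain ⟨k, hk⟩ := is2_of_mem hQ (hV hv)
  exact ⟨k, by rw [← h.map_pow hv, hk, h.map_one]⟩

/-- **Martineau's theorem** for CIT groups. -/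
theorem martineau {G : Type u} [Group G] [Finite G] (hG : CIT G) {Q : Subgroup G} [Q.Normal]
    (hQ : IsPGroup 2 Q) (hS : Lie.IsoSuzuki (G ⧸ Q)) :
    IsMulCommutative Q ∧ ∀ x ∈ Q, x * x = 1 := by
  obtain ⟨F, _, _, m, hm, hF, ⟨e⟩⟩ := hS
  have := szField_of_card hm hF
  let S := (lieModel hF).comap e
  let ρ : (⊤ : Subgroup G) →* G ⧸ Q := (QuotientGroup.mk' Q).comp (⊤ : Subgroup G).subtype
  have hρ : Function.Surjective ρ := fun y => by
    obtain ⟨g, hg⟩ := QuotientGroup.mk'_surjective Q y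
    exact ⟨⟨g, trivial⟩, hg⟩
  have hker : ∀ g, ρ g = 1 → (g : G) ∈ Q := fun g hg => (QuotientGroup.eq_one_iff _).1 hg
  have hab : ⁅Q, Q⁆ = ⊥ := by
    obtain ⟨M, _, _, _, θ, h, hd, hf, hM⟩ := sec hG S hQ ρ hρ hker
      (V := Q) (V₀ := ⁅Q, Q⁆) (commutator_le_left _ _) le_rfl le_rfl
    obtain ⟨M', _, _, _, θ', h', hd', hf', hM'⟩ := sec hG S hQ ρ hρ hker
      (V := ⁅Q, Q⁆) (V₀ := ⁅Q, ⁅Q, Q⁆⁆) (commutator_le_right _ _) (commutator_le_left _ _) le_rfl
    obtain ⟨c, hc, hc'⟩ := exists_secBilin h h h' le_rfl le_rfl le_rfl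
      (commutator_comm _ _).le le_rfl
    have := h.finite
    have := h'.finite
    refine H53.eq_bot_of_le_commutator_of_isPGroup (hQ.to_le (commutator_le_left _ _)) hQ
      le_normalizer_of_normal ?_
    rw [commutator_comm ⁅Q, Q⁆ Q, commutator_le]
    intro a ha b hb
    rw [← h'.ker _ (commutator_mem_commutator ha hb), ← hc a ha b hb]
    refine bilin S hf hM hf hM hf' hM' c (fun g a b => ?_) _ _
    obtain ⟨g, rfl⟩ := hρ g
    rw [hd, hd, hd', hc']
  obtain ⟨M, _, _, _, θ, h, hd, hf, hM⟩ := sec hG S hQ ρ hρ hker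
    (V := Q) (V₀ := ⊥) bot_le le_rfl hab.le
  refine ⟨?_, fun a ha => ?_⟩
  · exact isMulCommutative_iff.2 fun a b => Subtype.ext (commutatorElement_eq_one_iff_mul_comm.1
      (mem_bot.1 (hab.le (commutator_mem_commutator a.2 b.2))))
  · rw [← mem_bot, ← h.ker _ (Q.mul_mem ha ha), h.map_mul _ ha _ ha, hM]

end Cfsg.Agent.H87.MZ
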