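import Cfsg.Agent.H87.PSUb
import Cfsg.Agent.H60.MultiTrans
import Cfsg.Agent.S0711
import Cfsg.Agent.S3681

/-!
PS: the assembly.
-/

set_option autoImplicit false
set_option linter.unusedSectionVars false

namespace Cfsg.Agent.H87.PS

open Equiv MulAction

universe u

theorem prim_of_map {M γ β : Type*} [Group M] [MulAction M γ] (hM : IsPreprimitive M γ)
    (H : Subgroup (Perm β)) (e : γ → β) (he : Function.Surjective e)
    (h : ∀ m : M, ∃ x ∈ H, ∀ c, x (e c) = e (m • c)) : IsPreprimitive H β := by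
  choose φ h1 h2 using h
  let f : γ →ₑ[fun m : M => (⟨φ m, h1 m⟩ : H)] β := ⟨e, fun m c => (h2 m c).symm⟩
  exact IsPreprimitive.of_surjective (f := f) he

variable {α : Type u} [Fintype α] [DecidableEq α]

theorem mtrans_mono {G H : Subgroup (Perm α)} (h : G ≤ H) {k : ℕ}
    (hG : IsMultiplyPretransitive G α k) : IsMultiplyPretransitive H α k := ⟨fun x y => by
  obtain ⟨g, hg⟩ := hG.exists_smul_eq x y
  exact ⟨⟨g, h g.2⟩, hg⟩⟩

theorem minDeg_four {G : Subgroup (Perm α)} (hG : IsPreprimitive G α)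
    (hA : ¬ alternatingGroup α ≤ G) : MinDeg G 4 := by
  intro g hg h1
  by_contra hlt
  have h2 := Perm.two_le_card_support_of_ne_one h1
  rcases (by omega : g.support.card = 2 ∨ g.support.card = 3) with h | h
  · exact hA ((Perm.subgroup_eq_top_of_isPreprimitive_of_isSwap_mem hG g
      (Perm.card_support_eq_two.1 h) hg).symm ▸ le_top)
  · exact hA (Perm.alternatingGroup_le_of_isPreprimitive_of_isThreeCycle_mem hG
      (card_support_eq_three_iff.1 h) hg)

theorem card_eq_desc {G : Subgroup (Perm α)} {S : Finset α}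
    (hG : IsMultiplyPretransitive G α S.card) :
    Nat.card G = (Fintype.card α).descFactorial S.card * Nat.card (fixS G S) := by
  have h1 := IsMultiplyPretransitive.index_of_fixingSubgroup_eq (G := G) (S : Set α)
    (by rwa [Set.ncard_coe_finset])
  have h2 : fixingSubgroup G (S : Set α) = (fixS G S).subgroupOf G := by
    ext g
    rw [mem_fixingSubgroup_iff, Subgroup.mem_subgroupOf, mem_fixS]
    exact ⟨fun h => ⟨g.2, h⟩, fun h => h.2⟩
  rw [← (fixingSubgroup G (S : Set α)).index_mul_card, h1, Set.ncard_coe_finset,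
    Nat.descFactorial_eq_factorial_mul_choose, Nat.card_eq_fintype_card (α := α), h2,
    Nat.card_congr (Subgroup.subgroupOfEquivOfLe (fun _ h => (mem_fixS.1 h).1)).toEquiv,
    mul_comm (Nat.choose _ _)]

/-- The pointwise stabilizer of `S` as a group on the other points. -/
def res (G : Subgroup (Perm α)) (S : Finset α) : Subgroup (Perm {x // x ∉ S}) :=
  G.comap Perm.ofSubtype

theorem res_mem {G : Subgroup (Perm α)} {S : Finset α} {h : Perm {x // x ∉ S}}
    (hh : h ∈ res G S) : Perm.ofSubtype h ∈ fixS G S :=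
  ⟨hh, fun _ hx => Perm.ofSubtype_apply_of_not_mem h (not_not.2 hx)⟩

theorem res_ex {G : Subgroup (Perm α)} {S : Finset α} {g : Perm α} (hg : g ∈ fixS G S) :
    ∃ h ∈ res G S, Perm.ofSubtype h = g := by
  have h1 : ∀ x, g x ∉ S ↔ x ∉ S := fun x => not_congr
    ⟨fun h => g.injective (hg.2 _ h) ▸ h, fun h => (hg.2 x h).symm ▸ h⟩
  have h2 := Perm.ofSubtype_subtypePerm (p := fun x => x ∉ S) h1 fun x hx hs => hx (hg.2 x hs)
  exact ⟨g.subtypePerm h1, by rw [res, Subgroup.mem_comap, h2]; exact hg.1, h2⟩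

theorem card_res_fix (G : Subgroup (Perm α)) (S : Finset α) (T : Finset {x // x ∉ S}) :
    Nat.card (fixS (res G S) T) = Nat.card (fixS G (S ∪ T.map (Function.Embedding.subtype _))) := by
  rw [← Subgroup.card_map_of_injective (f := Perm.ofSubtype) Perm.ofSubtype_injective]
  congr 2
  ext g
  constructor
  · rintro ⟨h, hh, rfl⟩
    refine ⟨hh.1, fun x hx => ?_⟩
    rcases Finset.mem_union.1 hx with h1 | h1
    · exact (res_mem hh.1).2 x h1
    · obtain ⟨y, hy, rfl⟩ := Finset.mem_map.1 h1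
      exact (Perm.ofSubtype_apply_coe h y).trans (congrArg Subtype.val (hh.2 y hy))
  · intro hg
    obtain ⟨h, hh, rfl⟩ := res_ex (S := S) ⟨hg.1, fun x hx => hg.2 x (Finset.mem_union_left _ hx)⟩
    refine ⟨h, ⟨hh, fun y hy => Subtype.ext ?_⟩, rfl⟩
    rw [← Perm.ofSubtype_apply_coe]
    exact hg.2 _ (Finset.mem_union_right _ (Finset.mem_map_of_mem _ hy))

theorem card_res (G : Subgroup (Perm α)) (S : Finset α) :
    Nat.card (res G S) = Nat.card (fixS G S) := by
  have := card_res_fix G S ∅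
  rwa [Finset.map_empty, Finset.union_empty,
    show fixS (res G S) ∅ = res G S from by ext; simp [mem_fixS]] at this

theorem card_out (S : Finset α) : Fintype.card {x // x ∉ S} = Fintype.card α - S.card := by
  rw [Fintype.card_subtype_compl, Fintype.card_coe]

theorem res_trans {G : Subgroup (Perm α)} {S : Finset α} {k j : ℕ}
    (hG : IsMultiplyPretransitive G α k) (hk : k ≤ Fintype.card α) (hj : S.card + j ≤ k) :
    IsMultiplyPretransitive (res G S) {x // x ∉ S} j := by
  refine H60.isMultiplyPretransitive_of_forall_fix fun T hT a b ha hb => ?_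
  have hn : ∀ c : {x // x ∉ S}, c ∉ T → (c : α) ∉ S ∪ T.map (Function.Embedding.subtype _) := by
    intro c hc h
    rcases Finset.mem_union.1 h with h1 | h1
    · exact c.2 h1
    · exact hc ((Finset.mem_map' _).1 h1)
  obtain ⟨g, h1, h2⟩ := H60.exists_fix_smul_eq hG (by rwa [Nat.card_eq_fintype_card])
    (S ∪ T.map (Function.Embedding.subtype _))
    ((Finset.card_union_le _ _).trans_lt (by rw [Finset.card_map]; omega)) (hn a ha) (hn b hb)
  obtain ⟨h, hh, e⟩ := res_ex (S := S) (g := g) ⟨g.2, fun x hx => h1 x (Finset.mem_union_left _ hx)⟩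
  have key : ∀ c : {x // x ∉ S}, (h c : α) = g • (c : α) := fun c => by
    rw [← Perm.ofSubtype_apply_coe, e]; rfl
  refine ⟨⟨h, hh⟩, fun x hx => Subtype.ext ((key x).trans
    (h1 _ (Finset.mem_union_right _ (Finset.mem_map_of_mem _ hx)))), Subtype.ext ((key a).trans h2)⟩

theorem res_minDeg {G : Subgroup (Perm α)} {S : Finset α} {m : ℕ} (hG : MinDeg G m) :
    MinDeg (res G S) m := fun h hh h1 => by
  have := hG _ hh fun e => h1 (Perm.ofSubtype_injective (e.trans (map_one _).symm))
  rwa [Perm.support_ofSubtype, Finset.card_map] at this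

/-- The 2-closure. -/
def clo (H : Subgroup (Perm α)) : Subgroup (Perm α) where
  carrier := {σ | ∀ a b : α, ∃ g ∈ H, g a = σ a ∧ g b = σ b}
  one_mem' := fun _ _ => ⟨1, one_mem _, rfl, rfl⟩
  mul_mem' := fun {x y} hx hy a b => by
    obtain ⟨g, hg, g1, g2⟩ := hy a b
    obtain ⟨h, hh, h1, h2⟩ := hx (y a) (y b)
    exact ⟨h * g, mul_mem hh hg, by rw [Perm.mul_apply, g1, h1]; rfl,
      by rw [Perm.mul_apply, g2, h2]; rfl⟩
  inv_mem' := fun {x} hx a b => by
    obtain ⟨g, hg, g1, g2⟩ := hx (x⁻¹ a) (x⁻¹ b)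
    exact ⟨g⁻¹, inv_mem hg, by rw [Perm.inv_eq_iff_eq, g1, ai], by rw [Perm.inv_eq_iff_eq, g2, ai]⟩

theorem prim_case (hmd : MdStmt.{u}) (hub : UbStmt.{u}) {H : Subgroup (Perm α)}
    (hH : IsPreprimitive H α) (h2 : ¬ IsMultiplyPretransitive H α 2) (h4 : 4 ≤ Fintype.card α)
    (a : α) : ∃ m, 4 ≤ m ∧ 4 * (Fintype.card α - 1) ≤ 3 * m ^ 2 ∧
      ∀ p, p.Prime → ExpOK (Fintype.card α) m p ((Nat.card (fixS H {a})).factorization p) := by
  classical
  have hle : H ≤ clo H := fun g hg _ _ => ⟨g, hg, rfl, rfl⟩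
  have hC : Closed (clo H) := fun σ h a b => by
    obtain ⟨g, hg, g1, g2⟩ := h a b
    obtain ⟨x, hx, x1, x2⟩ := hg a b
    exact ⟨x, hx, x1.trans g1, x2.trans g2⟩
  have hP : IsPreprimitive (clo H) α :=
    prim_of_map hH _ id Function.surjective_id fun m => ⟨m, hle m.2, fun _ => rfl⟩
  have h3 : ¬ IsMultiplyPretransitive (clo H) α 2 := fun h => h2 (by
    rw [is_two_pretransitive_iff] at h ⊢
    intro a b c d h1 h5
    obtain ⟨g, g1, g2⟩ := h h1 h5
    obtain ⟨x, hx, x1, x2⟩ := g.2 a b
    exact ⟨⟨x, hx⟩, x1.trans g1, x2.trans g2⟩)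
  have hA : ¬ alternatingGroup α ≤ clo H := fun h => h3 (by
    haveI := mtrans_mono h (alternatingGroup.isMultiplyPretransitive α)
    exact isMultiplyPretransitive_of_le (n := Nat.card α - 2)
      (by rw [Nat.card_eq_fintype_card]; omega) (Nat.sub_le _ _))
  have hex : ∃ m, 4 ≤ m ∧ 4 * (Fintype.card α - 1) ≤ 3 * m ^ 2 :=
    ⟨Fintype.card α, h4, by nlinarith [Nat.sub_le (Fintype.card α) 1]⟩
  refine ⟨Nat.find hex, (Nat.find_spec hex).1, (Nat.find_spec hex).2, fun p hp => ?_⟩
  obtain ⟨r, h5, h6⟩ := hub α (clo H) (Nat.find hex) p a hP hC h3 (fun g hg h1 =>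
    Nat.find_min' hex ⟨minDeg_four hP hA g hg h1,
      hmd α _ g hP h3 hg (minDeg_four hP hA g hg h1)⟩) hp
  refine ⟨r, le_trans ?_ h5, h6⟩
  exact (Nat.factorization_le_iff_dvd Nat.card_pos.ne' Nat.card_pos.ne').2
    (Subgroup.card_dvd_of_le fun g hg => mem_fixS.2 ⟨hle (mem_fixS.1 hg).1, (mem_fixS.1 hg).2⟩) p

theorem imp_case (h0 : Imp0Stmt.{u}) (h1 : Imp1Stmt.{u}) (h2 : Imp2Stmt.{u})
    {X : Subgroup (Perm α)} {a : α} {m : ℕ} (ih : IH.{u} (Fintype.card α))
    (hX : IsMultiplyPretransitive X α 2) (hn : 2 ≤ Fintype.card α)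
    (hp : ¬ IsPreprimitive (stabilizer X a) (SubMulAction.ofStabilizer X a)) (hm : MinDeg X m) :
    ImpOK (Fintype.card α) m (Nat.card X) := by
  obtain ⟨s, v, E, h, hy, hy'⟩ := h0 α X a ih hX hp hn
  have ht1 : IsMultiplyPretransitive X α 1 :=
    isMultiplyPretransitive_of_le (n := 2) one_le_two (by rwa [Nat.card_eq_fintype_card])
  obtain ⟨k1, k2⟩ := h2 α X s v m E h a (is_one_pretransitive_iff.1 ht1) hm
  have hc : Nat.card X = Fintype.card α * (ker h a).relIndex (fixS X {a}) * Nat.card (ker h a) := by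
    have hle : ker h a ≤ fixS X {a} := fun g hg => ⟨hg.1, by simpa using hg.2.1⟩
    rw [card_eq_desc (S := {a}) ht1, Finset.card_singleton, Nat.descFactorial_one, mul_assoc,
      Subgroup.relIndex, ← Nat.card_congr (Subgroup.subgroupOfEquivOfLe hle).toEquiv,
      Subgroup.index_mul_card]
  refine ⟨s, v, _, h.card, h.s2, h.v2, hy, hy'.symm.imp_left (h1 α X s v E a h),
    fun w hw => ?_, fun k hk => ?_⟩
  · rw [hc]; exact Nat.mul_le_mul_left _ (k1 w hw)
  · rw [hc]; exact Nat.mul_le_mul_left _ (k2 k hk)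

theorem small_case {G : Subgroup (Perm α)} (hG : IsPreprimitive G α)
    (hA : ¬ alternatingGroup α ≤ G) (hn : Fintype.card α ≤ 21) :
    Nat.card G ≤ 4 ^ Fintype.card α := by
  have h1 := S3681.result hG fun h => hA (h.trans (by rintro _ ⟨g, rfl⟩; exact g.2))
  have h2 : ∀ n < 22, n.factorial ≤ 4 ^ n * ((n + 1) / 2).factorial := by decide +kernel
  exact Nat.le_of_mul_le_mul_right (h1.trans (h2 _ (by omega))) (Nat.factorial_pos _)

theorem big_num (htb : TbStmt) (ha : U2aStmt) (hb : U2bStmt) (hc : U3Stmt) {n t m x : ℕ}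
    (hn : 1000 ≤ n) (ht : TOK n t) (hm : 4 * (n - t) ≤ 3 * m ^ 2) (hx : 0 < x)
    (he : ∀ p, p.Prime → ExpOK (n - t + 1) m p (x.factorization p)) (h1 : 1 ≤ t) :
    n.descFactorial t * x ≤ 4 ^ n := by
  have h2 := htb n t hn ht
  have h3 : 9 * t ≤ n / 6 := by
    rw [← Nat.pow_le_pow_iff_right (a := 2) one_lt_two, pow_mul]
    exact (Nat.pow_le_pow_left (by omega) t).trans h2
  have h4 : XB (n - t + 1) := by
    rcases le_total (n - t + 1) 4000 with h | h
    · exact ha _ (by omega) h
    rcases le_total (n - t + 1) 262144 with h' | h'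
    · exact hb _ h h'
    · exact hc _ h'
  have h5 := h4 m x (by simpa using hm) hx he
  rw [← Nat.pow_le_pow_iff_left (n := 6) (by norm_num), mul_pow]
  calc _ ≤ (2 ^ (n / 6)) ^ 6 * 2 ^ (11 * (n - t + 1)) :=
        Nat.mul_le_mul (Nat.pow_le_pow_left ((Nat.descFactorial_le_pow n t).trans h2) 6) h5
    _ = 2 ^ (n / 6 * 6 + 11 * (n - t + 1)) := by rw [← pow_mul, ← pow_add]
    _ ≤ 2 ^ (2 * n * 6) := Nat.pow_le_pow_right two_pos (by omega)
    _ = _ := by rw [pow_mul, pow_mul]; rfl

theorem asm (hpk : PkStmt.{u}) (hmd : MdStmt.{u}) (hb2 : B2Stmt.{u}) (htok : TokStmt.{u})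
    (hwok : WokStmt.{u}) (h0 : Imp0Stmt.{u}) (h1 : Imp1Stmt.{u}) (h2 : Imp2Stmt.{u})
    (htb : TbStmt) (hu1 : U1Stmt) (ha : U2aStmt) (hb : U2bStmt) (hc : U3Stmt) (hi1 : I1Stmt)
    (hi2 : I2Stmt) (N : ℕ) : IH.{u} N := by
  induction N with
  | zero => intro β _ _ H h; omega
  | succ N ih =>
    intro α _ _ G hN hG hA
    classical
    rcases le_or_gt (Fintype.card α) 21 with hn | hn
    · exact small_case hG hA hn
    have hc' : Nat.card α = Fintype.card α := Nat.card_eq_fintype_card
    have hex : ∃ t, ¬ IsMultiplyPretransitive G α (t + 1) := ⟨Fintype.card α - 3, fun h =>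
      hA (IsMultiplyPretransitive.alternatingGroup_le α G (by
        rwa [hc', show Fintype.card α - 2 = Fintype.card α - 3 + 1 by omega]))⟩
    obtain ⟨t, hnt, ht3, hmin⟩ : ∃ t, ¬ IsMultiplyPretransitive G α (t + 1) ∧
        t ≤ Fintype.card α - 3 ∧ ∀ k < t, IsMultiplyPretransitive G α (k + 1) :=
      ⟨Nat.find hex, Nat.find_spec hex, Nat.find_min' hex fun h =>
        hA (IsMultiplyPretransitive.alternatingGroup_le α G (by
          rwa [hc', show Fintype.card α - 2 = Fintype.card α - 3 + 1 by omega])),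
        fun k hk => not_not.1 (Nat.find_min hex hk)⟩
    obtain ⟨t, rfl⟩ : ∃ k, t = k + 1 := ⟨t - 1, by
      rcases t with _ | t
      · exact absurd (is_one_pretransitive_iff.2 hG.toIsPretransitive) hnt
      · rfl⟩
    have ht := hmin t (Nat.lt_succ_self t)
    have hT := htok α G (t + 1) ht (by omega) hA
    obtain ⟨S, -, hS⟩ := Finset.exists_subset_card_eq (s := (Finset.univ : Finset α)) (n := t)
      (by rw [Finset.card_univ]; omega)
    have hβ := card_out S
    rw [hS] at hβ
    have h4 := minDeg_four hG hA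
    by_cases hH : IsPreprimitive (res G S) {x // x ∉ S}
    · obtain ⟨a⟩ : Nonempty {x // x ∉ S} := Fintype.card_pos_iff.1 (by omega)
      have hS' : (S ∪ ({a} : Finset {x // x ∉ S}).map (Function.Embedding.subtype _)).card =
          t + 1 := by
        rw [Finset.map_singleton, Finset.union_comm, ← Finset.insert_eq]
        exact (Finset.card_insert_of_notMem a.2).trans (by rw [hS])
      obtain ⟨m, m1, m2, m3⟩ := prim_case hmd (ub hpk) hH (fun h => hnt (by
        refine H60.isMultiplyPretransitive_succ_of_fix ht _ hS' fun b c hb hc => ?_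
        simp only [Finset.map_singleton, Finset.mem_union, Finset.mem_singleton, not_or,
          Function.Embedding.coe_subtype] at hb hc
        rw [is_two_pretransitive_iff] at h
        obtain ⟨g, g1, g2⟩ := @h a ⟨b, hb.1⟩ a
          ⟨c, hc.1⟩ (fun e => hb.2 (congrArg Subtype.val e).symm)
          (fun e => hc.2 (congrArg Subtype.val e).symm)
        refine ⟨⟨_, g.2⟩, fun x hx => ?_, ?_⟩
        · rcases Finset.mem_union.1 hx with h5 | h5
          · exact (res_mem g.2).2 x h5
          · rw [Finset.map_singleton, Finset.mem_singleton] at h5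
            rw [h5]
            exact (Perm.ofSubtype_apply_coe g.1 a).trans (congrArg Subtype.val g1)
        · exact (Perm.ofSubtype_apply_coe g.1 ⟨b, hb.1⟩).trans (congrArg Subtype.val g2)))
        (by omega) a
      rw [card_res_fix, hβ] at m3
      rw [hβ] at m2
      rw [card_eq_desc (hS'.symm ▸ ht), hS']
      have e1 : Fintype.card α - t = Fintype.card α - (t + 1) + 1 := by omega
      rw [e1] at m2 m3
      rcases le_total (Fintype.card α) 1000 with h | h
      · exact hu1 _ _ m _ hn h (by omega) hT m1 m2 Nat.card_pos m3 fun h5 p hp p5 hd hlt =>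
          hwok α G _ p _ h5 ht hnt hA hS' hp p5 hd hlt
      · exact big_num htb ha hb hc h hT m2 Nat.card_pos m3 (by omega)
    · obtain ⟨a, haS⟩ : S.Nonempty := by
        rw [Finset.nonempty_iff_ne_empty]
        rintro rfl
        refine hH (prim_of_map hG _ (fun x => ⟨x, Finset.notMem_empty x⟩)
          (fun y => ⟨y.1, rfl⟩) fun g => ?_)
        obtain ⟨h, hh, e⟩ := res_ex (G := G) (S := ∅) (g := g) ⟨g.2, by simp⟩
        refine ⟨h, hh, fun c => Subtype.ext ?_⟩
        rw [← Perm.ofSubtype_apply_coe, e]; rfl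
      have hS0 := Finset.card_erase_add_one haS
      have hβ0 := card_out (S.erase a)
      have ht2 : IsMultiplyPretransitive G α 2 :=
        isMultiplyPretransitive_of_le (n := t + 1) (by omega) (by omega)
      have hex' : ∃ m, Fintype.card α ≤ 4 * m + 6 ∧ 2 * (t + 1) ≤ m + 2 :=
        ⟨2 * Fintype.card α, by omega, by omega⟩
      have hm : MinDeg G (Nat.find hex') := fun g hg g1 => Nat.find_min' hex'
        ⟨hb2 α G g ht2 h4 hg g1, by
          have := h4 g hg g1
          by_contra hlt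
          exact hA (S0711.result G (by omega) (by omega) ht g hg g1 (by omega)).2⟩
      have hI := imp_case h0 h1 h2 (X := res G (S.erase a)) (a := ⟨a, Finset.notMem_erase a S⟩)
        (fun β _ _ H hlt => ih β H (by omega)) (res_trans ht (by omega) (by omega)) (by omega)
        (fun h => hH (prim_of_map h _ (fun x => ⟨x.1.1, fun hx => x.1.2 (Finset.mem_erase.2
          ⟨fun e => x.2 (Subtype.ext e), hx⟩)⟩) (fun y => ⟨⟨⟨y.1, fun hx =>
            y.2 (Finset.mem_of_mem_erase hx)⟩, fun e => y.2 (by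
              rw [show y.1 = a from congrArg Subtype.val e]; exact haS)⟩, rfl⟩) fun g => by
          obtain ⟨h, hh, e⟩ := res_ex (G := G) (S := S) (g := Perm.ofSubtype g.1.1)
            ⟨g.1.2, fun x hx => by
              by_cases h5 : x = a
              · rw [h5]
                exact (Perm.ofSubtype_apply_coe g.1.1 ⟨a, Finset.notMem_erase a S⟩).trans
                  (congrArg Subtype.val g.2)
              · exact (res_mem g.1.2).2 x (Finset.mem_erase.2 ⟨h5, hx⟩)⟩
          refine ⟨h, hh, fun c => Subtype.ext ?_⟩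
          rw [← Perm.ofSubtype_apply_coe, e]
          exact Perm.ofSubtype_apply_coe g.1.1 c.1)) (res_minDeg hm)
      have e1 : (S.erase a).card = t + 1 - 2 := by omega
      rw [card_eq_desc (S := S.erase a) (isMultiplyPretransitive_of_le (n := t + 1) (by omega)
        (by omega)), ← card_res, e1]
      refine hi2 hi1 htb _ _ _ _ hn (by omega) hT (Nat.find_spec hex').1 (Nat.find_spec hex').2 ?_
      rwa [hβ0, show Fintype.card α - (S.erase a).card = Fintype.card α - (t + 1) + 2 by omega]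
        at hI

end Cfsg.Agent.H87.PS
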