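import Cfsg.Agent.H87.PSAsm
import Cfsg.Agent.H87.PSPk
import Cfsg.Agent.S0698

/-!
PS: the normalizer of a Sylow subgroup of a pointwise stabilizer (pieces WC, TOK, WOK).
-/

set_option autoImplicit false
set_option linter.unusedSectionVars false

namespace Cfsg.Agent.H87.PS

open Equiv MulAction
open scoped Pointwise

universe u

variable {α : Type u} [Fintype α] [DecidableEq α]

theorem card_mul_rel {A B : Subgroup (Perm α)} (h : A ≤ B) :
    Nat.card A * A.relIndex B = Nat.card B := by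
  rw [Subgroup.relIndex, ← Nat.card_congr (Subgroup.subgroupOfEquivOfLe h).toEquiv,
    Subgroup.card_mul_index]

theorem conj_syl {Y A B : Subgroup (Perm α)} {p : ℕ} (hp : p.Prime) (hA : A ≤ Y) (hB : B ≤ Y)
    (pA : IsPGroup p A) (pB : IsPGroup p B) (hc : Nat.card A = Nat.card B)
    (hi : ¬ p ∣ B.relIndex Y) : ∃ y ∈ Y, ∀ g ∈ A, y * g * y⁻¹ ∈ B := by
  haveI := Fact.mk hp
  have hi' : ¬ p ∣ A.relIndex Y := by
    have := (card_mul_rel hA).trans (card_mul_rel hB).symm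
    rw [hc] at this
    rwa [Nat.eq_of_mul_eq_mul_left Nat.card_pos this]
  obtain ⟨y, hy⟩ := MulAction.exists_smul_eq Y
    ((pA.of_equiv (Subgroup.subgroupOfEquivOfLe hA).symm).toSylow hi')
    ((pB.of_equiv (Subgroup.subgroupOfEquivOfLe hB).symm).toSylow hi)
  refine ⟨y, y.2, fun g hg => ?_⟩
  have h1 : MulAut.conj y • A.subgroupOf Y = B.subgroupOf Y :=
    congrArg (fun Q : Sylow p Y => (Q : Subgroup Y)) hy
  have h2 : MulAut.conj y • (⟨g, hA hg⟩ : Y) ∈ B.subgroupOf Y :=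
    h1 ▸ Subgroup.smul_mem_pointwise_smul _ _ _ (Subgroup.mem_subgroupOf.2 hg)
  exact h2

theorem fix_of_cop {c : Perm α} {p j a : ℕ} (hp : p.Prime) (hc : c ^ p ^ j = 1) (h0 : 0 < a)
    (ha : a < p) {x : α} (h : (c ^ a) x = x) : c x = x := by
  obtain ⟨e, he⟩ := exists_pow_eq_self_of_coprime (x := c) (n := a)
    (((Nat.coprime_of_lt_prime h0.ne' ha hp).symm.pow_right j).coprime_dvd_right
      (orderOf_dvd_of_pow_eq_one hc))
  rw [← he]
  exact Perm.pow_apply_eq_self_of_apply_eq_self h e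

section Wc

variable {G P : Subgroup (Perm α)} {k p : ℕ} {S F : Finset α}

open Classical in
/-- The orbit as a finite set. -/
noncomputable def orb (P : Subgroup (Perm α)) (x : α) : Finset α :=
  Finset.univ.filter fun y => ∃ s ∈ P, s x = y

theorem mem_orb {x y : α} : y ∈ orb P x ↔ ∃ s ∈ P, s x = y := by simp [orb]

theorem self_mem_orb (x : α) : x ∈ orb P x := mem_orb.2 ⟨1, one_mem _, rfl⟩

theorem orb_eq {x y : α} : orb P x = orb P y ↔ y ∈ orb P x := by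
  refine ⟨fun h => h ▸ self_mem_orb y, fun h => ?_⟩
  obtain ⟨s, hs, rfl⟩ := mem_orb.1 h
  ext z
  simp only [mem_orb]
  exact ⟨fun ⟨t, ht, e⟩ => ⟨t * s⁻¹, mul_mem ht (inv_mem hs), by simpa using e⟩,
    fun ⟨t, ht, e⟩ => ⟨t * s, mul_mem ht hs, e⟩⟩

theorem card_orb (hp : p.Prime) (hP : IsPGroup p P) (x : α) : ∃ j, (orb P x).card = p ^ j := by
  haveI := Fact.mk hp
  obtain ⟨j, hj⟩ := hP.card_orbit x
  refine ⟨j, ?_⟩
  rw [← hj, Nat.card_coe_set_eq, ← Set.ncard_coe_finset]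
  congr 1
  ext y
  simp only [Finset.mem_coe, mem_orb]
  exact ⟨fun ⟨s, hs, e⟩ => ⟨⟨s, hs⟩, e⟩, fun ⟨s, e⟩ => ⟨s, s.2, e⟩⟩

theorem le_card_orb (hp : p.Prime) (hP : IsPGroup p P) {x : α} {s : Perm α} (hs : s ∈ P)
    (hx : s x ≠ x) : p ≤ (orb P x).card := by
  obtain ⟨j, hj⟩ := card_orb hp hP x
  have : 1 < (orb P x).card :=
    Finset.one_lt_card.2 ⟨_, mem_orb.2 ⟨s, hs, rfl⟩, _, self_mem_orb x, hx⟩
  rw [hj] at this ⊢
  exact Nat.le_self_pow (by rintro rfl; simp at this) p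

theorem nrm_orb {n : Perm α} (hn : n ∈ Subgroup.normalizer (P : Set (Perm α))) {x y : α}
    (h : y ∈ orb P x) : n y ∈ orb P (n x) := by
  obtain ⟨s, hs, rfl⟩ := mem_orb.1 h
  exact mem_orb.2 ⟨n * s * n⁻¹, (Subgroup.mem_normalizer_iff.1 hn s).1 hs, by simp⟩

theorem nrm_fix (hF : ∀ x, x ∈ F ↔ ∀ g ∈ P, g x = x) {n : Perm α}
    (hn : n ∈ Subgroup.normalizer (P : Set (Perm α))) (x : α) : n x ∈ F ↔ x ∈ F := by
  have key : ∀ n ∈ Subgroup.normalizer (P : Set (Perm α)), ∀ x ∈ F, n x ∈ F := fun n hn x hx =>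
    (hF _).2 fun g hg => by
      have := (hF x).1 hx _ ((Subgroup.mem_normalizer_iff''.1 hn g).1 hg)
      rwa [Perm.mul_apply, Perm.mul_apply, Perm.inv_eq_iff_eq] at this
  exact ⟨fun h => by simpa using key _ (inv_mem hn) _ h, key n hn x⟩

/-- The group induced on the fixed points. -/
def nf (N : Subgroup (Perm α)) (F : Finset α) : Subgroup (Perm {x // x ∈ F}) where
  carrier := {σ | ∃ n ∈ N, ∀ y, (σ y : α) = n y}
  one_mem' := ⟨1, one_mem _, fun _ => rfl⟩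
  mul_mem' := by
    rintro a b ⟨n, hn, e⟩ ⟨m, hm, e'⟩
    exact ⟨n * m, mul_mem hn hm, fun y => by rw [Perm.mul_apply, e, e', Perm.mul_apply]⟩
  inv_mem' := by
    rintro a ⟨n, hn, e⟩
    exact ⟨n⁻¹, inv_mem hn, fun y => by rw [eq_comm, Perm.inv_eq_iff_eq, ← e, ai]⟩

theorem wc_witt (hG : IsMultiplyPretransitive G α k) (hS : S.card = k) (hp : p.Prime)
    (hPS : P ≤ fixS G S) (hP : IsPGroup p P) (hi : ¬ p ∣ P.relIndex (fixS G S))
    (hF : ∀ x, x ∈ F ↔ ∀ g ∈ P, g x = x) :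
    IsMultiplyPretransitive (nf (G ⊓ Subgroup.normalizer (P : Set (Perm α))) F) {x // x ∈ F} k := by
  have hk : k ≤ Nat.card α := by
    rw [← hS, Nat.card_eq_fintype_card]; exact Finset.card_le_univ _
  let b : Fin k ≃ S := (Finset.equivFinOfCardEq hS).symm
  have key : ∀ x : Fin k ↪ {x // x ∈ F}, ∃ n ∈ G ⊓ Subgroup.normalizer (P : Set (Perm α)),
      ∀ i, n (x i) = b i := by
    intro x
    obtain ⟨g, hg⟩ := H60.exists_smul_eq_of_injective hG hk (ι := Fin k) (by simp)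
      (x := fun i => (x i : α)) (y := fun i => (b i : α))
      (Subtype.val_injective.comp x.injective) (Subtype.val_injective.comp b.injective)
    obtain ⟨y, hy, h1⟩ := conj_syl hp (Y := fixS G S) (A := P.map (MulAut.conj g.1).toMonoidHom)
      (by
        rintro _ ⟨s, hs, rfl⟩
        refine ⟨mul_mem (mul_mem g.2 (hPS hs).1) (inv_mem g.2), fun c hc => ?_⟩
        obtain ⟨i, hi⟩ := b.surjective ⟨c, hc⟩
        have h2 : (g : Perm α) (x i) = c := (hg i).trans (congrArg Subtype.val hi)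
        change g.1 (s (g.1⁻¹ c)) = c
        rw [← h2, ia, (hF _).1 (x i).2 s hs]) hPS (hP.map _) hP
      (Subgroup.card_map_of_injective (MulAut.conj g.1).injective) hi
    refine ⟨y * g, ⟨mul_mem hy.1 g.2, Subgroup.mem_normalizer_fintype fun s hs => ?_⟩, fun i => ?_⟩
    · have := h1 _ ⟨s, hs, rfl⟩
      simpa [mul_assoc] using this
    · rw [Perm.mul_apply]
      exact (congrArg y (hg i)).trans (hy.2 _ (b i).2)
  refine ⟨fun x y => ?_⟩
  obtain ⟨n, hn, e⟩ := key x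
  obtain ⟨m, hm, e'⟩ := key y
  have hw := mul_mem (inv_mem hm) hn
  refine ⟨⟨(m⁻¹ * n).subtypePerm (nrm_fix hF hw.2), _, hw, fun _ => rfl⟩, ?_⟩
  ext i
  change m⁻¹ (n (x i)) = y i
  rw [e, ← e', ia]

theorem nf_ex {N : Subgroup (Perm α)} (h : IsMultiplyPretransitive (nf N F) {x // x ∈ F} k)
    (hk : k ≤ F.card) {ι : Type} [Finite ι] (hι : Nat.card ι ≤ k) {x y : ι → α}
    (hx : Function.Injective x) (hy : Function.Injective y) (hxF : ∀ i, x i ∈ F)
    (hyF : ∀ i, y i ∈ F) : ∃ n ∈ N, ∀ i, n (x i) = y i := by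
  obtain ⟨⟨σ, n, hn, e⟩, hg⟩ := H60.exists_smul_eq_of_injective h (by simpa using hk) hι
    (x := fun i => ⟨x i, hxF i⟩) (y := fun i => ⟨y i, hyF i⟩)
    (fun i j e => hx (congrArg Subtype.val e)) (fun i j e => hy (congrArg Subtype.val e))
  exact ⟨n, hn, fun i => (e ⟨x i, hxF i⟩).symm.trans (congrArg Subtype.val (hg i))⟩

theorem ab_fix {N : Subgroup (Perm α)} {A : Perm α → Prop}
    (h2 : ∀ a b c d, a ∈ F → b ∈ F → c ∈ F → d ∈ F → a ≠ b → c ≠ d → ∃ n ∈ N, n a = c ∧ n b = d)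
    (hF : ∀ y, A y → ∀ b ∈ F, y b ∈ F) (hA : ∀ n ∈ N, ∀ y, A y → A (n * y * n⁻¹))
    (hab : ∀ y w, A y → A w → ∀ b ∈ F, y (w b) = w (y b)) {y : Perm α} (hy : A y) {a : α}
    (ha : a ∈ F) (e : y a = a) : ∀ b ∈ F, y b = b := by
  intro b hb
  by_contra hne
  obtain ⟨n, hn, n1, n2⟩ := h2 b (y b) a b hb (hF y hy b hb) ha hb (Ne.symm hne)
    fun h => hne (h ▸ e)
  have h1 : (n * y * n⁻¹) a = b := by rw [Perm.mul_apply, Perm.mul_apply, ← n1, ia, n2]
  have := hab y _ hy (hA n hn y hy) a ha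
  rw [e, h1] at this
  exact hne this

theorem wc_jordan (h4 : 4 ≤ k) (hk : k < F.card) (hG : IsMultiplyPretransitive G α k)
    (hF : ∀ x, x ∈ F ↔ ∀ g ∈ P, g x = x)
    (hN : IsMultiplyPretransitive (nf (G ⊓ Subgroup.normalizer (P : Set (Perm α))) F)
      {x // x ∈ F} k) {z : Perm α} (hz : z ∈ G) (hz1 : z ≠ 1) (hzF : z.support ⊆ F)
    (hD : 0 < Fᶜ.card) : IsMultiplyPretransitive G α (Fᶜ.card + 1) := by
  have hn := Finset.card_add_card_compl F
  set M := nf (G ⊓ Subgroup.normalizer (P : Set (Perm α))) F with hM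
  let K : Subgroup M := (G.comap Perm.ofSubtype).subgroupOf M
  have hmem : ∀ σ : Perm {x // x ∈ F}, Perm.ofSubtype σ ∈ G → σ ∈ M := fun σ h =>
    ⟨_, ⟨h, Subgroup.centralizer_le_normalizer _ (Subgroup.mem_centralizer_iff.2 fun s hs =>
      (Perm.Disjoint.commute fun x => by
        by_cases hx : x ∈ F
        · exact Or.inl ((hF x).1 hx s hs)
        · exact Or.inr (Perm.ofSubtype_apply_of_not_mem σ hx)).eq)⟩,
      fun y => (Perm.ofSubtype_apply_coe σ y).symm⟩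
  haveI : K.Normal := ⟨fun σ hσ τ => by
    obtain ⟨n, hn, e⟩ := τ.2
    have h1 : Perm.ofSubtype (τ.1 * σ.1 * τ.1⁻¹) = n * Perm.ofSubtype σ.1 * n⁻¹ := by
      rw [eq_mul_inv_iff_mul_eq]
      refine Equiv.ext fun x => ?_
      rw [Perm.mul_apply, Perm.mul_apply]
      by_cases hx : x ∈ F
      · rw [Perm.ofSubtype_apply_of_mem σ.1 hx, ← e, show n x = τ.1 ⟨x, hx⟩ from (e ⟨x, hx⟩).symm,
          Perm.ofSubtype_apply_coe]
        simp
      · rw [Perm.ofSubtype_apply_of_not_mem σ.1 hx,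
          Perm.ofSubtype_apply_of_not_mem _ fun h => hx ((nrm_fix hF hn.2 x).1 h)]
    change Perm.ofSubtype (τ.1 * σ.1 * τ.1⁻¹) ∈ G
    rw [h1]
    exact mul_mem (mul_mem hn.1 hσ) (inv_mem hn.1)⟩
  have hzi : ∀ x, z x ∈ F ↔ x ∈ F := fun x => by
    by_cases hx : z x = x
    · rw [hx]
    · exact iff_of_true (hzF (Perm.apply_mem_support.2 (Perm.mem_support.2 hx)))
        (hzF (Perm.mem_support.2 hx))
  have hz' := Perm.ofSubtype_subtypePerm hzi fun x hx => hzF (Perm.mem_support.2 hx)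
  have hK : K ≠ ⊥ := fun h => hz1 (by
    have h1 : (⟨z.subtypePerm hzi, hmem _ (hz'.symm ▸ hz)⟩ : M) ∈ K := by
      change Perm.ofSubtype (z.subtypePerm hzi) ∈ G
      rwa [hz']
    rw [h, Subgroup.mem_bot] at h1
    rw [← hz', show z.subtypePerm hzi = 1 from congrArg Subtype.val h1, map_one])
  haveI := (S0698.result M (by omega) (by simpa using hk) hN K hK).resolve_right (by omega)
  have hK2 : IsMultiplyPretransitive K {x // x ∈ F} 2 :=
    isMultiplyPretransitive_of_le (n := k - 1) (by omega) (by simp; omega)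
  have hG2 : IsMultiplyPretransitive G α 2 :=
    isMultiplyPretransitive_of_le (n := k) (by omega) (by rw [Nat.card_eq_fintype_card]; omega)
  obtain ⟨d, hd⟩ : ∃ d, Fᶜ.card = d + 1 := ⟨Fᶜ.card - 1, by omega⟩
  have := (isPreprimitive_of_is_two_pretransitive hG2).isMultiplyPreprimitive
    (s := ((Fᶜ : Finset α) : Set α)) (n := d) (by rw [Set.ncard_coe_finset, hd])
    (by rw [Nat.card_eq_fintype_card]; omega) (isPreprimitive_of_is_two_pretransitive (by
      rw [is_two_pretransitive_iff] at hK2 ⊢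
      intro a b c e h1 h2
      have hm : ∀ a : SubMulAction.ofFixingSubgroup G ((Fᶜ : Finset α) : Set α), a.1 ∈ F :=
        fun a => by_contra fun h => (SubMulAction.mem_ofFixingSubgroup_iff G).1 a.2
          (Finset.mem_coe.2 (Finset.mem_compl.2 h))
      obtain ⟨σ, s1, s2⟩ := @hK2 ⟨a, hm a⟩ ⟨b, hm b⟩ ⟨c, hm c⟩ ⟨e, hm e⟩
        (fun h => h1 (Subtype.ext (Subtype.mk.inj h)))
        (fun h => h2 (Subtype.ext (Subtype.mk.inj h)))
      refine ⟨⟨⟨Perm.ofSubtype σ.1.1, σ.2⟩, (mem_fixingSubgroup_iff _).2 fun x hx =>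
        Perm.ofSubtype_apply_of_not_mem _ (by simpa using hx)⟩, Subtype.ext ?_, Subtype.ext ?_⟩
      · exact (Perm.ofSubtype_apply_coe σ.1.1 ⟨a, hm a⟩).trans (congrArg Subtype.val s1)
      · exact (Perm.ofSubtype_apply_coe σ.1.1 ⟨b, hm b⟩).trans (congrArg Subtype.val s2)))
  rw [hd]
  exact this.isMultiplyPretransitive

theorem wc_res (hp : p.Prime) (hP : IsPGroup p P) {x : α} (ho : (orb P x).card ≤ p)
    {s0 s : Perm α} (hs0 : s0 ∈ P) (hx : s0 x ≠ x) (hs : s ∈ P) :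
    ∃ i : ℤ, ∀ y ∈ orb P x, s y = (s0 ^ i) y := by
  have key : ∀ v ∈ P, ∀ y ∈ orb P x, v y ≠ y → ∀ w ∈ orb P x, ∃ i : ℤ, (v ^ i) y = w := by
    intro v hv y hy hvy w hw
    have hle : Subgroup.zpowers v ≤ P := Subgroup.zpowers_le.2 hv
    have h1 : orb (Subgroup.zpowers v) y = orb P x := Finset.eq_of_subset_of_card_le
      (fun c hc => by
        obtain ⟨t, ht, e⟩ := mem_orb.1 hc
        rw [orb_eq.2 hy]
        exact mem_orb.2 ⟨t, hle ht, e⟩)
      (ho.trans (le_card_orb hp (hP.to_le hle) (Subgroup.mem_zpowers v) hvy))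
    obtain ⟨_, ⟨i, rfl⟩, e⟩ := mem_orb.1 (h1 ▸ hw)
    exact ⟨i, e⟩
  obtain ⟨i, hi⟩ := key s0 hs0 x (self_mem_orb x) hx (s x) (mem_orb.2 ⟨s, hs, rfl⟩)
  refine ⟨i, fun y hy => ?_⟩
  by_contra hne
  have hv : (s0 ^ i)⁻¹ * s ∈ P := mul_mem (inv_mem (zpow_mem hs0 i)) hs
  have h1 : ((s0 ^ i)⁻¹ * s) y ≠ y := fun e => hne (by
    rwa [Perm.mul_apply, Perm.inv_eq_iff_eq] at e)
  obtain ⟨j, hj⟩ := key _ hv y hy h1 x (self_mem_orb x)
  have h2 : ((s0 ^ i)⁻¹ * s) x = x := by rw [Perm.mul_apply, ← hi, ia]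
  have h3 := (((s0 ^ i)⁻¹ * s) ^ j).injective
    (hj.trans (Perm.zpow_apply_eq_self_of_apply_eq_self h2 j).symm)
  exact h1 (h3 ▸ h2)

theorem zpow_res {g h : Perm α} {A : Finset α} (hA : ∀ x ∈ A, g x ∈ A) (h1 : ∀ x ∈ A, h x = g x)
    (j : ℤ) : ∀ x ∈ A, (h ^ j) x = (g ^ j) x := by
  obtain ⟨n, rfl | rfl⟩ := j.eq_nat_or_neg
  · simpa using pow_res hA h1 n
  · intro x hx
    rw [zpow_neg, zpow_neg, zpow_natCast, zpow_natCast, Perm.inv_eq_iff_eq,
      pow_res hA h1 n ((g ^ n)⁻¹ x)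
        (Perm.perm_symm_on_of_perm_on_finset (pow_mem_of_inv hA n) hx), ai]

theorem wc_ker (h3 : 3 ≤ k) (hkF : k ≤ F.card) (hp : p.Prime) (h5 : 5 ≤ p) (hP : IsPGroup p P)
    (hF : ∀ x, x ∈ F ↔ ∀ g ∈ P, g x = x) (ho : ∀ x, (orb P x).card ≤ p)
    (hN : IsMultiplyPretransitive (nf (G ⊓ Subgroup.normalizer (P : Set (Perm α))) F)
      {x // x ∈ F} k) (hz : ∀ z ∈ G, z.support ⊆ F → z = 1) {y : Perm α}
    (hy : y ∈ G ⊓ Subgroup.normalizer (P : Set (Perm α))) (hyo : ∀ x, x ∉ F → y x ∈ orb P x)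
    {a : α} (ha : a ∈ F) (e : y a = a) : ∀ b ∈ F, y b = b := by
  haveI := Fact.mk hp
  set N := G ⊓ Subgroup.normalizer (P : Set (Perm α)) with hNd
  have h2 : ∀ a b c d, a ∈ F → b ∈ F → c ∈ F → d ∈ F → a ≠ b → c ≠ d →
      ∃ n ∈ N, n a = c ∧ n b = d := fun a b c d ha hb hc hd h1 h2 => by
    obtain ⟨n, hn, e⟩ := nf_ex hN hkF (ι := Fin 2) (by simp; omega) (x := ![a, b]) (y := ![c, d])
      (injective_pair_iff_ne.2 h1) (injective_pair_iff_ne.2 h2)
      (by simp [ha, hb]) (by simp [hc, hd])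
    exact ⟨n, hn, e 0, e 1⟩
  let K : Perm α → Prop := fun y => y ∈ N ∧ ∀ x, x ∉ F → y x ∈ orb P x
  have hKF : ∀ y, K y → ∀ b ∈ F, y b ∈ F := fun y hy b hb => (nrm_fix hF hy.1.2 b).2 hb
  have hKc : ∀ n ∈ N, ∀ y, K y → K (n * y * n⁻¹) := fun n hn y hy =>
    ⟨mul_mem (mul_mem hn hy.1) (inv_mem hn), fun x hx => by
      have := nrm_orb hn.2 (hy.2 (n⁻¹ x) fun h => hx ((nrm_fix hF (inv_mem hn).2 x).1 h))
      rwa [ai] at this⟩
  have hKm : ∀ y w, K y → K w → K (y * w) := fun y w hy hw =>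
    ⟨mul_mem hy.1 hw.1, fun x hx => by
      rw [orb_eq.2 (hw.2 x hx)]
      exact hy.2 _ fun h => hx ((nrm_fix hF hw.1.2 x).1 h)⟩
  have hKi : ∀ y, K y → K y⁻¹ := fun y hy => ⟨inv_mem hy.1, fun x hx => by
    have := hy.2 (y⁻¹ x) fun h => hx ((nrm_fix hF (inv_mem hy.1).2 x).1 h)
    rw [ai] at this
    rw [← orb_eq.2 this]
    exact self_mem_orb _⟩
  have hmv : ∀ x, x ∉ F → ∃ s ∈ P, s x ≠ x := fun x hx => by
    by_contra h; push Not at h; exact hx ((hF x).2 h)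
  have hPab : ∀ s ∈ P, ∀ t ∈ P, ∀ x, s (t x) = t (s x) := fun s hs t ht x => by
    by_cases hx : x ∈ F
    · rw [(hF x).1 hx t ht, (hF x).1 hx s hs, (hF x).1 hx t ht]
    · obtain ⟨s0, hs0, h0⟩ := hmv x hx
      obtain ⟨i, hi⟩ := wc_res hp hP (ho x) hs0 h0 hs
      obtain ⟨j, hj⟩ := wc_res hp hP (ho x) hs0 h0 ht
      rw [hi _ (mem_orb.2 ⟨t, ht, rfl⟩), hj _ (mem_orb.2 ⟨s, hs, rfl⟩), hi _ (self_mem_orb x),
        hj _ (self_mem_orb x), ← Perm.mul_apply, ← Perm.mul_apply, zpow_mul_comm]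
  let C : Perm α → Prop := fun c => K c ∧ ∀ s ∈ P, Commute c s
  have hCab : ∀ c d, C c → C d → c * d = d * c := fun c d hc hd => by
    rw [eq_comm, ← inv_mul_eq_one]
    refine hz _ (mul_mem (inv_mem (mul_mem hd.1.1.1 hc.1.1.1)) (mul_mem hc.1.1.1 hd.1.1.1))
      fun x hx => ?_
    by_contra hxF
    refine Perm.mem_support.1 hx ?_
    obtain ⟨s, hs, e1⟩ := mem_orb.1 (hc.1.2 x hxF)
    obtain ⟨t, ht, e2⟩ := mem_orb.1 (hd.1.2 x hxF)
    rw [Perm.mul_apply, Perm.inv_eq_iff_eq, Perm.mul_apply, Perm.mul_apply, ← e1, ← e2,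
      ← Perm.mul_apply c, (hc.2 t ht).eq, ← Perm.mul_apply d, (hd.2 s hs).eq, Perm.mul_apply,
      Perm.mul_apply, ← e1, ← e2, hPab s hs t ht]
  have hCc : ∀ n ∈ N, ∀ c, C c → C (n * c * n⁻¹) := fun n hn c hc =>
    ⟨hKc n hn c hc.1, fun s hs => by
      have := (hc.2 _ ((Subgroup.mem_normalizer_iff''.1 hn.2 s).1 hs)).eq
      change _ * _ = _ * _
      calc _ = n * (c * (n⁻¹ * s * n)) * n⁻¹ := by group
        _ = _ := by rw [this]; group⟩
  have hCF : ∀ c, C c → ∀ x ∈ F, c x = x := fun c hc x hx => by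
    by_contra hne
    obtain ⟨j, hj⟩ := IsPGroup.iff_card.1 hP
    have hpow : c ^ p ^ j = 1 := hz _ (pow_mem hc.1.1.1 _) fun w hw => by
      by_contra hwF
      refine Perm.mem_support.1 hw ?_
      obtain ⟨s, hs, e1⟩ := mem_orb.1 (hc.1.2 w hwF)
      have h6 : s ^ p ^ j = 1 := by
        have := pow_card_eq_one' (x := (⟨s, hs⟩ : P))
        rw [hj] at this
        exact congrArg Subtype.val this
      rw [pow_cyc (a := 1) (hc.2 s hs) (by rw [pow_one, e1]), pow_one, h6, Perm.one_apply]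
    have n2 : c (c x) ≠ x := fun h => hne (fix_of_cop (a := 2) hp hpow two_pos (by omega) h)
    have n3 : c (c (c x)) ≠ x := fun h =>
      hne (fix_of_cop (a := 3) hp hpow (by omega) (by omega) h)
    have n1 : c (c x) ≠ c x := fun h => hne (c.injective h)
    have n4 : c (c (c x)) ≠ c x := fun h => n2 (c.injective h)
    have f1 := hKF c hc.1 x hx
    have f2 := hKF c hc.1 _ f1
    have f3 := hKF c hc.1 _ f2
    obtain ⟨n, hn, e⟩ := nf_ex hN hkF (ι := Fin 3) (by simpa using h3) (x := ![x, c x, c (c x)])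
      (y := ![x, c x, c (c (c x))])
      (by simp [List.nodup_ofFn.symm, Ne.symm hne, n2.symm, n1.symm])
      (by simp [List.nodup_ofFn.symm, Ne.symm hne, n3.symm, n4.symm])
      (by intro i; fin_cases i <;> assumption) (by intro i; fin_cases i <;> assumption)
    have e0 : n x = x := e 0
    have e1 : n (c x) = c x := e 1
    have e2 : n (c (c x)) = c (c (c x)) := e 2
    have hc' := hCc n hn c hc
    have h7 := ab_fix (A := C) h2 (fun y hy => hKF y hy.1) hCc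
      (fun y w hy hw b _ => DFunLike.congr_fun (hCab y w hy hw) b) (y := c⁻¹ * (n * c * n⁻¹))
      ⟨hKm _ _ (hKi c hc.1) hc'.1, fun s hs => (hc.2 s hs).inv_left.mul_left (hc'.2 s hs)⟩ hx
      (by simp only [Perm.mul_apply]; rw [Perm.inv_eq_iff_eq.2 e0.symm, e1, ia]) _ f1
    simp only [Perm.mul_apply] at h7
    rw [Perm.inv_eq_iff_eq.2 e1.symm, e2, ia] at h7
    exact n1 h7
  refine ab_fix (A := K) h2 hKF hKc (fun y w hy hw b hb => ?_) ⟨hy, hyo⟩ ha e
  have hc : K ((w * y)⁻¹ * (y * w)) := hKm _ _ (hKi _ (hKm _ _ hw hy)) (hKm _ _ hy hw)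
  have := hCF _ ⟨hc, fun s hs => ?_⟩ b hb
  · rwa [Perm.mul_apply, Perm.inv_eq_iff_eq] at this
  have h6 : ∀ x, ((y * w) * s * (y * w)⁻¹) x = ((w * y) * s * (w * y)⁻¹) x := fun x => by
    have m1 := (Subgroup.mem_normalizer_iff.1 (hKm _ _ hy hw).1.2 s).1 hs
    have m2 := (Subgroup.mem_normalizer_iff.1 (hKm _ _ hw hy).1.2 s).1 hs
    by_cases hx : x ∈ F
    · rw [(hF x).1 hx _ m1, (hF x).1 hx _ m2]
    obtain ⟨s0, hs0, h0⟩ := hmv x hx
    obtain ⟨l, hl⟩ := wc_res hp hP (ho x) hs0 h0 hs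
    obtain ⟨i, hi⟩ := wc_res hp hP (ho x) hs0 h0 ((Subgroup.mem_normalizer_iff.1 hy.1.2 s0).1 hs0)
    obtain ⟨j, hj⟩ := wc_res hp hP (ho x) hs0 h0 ((Subgroup.mem_normalizer_iff.1 hw.1.2 s0).1 hs0)
    have hin : ∀ v, K v → ∀ c ∈ orb P x, v c ∈ orb P x := fun v hv c hc => by
      obtain ⟨t, ht, rfl⟩ := mem_orb.1 hc
      rw [orb_eq.2 hc]
      refine hv.2 _ fun h => hx ?_
      have := (hF _).1 h _ (inv_mem ht)
      rw [ia] at this
      exact this ▸ h
    have hs0o : ∀ (n : ℤ), ∀ c ∈ orb P x, (s0 ^ n) c ∈ orb P x := fun n c hc => by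
      rw [orb_eq.2 hc]; exact mem_orb.2 ⟨_, zpow_mem hs0 n, rfl⟩
    have hcj : ∀ v, K v → ∀ i : ℤ, (∀ c ∈ orb P x, (v * s0 * v⁻¹) c = (s0 ^ i) c) → ∀ n : ℤ,
        ∀ c ∈ orb P x, v ((s0 ^ n) c) = (s0 ^ (i * n)) (v c) := fun v hv i hi n c hc => by
      rw [zpow_mul, ← zpow_res (hs0o i) hi n _ (hin v hv c hc), conj_zpow]
      simp
    have hcc : ∀ v v', K v → K v' → ∀ i j : ℤ, (∀ c ∈ orb P x, (v * s0 * v⁻¹) c = (s0 ^ i) c) →
        (∀ c ∈ orb P x, (v' * s0 * v'⁻¹) c = (s0 ^ j) c) →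
        ((v * v') * s * (v * v')⁻¹) x = (s0 ^ (i * (j * l))) x := fun v v' hv hv' i j hi hj => by
      have hx' := hin _ (hKi _ (hKm _ _ hv hv')) x (self_mem_orb x)
      rw [Perm.mul_apply, Perm.mul_apply, hl _ hx', Perm.mul_apply, hcj v' hv' j hj l _ hx',
        hcj v hv i hi _ _ (hin v' hv' _ hx'), ← Perm.mul_apply v, ai]
    rw [hcc y w hy hw i j hi hj, hcc w y hw hy j i hj hi, mul_left_comm]
  have h7 := Equiv.ext h6
  change _ * _ = _ * _
  calc _ = (w * y)⁻¹ * ((y * w) * s * (y * w)⁻¹) * (y * w) := by group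
    _ = _ := by rw [h7]; group

end Wc

theorem wc : WcStmt.{u} := by
  intro α _ _ G P k p S F h3 hG hS hp h5 hPS hP hi hb hlt hF
  classical
  have hSF : S ⊆ F := fun x hx => (hF x).2 fun g hg => (hPS hg).2 x hx
  have hkF : k ≤ F.card := hS ▸ Finset.card_le_card hSF
  have hn := Finset.card_add_card_compl F
  have hoD : ∀ x, x ∉ F → orb P x ⊆ Fᶜ := fun x hx y hy => Finset.mem_compl.2 fun h => by
    obtain ⟨t, ht, rfl⟩ := mem_orb.1 hy
    have := (hF _).1 h _ (inv_mem ht)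
    rw [ia] at this
    exact hx (this ▸ h)
  have hop : ∀ x, x ∉ F → (orb P x).card = p := fun x hx => by
    obtain ⟨j, hj⟩ := card_orb hp hP x
    obtain ⟨s, hs, hx'⟩ : ∃ s ∈ P, s x ≠ x := by
      by_contra h; push Not at h; exact hx ((hF x).2 h)
    have h1 := le_card_orb hp hP hs hx'
    have h2 : p ^ j < p ^ 2 := by
      have := Finset.card_le_card (hoD x hx)
      rw [pow_two]; omega
    rw [Nat.pow_lt_pow_iff_right hp.one_lt] at h2
    exact le_antisymm (hj ▸ (Nat.pow_le_pow_right hp.pos (by omega)).trans (pow_one p).le) h1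
  have ho : ∀ x, (orb P x).card ≤ p := fun x => by
    by_cases hx : x ∈ F
    · refine (Finset.card_le_one.2 fun a ha b hb => ?_).trans hp.pos
      obtain ⟨s, hs, rfl⟩ := mem_orb.1 ha
      obtain ⟨t, ht, rfl⟩ := mem_orb.1 hb
      rw [(hF x).1 hx s hs, (hF x).1 hx t ht]
    · exact (hop x hx).le
  set C := Fᶜ.image (orb P) with hC
  have hq : Fᶜ.card = C.card * p := by
    rw [Finset.card_eq_sum_card_image (orb P) Fᶜ, ← smul_eq_mul, ← Finset.sum_const]
    refine Finset.sum_congr rfl fun c hc => ?_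
    obtain ⟨x, hx, rfl⟩ := Finset.mem_image.1 hc
    rw [← hop x (Finset.mem_compl.1 hx)]
    congr 1
    ext y
    rw [Finset.mem_filter, eq_comm, orb_eq]
    exact ⟨fun h => h.2, fun h => ⟨hoD x (Finset.mem_compl.1 hx) h, h⟩⟩
  have hD : 0 < Fᶜ.card := by
    by_contra h
    refine hb ((Subgroup.eq_bot_iff_forall P).2 fun g hg => Equiv.ext fun x => (hF x).1 ?_ g hg)
    by_contra hx
    exact h (Finset.card_pos.2 ⟨x, Finset.mem_compl.2 hx⟩)
  have hN := wc_witt hG hS hp hPS hP hi hF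
  refine ⟨C.card, by omega, Nat.pos_of_mul_pos_right (hq ▸ hD), ?_⟩
  by_cases hz : ∀ z ∈ G, z.support ⊆ F → z = 1
  · left
    obtain ⟨a, ha⟩ : F.Nonempty := Finset.card_pos.1 (by omega)
    have hrep : ∀ c : C, ∃ d, d ∉ F ∧ orb P d = c := fun c => by
      obtain ⟨d, hd, e⟩ := Finset.mem_image.1 c.2
      exact ⟨d, Finset.mem_compl.1 hd, e⟩
    choose r hr1 hr2 using hrep
    have hmem : ∀ d, d ∉ F → orb P d ∈ C := fun d hd =>
      Finset.mem_image_of_mem _ (Finset.mem_compl.2 hd)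
    let emb : (G ⊓ Subgroup.normalizer (P : Set (Perm α)) : Subgroup (Perm α)) → (C ↪ C) :=
      fun n => ⟨fun c => ⟨orb P (n.1 (r c)), hmem _ fun h => hr1 c ((nrm_fix hF n.2.2 _).1 h)⟩,
        fun c c' e => by
          have h1 := nrm_orb (inv_mem n.2.2) (orb_eq.1 (congrArg Subtype.val e))
          rw [ia, ia] at h1
          exact Subtype.ext (by rw [← hr2 c, ← hr2 c', orb_eq.2 h1])⟩
    have hc : Fintype.card (Fin (k - 1) ↪ F.erase a) = (F.card - 1).descFactorial (k - 1) := by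
      rw [Fintype.card_embedding_eq, Fintype.card_coe, Finset.card_erase_of_mem ha,
        Fintype.card_fin]
    rcases isEmpty_or_nonempty (Fin (k - 1) ↪ F.erase a) with h0 | ⟨⟨e0⟩⟩
    · rw [← hc, Fintype.card_eq_zero]; exact Nat.zero_le _
    have hinj : ∀ e : Fin (k - 1) ↪ F.erase a,
        Function.Injective fun i : Option (Fin (k - 1)) => i.elim a fun j => (e j : α) := by
      rintro e (_ | i) (_ | j) h
      · rfl
      · exact absurd h.symm (Finset.mem_erase.1 (e j).2).1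
      · exact absurd h (Finset.mem_erase.1 (e i).2).1
      · exact congrArg some (e.injective (Subtype.ext h))
    have hin : ∀ e : Fin (k - 1) ↪ F.erase a,
        ∀ i : Option (Fin (k - 1)), (i.elim a fun j => (e j : α)) ∈ F := by
      rintro e (_ | i)
      · exact ha
      · exact Finset.mem_of_mem_erase (e i).2
    choose nn hn1 hn2 using fun e => nf_ex hN hkF (ι := Option (Fin (k - 1))) (by simp; omega)
      (hinj e0) (hinj e) (hin e0) (hin e)
    rw [← hc, ← Nat.descFactorial_self, ← Fintype.card_coe C, ← Fintype.card_embedding_eq]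
    refine Fintype.card_le_of_injective (fun e => emb ⟨nn e, hn1 e⟩) fun e e' h => ?_
    have h6 := wc_ker h3 hkF hp h5 hP hF ho hN hz (mul_mem (inv_mem (hn1 e)) (hn1 e'))
      (fun d hd => by
        have h7 := orb_eq.1 (congrArg Subtype.val (DFunLike.congr_fun h ⟨_, hmem d hd⟩))
        have h8 := orb_eq.1 (hr2 ⟨_, hmem d hd⟩)
        have h9 := nrm_orb (hn1 e').2 h8
        rw [← orb_eq.2 h7, orb_eq.2 (nrm_orb (hn1 e).2 h8)] at h9
        have h10 := nrm_orb (inv_mem (hn1 e).2) h9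
        rwa [ia] at h10) ha
      (by rw [Perm.mul_apply, Perm.inv_eq_iff_eq]; exact (hn2 e' none).trans (hn2 e none).symm)
    ext i
    have := h6 _ (hin e0 (some i))
    rw [Perm.mul_apply, Perm.inv_eq_iff_eq, hn2, hn2] at this
    exact this.symm
  · push Not at hz
    obtain ⟨z, z1, z2, z3⟩ := hz
    exact Or.inr ⟨⟨z, z1, z3, z2⟩, fun h4 hk => hq ▸ wc_jordan h4 hk hG hF hN z1 z3 z2 hD⟩

theorem exists_syl {α : Type u} [Fintype α] [DecidableEq α] (Y : Subgroup (Perm α)) {p : ℕ}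
    (hp : p.Prime) : ∃ P ≤ Y, IsPGroup p P ∧ ¬ p ∣ P.relIndex Y := by
  haveI := Fact.mk hp
  obtain ⟨Q⟩ := (inferInstance : Nonempty (Sylow p Y))
  refine ⟨(Q : Subgroup Y).map Y.subtype, Subgroup.map_subtype_le _, Q.isPGroup'.map _, ?_⟩
  rw [Subgroup.relIndex, Subgroup.subgroupOf, Subgroup.comap_map_eq_self_of_injective
    (Subgroup.subtype_injective _)]
  exact Q.not_dvd_index

theorem tok : TokStmt.{u} := by
  intro α _ _ G t hG ht hA f q p hp h5 hn hf hq hqp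
  classical
  by_contra hlt
  have hc' : Nat.card α = Fintype.card α := Nat.card_eq_fintype_card
  obtain ⟨S, -, hS⟩ := Finset.exists_subset_card_eq (s := (Finset.univ : Finset α)) (n := f)
    (by rw [Finset.card_univ]; omega)
  have hG0 : IsMultiplyPretransitive G α f := isMultiplyPretransitive_of_le hf.le (hc' ▸ ht)
  have hG1 : IsMultiplyPretransitive G α (f + 1) := isMultiplyPretransitive_of_le hf (hc' ▸ ht)
  obtain ⟨P, hPS, hP, hi⟩ := exists_syl (fixS G S) hp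
  have hmv : ∀ a, a ∉ S → ¬ ∀ g ∈ P, g a = a := fun a ha h => hi (by
    have h1 : P ≤ fixS G (insert a S) := fun g hg => ⟨(hPS hg).1, fun x hx =>
      (Finset.mem_insert.1 hx).elim (fun e => e ▸ h g hg) ((hPS hg).2 x)⟩
    have h2 : fixS G (insert a S) ≤ fixS G S := fun g hg =>
      mem_fixS.2 ⟨hg.1, fun x hx => hg.2 x (Finset.mem_insert_of_mem hx)⟩
    have h3 := card_eq_desc (G := G) (S := insert a S)
      (by rwa [Finset.card_insert_of_notMem ha, hS])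
    rw [card_eq_desc (hS.symm ▸ hG0), Finset.card_insert_of_notMem ha, hS, Nat.descFactorial_succ,
      ← card_mul_rel h2, mul_comm (_ - _), mul_assoc, mul_comm (_ - _)] at h3
    have h4 := Nat.eq_of_mul_eq_mul_left Nat.card_pos
      (Nat.eq_of_mul_eq_mul_left (Nat.descFactorial_pos.2 (by omega)) h3)
    rw [← Subgroup.relIndex_mul_relIndex _ _ _ h1 h2, h4, hn, Nat.add_sub_cancel]
    exact Dvd.dvd.mul_left (Dvd.intro_left q rfl) _)
  have hpos : 0 < q * p := Nat.mul_pos hq hp.pos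
  obtain ⟨q', h1, h2, h3⟩ := wc α G P f p S S (by omega) hG0 hS hp h5 hPS hP hi (fun h => by
    obtain ⟨a, ha⟩ : Sᶜ.Nonempty := Finset.card_pos.1 (by rw [Finset.card_compl]; omega)
    exact hmv a (Finset.mem_compl.1 ha) fun g hg => by
      rw [h, Subgroup.mem_bot] at hg; rw [hg]; rfl)
    (by rw [hn, Nat.add_sub_cancel]; exact Nat.mul_lt_mul_of_pos_right hqp hp.pos)
    fun x => ⟨fun hx g hg => (hPS hg).2 x hx, fun h => by_contra fun hx => hmv x hx h⟩
  obtain rfl : q' = q := Nat.eq_of_mul_eq_mul_right hp.pos (by omega)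
  rcases h3 with h | ⟨⟨z, z1, z2, z3⟩, -⟩
  · rw [hS, Nat.descFactorial_self] at h
    exact absurd h (not_le.2 ((Nat.factorial_lt hq).2 (by omega)))
  · have := Finset.card_le_card z3
    exact hA (S0711.result G (by omega) ht hG z z1 z2 (by omega)).2

theorem wok : WokStmt.{u} := by
  intro α _ _ G t p S h4 hG hnt hA hS hp h5 hd hlt
  classical
  obtain ⟨P, hPS, hP, hi⟩ := exists_syl (fixS G S) hp
  have hF : ∀ x, x ∈ Finset.univ.filter (fun x => ∀ g ∈ P, g x = x) ↔ ∀ g ∈ P, g x = x :=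
    fun x => by simp
  have hSF : t ≤ (Finset.univ.filter fun x => ∀ g ∈ P, g x = x).card :=
    hS ▸ Finset.card_le_card fun x hx => (hF x).2 fun g hg => (hPS hg).2 x hx
  obtain ⟨q, h1, h2, h3⟩ := wc α G P t p S _ (by omega) hG hS hp h5 hPS hP hi (fun h => hi (by
    rwa [h, Subgroup.relIndex_bot_left])) hlt hF
  refine ⟨q, _, h1, hSF, h2, ?_⟩
  rcases h3 with h | ⟨⟨z, z1, z2, z3⟩, h⟩
  · exact Or.inr h
  · refine Or.inl (by_contra fun hle => ?_)
    rcases hSF.eq_or_lt with e | e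
    · have := Finset.card_le_card z3
      exact hA (S0711.result G (by omega) (by omega) hG z z1 z2 (by omega)).2
    · haveI := h h4 e
      exact hnt (isMultiplyPretransitive_of_le (n := q * p + 1) (by omega)
        (by rw [Nat.card_eq_fintype_card]; omega))

end Cfsg.Agent.H87.PS
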