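import Mathlib
import Cfsg.Agent.H87.Quat

/-! Lifting generators of a generalized quaternion quotient. -/

set_option autoImplicit false

namespace Cfsg.Agent.H87

/-- A nonabelian `2`-group with a unique involution has quaternion generators. -/
theorem exists_quat_gens {X : Type*} [Group X] [Finite X] (hX : IsPGroup 2 X)
    (hna : ¬ IsMulCommutative X) (hu : ∃! x : X, orderOf x = 2) :
    ∃ (n : ℕ) (a b : X), orderOf a = 2 * 2 ^ (n + 1) ∧ b * b = a ^ 2 ^ (n + 1) ∧
      b * a * b⁻¹ = a⁻¹ ∧ b ∉ Subgroup.zpowers a ∧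
      ∀ g : X, (∃ k : ℤ, g = a ^ k) ∨ (∃ k : ℤ, g = a ^ k * b) := by
  have : Fact (Nat.Prime 2) := ⟨Nat.prime_two⟩
  rcases H5.isCyclic_or_quaternion_of_unique hX (fun x y hx hy => by
    rw [hu.unique hx hy]; exact Subgroup.mem_zpowers y) with h1 | ⟨-, n, ⟨e⟩⟩
  · exact absurd h1.isMulCommutative hna
  · rcases n with _ | n
    · have := QuaternionGroup.quaternionGroup_one_isCyclic
      exact absurd (isCyclic_of_surjective e.symm e.symm.surjective).isMulCommutative hna
    · obtain ⟨a, b, h⟩ := H9.exists_gens_of_equiv_quaternion e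
      exact ⟨n, a, b, h⟩

end Cfsg.Agent.H87
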