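import Cfsg.Agent.H56.SpDefs
import Cfsg.Agent.H16.IvSk

/-! Project CY, chapter SP: the group of a subspace is doubly transitive on it. -/

set_option autoImplicit false

namespace Cfsg.Agent.H87.SpL2t

open Subgroup MulAction Cfsg.Agent.H11.Cy Cfsg.Agent.H56.Sp
open Cfsg.Agent.H45.Iv (Fx Sub Ms)

theorem par {G : Type} [Group G] {Ω : Type} [Finite Ω] [MulAction G Ω] {z : G} (zz : z * z = 1)
    {O : Set Ω} (h : ∀ w ∈ O, z • w ∈ O) : O.ncard ≡ (O ∩ Fx Ω z).ncard [MOD 2] := by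
  classical
  have := Fintype.ofFinite Ω
  let f : Function.End O := fun w => ⟨z • w.1, h w.1 w.2⟩
  have e := Equiv.Perm.card_fixedPoints_modEq (f := f) (p := 2) (n := 1) (by
    funext w
    apply Subtype.ext
    change z • z • w.1 = w.1
    rw [← mul_smul, zz, one_smul])
  rw [← Nat.card_eq_fintype_card, ← Nat.card_eq_fintype_card] at e
  rw [← Nat.card_coe_set_eq, ← Nat.card_coe_set_eq]
  refine e.trans ?_
  rw [Nat.card_congr (α := f.fixedPoints) (β := (O ∩ Fx Ω z : Set Ω))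
    ⟨fun w => ⟨w.1.1, w.1.2, congrArg Subtype.val w.2⟩, fun w => ⟨⟨w.1, w.2.1⟩, Subtype.ext w.2.2⟩,
      fun _ => rfl, fun _ => rfl⟩]

theorem l2t : L2tStmt := by
  intro G _ _ Ω _ _ p A h hy Φ sub
  have k := Cfsg.Agent.H16.IvSk.sk G Ω p A h hy.mc.ep
  have st : ∀ a ∈ Φ, ∀ y ∈ Φ, ∀ y1 ∈ Φ, y ≠ a → y1 ≠ a →
      ∃ g ∈ Ms A Φ, g • a = a ∧ g • y = y1 := by
    intro a ha y hy0 y1 hy1 ne ne1
    by_contra c
    let O : Set Ω := {w | ∃ g ∈ Ms A Φ, g • a = a ∧ g • y = w}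
    have cl : ∀ g ∈ Ms A Φ, g • a = a → ∀ w ∈ O, g • w ∈ O := by
      rintro g hg e _ ⟨g', hg', e', rfl⟩
      exact ⟨g * g', mul_mem hg hg', by rw [mul_smul, e', e], mul_smul _ _ _⟩
    have na : ∀ w ∈ O, w ≠ a := by
      rintro _ ⟨g, -, e, rfl⟩ e'
      exact ne (smul_left_cancel g (e'.trans e.symm))
    have l := hy.lf a y ne.symm
    have l1 := hy.lf a y1 ne1.symm
    obtain ⟨z, hz⟩ := l.ex
    obtain ⟨z1, hz1⟩ := l1.ex
    have f := hy.fz a y ne.symm z hz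
    have f1 := hy.fz a y1 ne1.symm z1 hz1
    have m := (k.fle Φ a ha y hy0).1
    have m1 := (k.fle Φ a ha y1 hy1).1
    have p0 := par hz.2.2 (cl z (m hz.1) (show a ∈ Fx Ω z from f ▸ l.mem.1))
    have p1 := par hz1.2.2 (cl z1 (m1 hz1.1) (show a ∈ Fx Ω z1 from f1 ▸ l1.mem.1))
    have e1 : O ∩ Fx Ω z1 = ∅ := Set.eq_empty_of_forall_notMem fun w hw => by
      obtain ⟨g, hg, e, e'⟩ := l1.tr a l1.mem.1 w (f1 ▸ hw.2) a l1.mem.1 y1 l1.mem.2
        (na w hw.1).symm ne1.symm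
      exact c (e' ▸ cl g (m1 hg) e w hw.1)
    have e0 : O ∩ Fx Ω z = Ln A a y \ {a} := by
      rw [f]
      refine Set.ext fun w => ⟨fun hw => ⟨hw.2, na w hw.1⟩, fun hw => ⟨?_, hw.1⟩⟩
      obtain ⟨g, hg, e, e'⟩ := l.tr a l.mem.1 y l.mem.2 a l.mem.1 w hw.1 ne.symm
        fun e => hw.2 e.symm
      exact ⟨g, m hg, e, e'⟩
    rw [e0, Set.ncard_sdiff_singleton_of_mem l.mem.1, l.ln] at p0
    rw [e1, Set.ncard_empty] at p1
    have := h.pp.eq_two_or_odd.resolve_left hy.mc.p2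
    unfold Nat.ModEq at p0 p1
    omega
  intro x hx y hy0 x' hx' y' hy' ne ne'
  obtain ⟨g0, hg0, e0⟩ : ∃ g ∈ Ms A Φ, g • x = x' := by
    by_cases e : x = x'
    · exact ⟨1, one_mem _, by rw [one_smul, e]⟩
    · have l := hy.lf x x' e
      obtain ⟨g, hg, e1, -⟩ := l.tr x l.mem.1 x' l.mem.2 x' l.mem.2 x l.mem.1 e (Ne.symm e)
      exact ⟨g, (k.fle Φ x hx x' hx').1 hg, e1⟩
  obtain ⟨g, hg, e1, e2⟩ := st x' hx' _ (k.inv Φ sub g0 hg0 y hy0) y' hy'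
    (fun e => ne (smul_left_cancel g0 (e0.trans e.symm))) ne'.symm
  exact ⟨g * g0, mul_mem hg hg0, by rw [mul_smul, e0, e1], by rw [mul_smul, e2]⟩

end Cfsg.Agent.H87.SpL2t
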