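import Cfsg.Agent.H53.TCDefs

set_option autoImplicit false

namespace Cfsg.Agent.H87.TCI

open MulAction Cfsg.Agent.H12.RO Cfsg.Agent.H53.MW Cfsg.Agent.H53.TC

universe u

section
variable {G H V Ω : Type u} [Group G] [Group H] [AddCommGroup V] [DistribMulAction G V]
  [MulAction H V] [MulAction G Ω] [Fintype Ω] (S : Sys G V Ω)

theorem supp1 {ω ω' : Ω} {u : V} (hu : S.e ω u = u) {g : G} (h : S.e ω' (g • u) ≠ 0) :
    ω' = g • ω := by
  by_contra hne
  apply h
  have h1 : g⁻¹ • ω' ≠ ω := fun e => hne (by rw [← e, smul_inv_smul])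
  rw [← smul_inv_smul g ω', S.equiv, ← hu, S.orth _ _ h1, smul_zero]

theorem e_smul_eq_zero (g : G) (ω : Ω) (y : V) : S.e (g • ω) (g • y) = 0 ↔ S.e ω y = 0 := by
  rw [S.equiv, smul_eq_zero_iff_eq]

theorem exists_v (ω : Ω) : ∃ v : V, S.e ω v = v ∧ v ≠ 0 := by
  obtain ⟨x, hx⟩ := S.ne ω
  exact ⟨S.e ω x, S.idem ω x, hx⟩

/-- `h` carries the coordinate `ω` to `ω'`, seen from the point `x` -/
def P (h : H) (x : V) (ω ω' : Ω) : Prop :=
  ∀ y, S.e ω (y - x) = 0 ↔ S.e ω' (h • y - h • x) = 0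

theorem exists_P (hA : Aff3 G H V) (h : H) (x : V) (ω : Ω) : ∃ ω', P S h x ω ω' := by
  obtain ⟨v, hv, hv0⟩ := exists_v S ω
  obtain ⟨g0, h0, -⟩ := hA h x (x + v) x
  refine ⟨g0 • ω, fun y => ?_⟩
  obtain ⟨g, h1, h2⟩ := hA h x (x + v) y
  rw [add_sub_cancel_left] at h0 h1
  have e : g • ω = g0 • ω := by
    apply supp1 S hv
    rw [← h0, h1, Ne, e_smul_eq_zero, hv]
    exact hv0
  rw [h2, ← e, e_smul_eq_zero]

theorem P_step (hA : Aff3 G H V) {h : H} {x y : V} {ω ω1 ω2 : Ω} (hu : S.e ω (y - x) = y - x)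
    (h1 : S.e ω1 (h • y - h • x) ≠ 0) (h2 : S.e ω2 (h • y - h • x) ≠ 0) : ω1 = ω2 := by
  obtain ⟨g, e, -⟩ := hA h x y y
  rw [e] at h1 h2
  rw [supp1 S hu h1, supp1 S hu h2]

theorem P_unique (hA : Aff3 G H V) {h : H} {x : V} {ω ω1 ω2 : Ω} (h1 : P S h x ω ω1)
    (h2 : P S h x ω ω2) : ω1 = ω2 := by
  obtain ⟨v, hv, hv0⟩ := exists_v S ω
  have e : S.e ω (x + v - x) ≠ 0 := by rw [add_sub_cancel_left, hv]; exact hv0
  exact P_step S hA (x := x) (y := x + v) (by rw [add_sub_cancel_left, hv])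
    (fun z => e ((h1 _).2 z)) (fun z => e ((h2 _).2 z))

theorem P_move (hA : Aff3 G H V) {h : H} {x : V} {ω ω' : Ω} (hP : P S h x ω ω') (y : V) :
    P S h y ω ω' := by
  obtain ⟨v, hv, hv0⟩ := exists_v S ω
  set y' := y - S.e ω (y - x) with hy'
  have e0 : S.e ω (y' - x) = 0 := by
    rw [hy', sub_right_comm, map_sub, S.idem, sub_self]
  obtain ⟨ω1, h1⟩ := exists_P S hA h y' ω
  have e1 : ω' = ω1 := by
    have a1 : S.e ω (y' + v - x) ≠ 0 := by
      rw [add_sub_right_comm, map_add, e0, zero_add, hv]; exact hv0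
    have a2 : S.e ω' (h • (y' + v) - h • y') ≠ 0 := by
      intro z
      apply a1
      rw [hP, ← sub_add_sub_cancel _ (h • y'), map_add, z, (hP y').1 e0, add_zero]
    have a3 : S.e ω (y' + v - y') ≠ 0 := by rw [add_sub_cancel_left, hv]; exact hv0
    exact P_step S hA (x := y') (y := y' + v) (by rw [add_sub_cancel_left, hv]) a2
      (fun z => a3 ((h1 _).2 z))
  by_cases hy : y = y'
  · rw [hy, e1]; exact h1
  obtain ⟨ω2, h2⟩ := exists_P S hA h y ω
  have b0 : y - y' = S.e ω (y - x) := by rw [hy']; abel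
  have b1 : S.e ω (y - y') = y - y' := by rw [b0, S.idem]
  have b2 : S.e ω (y - y') ≠ 0 := by rw [b1]; exact sub_ne_zero.2 hy
  have e2 : ω1 = ω2 := by
    refine P_step S hA b1 (fun z => b2 ((h1 _).2 z)) (fun z => b2 ?_)
    have := (h2 y').2 (by rw [← neg_sub, map_neg, z, neg_zero])
    rw [← neg_sub, map_neg, this, neg_zero]
  rw [e1, e2]; exact h2

/-- the induced action on the coordinates -/
noncomputable def pi (hA : Aff3 G H V) (h : H) (ω : Ω) : Ω := (exists_P S hA h 0 ω).choose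

theorem pi_spec (hA : Aff3 G H V) (h : H) (ω : Ω) (x y : V) :
    S.e ω (y - x) = 0 ↔ S.e (pi S hA h ω) (h • y - h • x) = 0 :=
  P_move S hA (exists_P S hA h 0 ω).choose_spec x y

/-- the action of `H` on the coordinates -/
@[reducible] noncomputable def act (hA : Aff3 G H V) : MulAction H Ω where
  smul := pi S hA
  one_smul ω := P_unique S hA (h := (1 : H)) (x := 0) (fun y => pi_spec S hA 1 ω 0 y)
    (fun y => by simp)
  mul_smul h h' ω := P_unique S hA (h := h * h') (x := 0) (fun y => pi_spec S hA _ ω 0 y)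
    (fun y => by
      rw [pi_spec S hA h' ω, pi_spec S hA h, mul_smul, mul_smul]; rfl)

theorem exists_g (hA : Aff3 G H V) (h : H) (A B : Finset Ω) : ∃ g : G, ∀ ω,
    (g⁻¹ • pi S hA h ω ∈ A ↔ ω ∈ A) ∧ (g⁻¹ • pi S hA h ω ∈ B ↔ ω ∈ B) := by
  classical
  choose v hv hv0 using exists_v S
  have key : ∀ (A : Finset Ω) (ω : Ω), S.e ω (∑ a ∈ A, v a) = 0 ↔ ω ∉ A := by
    intro A ω
    rw [map_sum]
    by_cases hω : ω ∈ A
    · rw [Finset.sum_eq_single ω (fun b _ hb => by rw [← hv b, S.orth _ _ hb.symm])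
        (fun h => absurd hω h), hv]
      simp [hω, hv0]
    · rw [Finset.sum_eq_zero (fun b hb => by
        rw [← hv b, S.orth ω b (fun e => hω (e ▸ hb))])]
      simp [hω]
  obtain ⟨g, h1, h2⟩ := hA h 0 (∑ a ∈ A, v a) (∑ a ∈ B, v a)
  refine ⟨g, fun ω => ⟨?_, ?_⟩⟩
  · rw [← not_iff_not, ← key, ← key, ← e_smul_eq_zero S g, smul_inv_smul,
      ← sub_zero (∑ a ∈ A, v a), ← h1, ← pi_spec]
  · rw [← not_iff_not, ← key, ← key, ← e_smul_eq_zero S g, smul_inv_smul,
      ← sub_zero (∑ a ∈ B, v a), ← h2, ← pi_spec]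

theorem cl3 (hA : Aff3 G H V) : letI := act S hA; Cl3 G H Ω := by
  classical
  intro h a b c
  change ∃ g : G, g • a = pi S hA h a ∧ g • b = pi S hA h b ∧ g • c = pi S hA h c
  have two : ∀ a b : Ω, ∃ g : G, g • a = pi S hA h a ∧ g • b = pi S hA h b := by
    intro a b
    obtain ⟨g, hg⟩ := exists_g S hA h {a} {b}
    have h1 := (hg a).1.2 (by simp)
    have h2 := (hg b).2.2 (by simp)
    rw [Finset.mem_singleton, inv_smul_eq_iff] at h1 h2
    exact ⟨g, h1.symm, h2.symm⟩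
  by_cases hab : a = b
  · subst hab
    obtain ⟨g, h1, h2⟩ := two a c
    exact ⟨g, h1, h1, h2⟩
  by_cases hac : a = c
  · subst hac
    obtain ⟨g, h1, h2⟩ := two a b
    exact ⟨g, h1, h2, h1⟩
  by_cases hbc : b = c
  · subst hbc
    obtain ⟨g, h1, h2⟩ := two a b
    exact ⟨g, h1, h2, h2⟩
  obtain ⟨g, hg⟩ := exists_g S hA h {a, c} {b, c}
  have ha := hg a
  have hb := hg b
  have hc := hg c
  simp only [Finset.mem_insert, Finset.mem_singleton, true_or, or_true, iff_true, hab, hac, hbc,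
    Ne.symm hab, or_self, iff_false, not_or] at ha hb hc
  refine ⟨g, ?_, ?_, ?_⟩
  · rw [eq_comm, ← inv_smul_eq_iff]; exact ha.1.resolve_right ha.2.2
  · rw [eq_comm, ← inv_smul_eq_iff]; exact hb.2.resolve_right hb.1.2
  · rw [eq_comm, ← inv_smul_eq_iff]
    rcases hc.1 with e | e
    · rcases hc.2 with e' | e'
      · exact absurd (e.symm.trans e') hab
      · exact e'
    · exact e

theorem e_dep (hA : Aff3 G H V) {h : H} {ω : Ω} (hω : pi S hA h ω = ω) (y : V) :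
    S.e ω (h • S.e ω y) = S.e ω (h • y) := by
  have := (pi_spec S hA h ω y (S.e ω y)).1 (by rw [map_sub, S.idem, sub_self])
  rwa [hω, map_sub, sub_eq_zero] at this

/-- the action on one component -/
@[reducible] def comp (hA : Aff3 G H V) (X : Subgroup H) (hX : ∀ h ∈ X, ∀ ω, pi S hA h ω = ω)
    (ω : Ω) : MulAction X (S.e ω).range where
  smul h a := ⟨S.e ω ((h : H) • (a : V)), _, rfl⟩
  one_smul a := by
    obtain ⟨_, x, rfl⟩ := a
    apply Subtype.ext
    change S.e ω ((1 : H) • S.e ω x) = S.e ω x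
    rw [one_smul, S.idem]
  mul_smul h h' a := by
    apply Subtype.ext
    change S.e ω (((h : H) * h') • (a : V)) = S.e ω ((h : H) • S.e ω ((h' : H) • (a : V)))
    rw [e_dep S hA (hX _ h.2 ω), mul_smul]

theorem aff_comp (hA : Aff3 G H V) (X : Subgroup H) (hX : ∀ h ∈ X, ∀ ω, pi S hA h ω = ω)
    (ω : Ω) : letI := comp S hA X hX ω; letI := subAct (S.inv_range ω)
      Aff3 (stabilizer G ω) X (S.e ω).range := by
  letI := comp S hA X hX ω
  letI := subAct (S.inv_range ω)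
  intro h x y z
  have hr : ∀ a : (S.e ω).range, S.e ω a = a := by
    rintro ⟨_, x, rfl⟩; exact S.idem _ _
  by_cases h0 : y = x ∧ z = x
  · exact ⟨1, by simp [h0.1], by simp [h0.2]⟩
  obtain ⟨g, h1, h2⟩ := hA h x y z
  have key : ∀ y : (S.e ω).range, y ≠ x → (h : H) • (y : V) - (h : H) • (x : V) = g • (y - x : V) →
      g • ω = ω := by
    intro y hy e
    have a1 : S.e ω (y - x : V) = y - x := hr (y - x)
    have a2 : S.e ω (y - x : V) ≠ 0 := by
      rw [a1]; exact sub_ne_zero.2 fun e => hy (Subtype.ext e)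
    rw [Ne, pi_spec S hA h, hX _ h.2, e] at a2
    exact (supp1 S a1 a2).symm
  have hg : g • ω = ω := by
    by_cases hy : y = x
    · exact key z (fun e => h0 ⟨hy, e⟩) h2
    · exact key y hy h1
  have fin : ∀ y : (S.e ω).range, (h : H) • (y : V) - (h : H) • (x : V) = g • (y - x : V) →
      h • y - h • x = (⟨g, hg⟩ : stabilizer G ω) • (y - x) := by
    intro y e
    apply Subtype.ext
    change S.e ω ((h : H) • (y : V)) - S.e ω ((h : H) • (x : V)) = g • (y - x : V)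
    rw [← map_sub, e]
    have := S.equiv g ω (y - x : V)
    rw [hg] at this
    rw [this]
    exact congrArg _ (hr (y - x))
  exact ⟨⟨g, hg⟩, fin y h1, fin z h2⟩

end

theorem imp : ImpStmt.{u} := by
  intro n hT hAC G H V Ω _ _ _ _ _ _ _ _ _ _ _ S hn hA
  obtain ⟨a, ha⟩ := (letI := act S hA; hT G H Ω
    (by rw [Nat.card_eq_fintype_card]; exact S.card_lt.trans_le hn) (cl3 S hA))
  have hX : ∀ h ∈ der (⊤ : Subgroup H) a, ∀ ω, pi S hA h ω = ω := ha
  have hb : ∀ ω, ∃ b, ∀ h : der (⊤ : Subgroup H) a, h ∈ der ⊤ b → ∀ x : V,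
      S.e ω ((h : H) • S.e ω x) = S.e ω x := by
    intro ω
    letI := comp S hA _ hX ω
    letI := subAct (S.inv_range ω)
    obtain ⟨b, hb⟩ := hAC (stabilizer G ω) (der (⊤ : Subgroup H) a) (S.e ω).range
      ((S.card_range_lt ω).trans_le hn) (aff_comp S hA _ hX ω)
    exact ⟨b, fun h hh x => congrArg Subtype.val (hb h hh ⟨S.e ω x, x, rfl⟩)⟩
  choose b hb using hb
  refine ⟨a + Finset.univ.sup b, fun g hg x => ?_⟩
  rw [der_add] at hg
  obtain ⟨hg', h1⟩ := exists_of_mem_der le_rfl hg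
  rw [Subgroup.subgroupOf_self] at h1
  rw [← S.sum (g • x)]
  conv_rhs => rw [← S.sum x]
  refine Finset.sum_congr rfl fun ω _ => ?_
  rw [← e_dep S hA (hX g hg' ω)]
  exact hb ω ⟨g, hg'⟩ (der_anti _ (Finset.le_sup (Finset.mem_univ ω)) h1) x

end Cfsg.Agent.H87.TCI
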