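import Mathlib
import Cfsg.Agent.H42.VpDefs
import Cfsg.Agent.H3.Cores

set_option autoImplicit false

namespace Cfsg.Agent.H87.VpF1

open Subgroup Cfsg Cfsg.Agent.H42.Vp

universe u

theorem f1 : F1Stmt.{u} := by
  intro G _ _ p hp K hKn hcop hidx hK hloc hx
  obtain ⟨a, ha⟩ := hidx
  obtain ⟨x, hxp, hxc⟩ := hx
  have hZ : IsPGroup p (center G) := by
    intro z
    refine ⟨a, ?_⟩
    have hmem : (z : G) ^ p ^ a ∈ K := by
      rw [← ha]
      exact K.pow_index_mem _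
    by_contra hne
    have hne' : (z : G) ^ p ^ a ≠ 1 := by
      intro h
      apply hne
      apply Subtype.ext
      simpa using h
    apply hxc
    refine hloc x hxp _ hmem hne' ?_
    have hc : (z : G) ^ p ^ a ∈ center G := pow_mem z.2 _
    exact (Subgroup.mem_center_iff.mp hc x)
  refine ⟨hZ, le_antisymm (H3.le_pCore hZ) ?_⟩
  intro y hy
  obtain ⟨⟨k, hk⟩, hk1⟩ := (Subgroup.ne_bot_iff_exists_ne_one.mp hK)
  have hk1' : k ≠ 1 := fun h => hk1 (Subtype.ext h)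
  have hP := H3.pCore_isPGroup p G
  obtain ⟨m, hm⟩ := hP ⟨y, hy⟩
  have hm' : y ^ p ^ m = 1 := by simpa using congrArg Subtype.val hm
  refine hloc y ⟨m, hm'⟩ k hk hk1' ?_
  have hn : (pCore p G).Normal := inferInstance
  have h1 : y * k * y⁻¹ * k⁻¹ ∈ K := K.mul_mem (hKn.conj_mem k hk y) (K.inv_mem hk)
  have h2 : y * k * y⁻¹ * k⁻¹ ∈ pCore p G := by
    have := (pCore p G).mul_mem hy (hn.conj_mem _ ((pCore p G).inv_mem hy) k)
    simpa [mul_assoc] using this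
  obtain ⟨n, hn2⟩ := hP ⟨_, h2⟩
  have hn2' : (y * k * y⁻¹ * k⁻¹) ^ p ^ n = 1 := by simpa using congrArg Subtype.val hn2
  have hd1 : orderOf (y * k * y⁻¹ * k⁻¹) ∣ p ^ n := orderOf_dvd_of_pow_eq_one hn2'
  have hd2 : orderOf (y * k * y⁻¹ * k⁻¹) ∣ Nat.card K := Subgroup.orderOf_dvd_natCard K h1
  have hone : orderOf (y * k * y⁻¹ * k⁻¹) = 1 :=
    Nat.eq_one_of_dvd_coprimes (Nat.Coprime.pow_right n hcop) hd2 hd1
  have h3 : y * k * y⁻¹ * k⁻¹ = 1 := orderOf_eq_one_iff.mp hone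
  have h4 : y * k = k * y := by
    calc y * k = (y * k * y⁻¹ * k⁻¹) * (k * y) := by group
      _ = k * y := by rw [h3, one_mul]
  exact h4

end Cfsg.Agent.H87.VpF1
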